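import Cfsg.Agent.KnownB.Proj.Orth.GraphFix

/-! Graph-field involutions of the plus type are conjugate to the standard one under `Inndiag`. -/

set_option autoImplicit false
set_option maxHeartbeats 1000000

namespace Cfsg.Agent.KnownB.Proj.Orth

open Matrix Module
open Cfsg.Agent.Forms (qPlus)

universe u

variable {F : Type u} [Field F] [Fintype F] {n : ℕ}

local notation "Ip" => (Fin (n + 1) ⊕ Fin (n + 1))

theorem ringAut_comm {p f : ℕ} [Fact p.Prime] (hF : Fintype.card F = p ^ f) (hf : 1 ≤ f)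
    (σ τ : F ≃+* F) : σ * τ = τ * σ := by
  obtain ⟨e⟩ := AutPSL.exists_ringAut_equiv (F := F) (by rw [Nat.card_eq_fintype_card, hF]) hf
  exact e.injective (by rw [map_mul, map_mul, mul_comm])

theorem ringAut_involution_unique {p f : ℕ} [Fact p.Prime] (hF : Fintype.card F = p ^ f)
    (hf : 1 ≤ f) {σ τ : F ≃+* F} (hσ : orderOf σ = 2) (hτ : orderOf τ = 2) : σ = τ := by
  classical
  obtain ⟨e⟩ := AutPSL.exists_ringAut_equiv (F := F) (by rw [Nat.card_eq_fintype_card, hF]) hf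
  haveI : NeZero f := ⟨by omega⟩
  by_contra hne
  have h2 : ∀ x : F ≃+* F, orderOf x = 2 → (e x) ^ 2 = 1 ∧ e x ≠ 1 := fun x hx =>
    ⟨by rw [← map_pow, ← hx, pow_orderOf_eq_one, map_one], fun h => by
      rw [e.injective (h.trans (map_one e).symm), orderOf_one] at hx; omega⟩
  have hsub : ({1, e σ, e τ} : Finset (Multiplicative (ZMod f))) ⊆
      Finset.univ.filter (fun a => a ^ 2 = 1) := by
    intro a ha
    simp only [Finset.mem_insert, Finset.mem_singleton] at ha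
    rcases ha with rfl | rfl | rfl
    · simp
    · simp [(h2 σ hσ).1]
    · simp [(h2 τ hτ).1]
  have hc := (Finset.card_le_card hsub).trans (IsCyclic.card_pow_eq_one_le two_pos)
  rw [Finset.card_insert_of_notMem (by simp [Ne.symm (h2 σ hσ).2, Ne.symm (h2 τ hτ).2]),
    Finset.card_pair (fun h => hne (e.injective h))] at hc
  omega

theorem coset_calc {M : Type*} [Group M] (α x Ab AR Fs Ft AtR Asb Ar : M) (hβ : α⁻¹ = Ab * Ft)
    (h : α * x * α⁻¹ = AR * Fs) (h1 : Ft * AR = AtR * Ft) (h2 : Fs * Ab = Asb * Fs)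
    (h3 : Ft * Fs = Fs * Ft) (h4 : Ar * Ar = 1) :
    x = Ab * AtR * Asb⁻¹ * Ar * (Ar * Fs) := by
  have e1 : x = α⁻¹ * (AR * Fs) * α := by rw [← h]; group
  have e2 : Fs * Ab⁻¹ = Asb⁻¹ * Fs := by
    rw [eq_inv_mul_iff_mul_eq, ← mul_assoc, ← h2, mul_inv_cancel_right]
  have e3 : α = Ft⁻¹ * Ab⁻¹ := by rw [← _root_.mul_inv_rev, ← hβ, inv_inv]
  calc x = Ab * Ft * (AR * Fs) * (Ft⁻¹ * Ab⁻¹) := by rw [e1, hβ, e3]
    _ = Ab * (Ft * AR) * Fs * (Ft⁻¹ * Ab⁻¹) := by group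
    _ = Ab * AtR * (Ft * Fs) * (Ft⁻¹ * Ab⁻¹) := by rw [h1]; group
    _ = Ab * AtR * (Fs * Ab⁻¹) := by rw [h3]; group
    _ = Ab * AtR * Asb⁻¹ * 1 * Fs := by rw [e2]; group
    _ = _ := by rw [← h4]; group

/-- Every graph-field involution is `Inndiag`-conjugate to the standard one. -/
theorem graph_std (hn : 4 ≤ n) {p f : ℕ} [Fact p.Prime] (hF : Fintype.card F = p ^ f) (hf : 1 ≤ f)
    {σ₀ : fieldSub (qPlus (n + 1) F)} (hσ₀ : orderOf (σ₀ : F ≃+* F) = 2)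
    (x : MulAut (Cfsg.POmega F ⇑(qPlus (n + 1) F)))
    (hx : ∃ (α γ φ : MulAut (Cfsg.POmega F ⇑(qPlus (n + 1) F))) (σ : F ≃+* F) (v : Ip → F)
        (g : GL Ip F), σ ≠ RingEquiv.refl F ∧ qPlus (n + 1) F v ≠ 0 ∧ (∀ i, σ (v i) = v i) ∧
        (g : Matrix Ip Ip F) = Cfsg.reflectionMatrix ⇑(qPlus (n + 1) F) v ∧
        Cfsg.IsInducedBySemilinearPOmega ⇑(qPlus (n + 1) F) g (RingEquiv.refl F) γ ∧
        Cfsg.IsFieldAutPOmegaOf ⇑(qPlus (n + 1) F) σ φ ∧ α * x * α⁻¹ = γ * φ)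
    (hx2 : orderOf x = 2) :
    ∃ h : MulAut (Cfsg.POmega F ⇑(qPlus (n + 1) F)),
      h ∈ (ptyPlus (n + 1)).ker.map (A (qPlus (n + 1) F)) ∧
      h * x * h⁻¹ = A (qPlus (n + 1) F) (rho n F) * Fd (qPlus (n + 1) F) σ₀ := by
  classical
  obtain ⟨α, γ, φ, σ, v, g, hσ, hv, hσv, hg, hγ, hφ, h⟩ := hx
  obtain ⟨-, σ', rfl, ho, h'⟩ := graph_class hn Nat.prime_two hx2 hσ hσv hg hγ hφ hv h
  have hG := good_qPlus (F := F) (n + 1) (by omega)
  obtain rfl : σ₀ = σ' := Subtype.ext (ringAut_involution_unique hF hf hσ₀ ho)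
  set R := reflGO (qPlus (n + 1) F) v
  obtain ⟨b, θ, hβ⟩ := exists_decomp hG fieldSub_qPlus α⁻¹
  set r := rho n F
  have hcomm : θ * σ₀ = σ₀ * θ := Subtype.ext (ringAut_comm hF hf _ _)
  set k := b * mapGO θ R * (mapGO σ₀ b)⁻¹ * r with hk
  have hrr : r * r = 1 := reflGO_mul_self _ _
  have hx' : x = A (qPlus (n + 1) F) k *
      (A (qPlus (n + 1) F) r * Fd (qPlus (n + 1) F) σ₀) := by
    rw [hk, map_mul, map_mul, map_mul, map_inv]
    refine coset_calc α x _ _ _ _ _ _ _ hβ h' (Fd_A θ R) (Fd_A σ₀ b) ?_ ?_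
    · rw [← map_mul, hcomm, map_mul]
    · rw [← map_mul, hrr, map_one]
  have hP := isPar_plus (F := F) (Nat.succ_pos n)
  have hkp : ptyPlus (n + 1) k = 1 := by
    rw [hk, map_mul, map_mul, map_mul, map_inv, mapGO_pty (by omega), mapGO_pty (by omega),
      mul_comm (ptyPlus (n + 1) b), mul_inv_cancel_right, rho_pty, hP.refl v hv]
    decide
  have hσr : ∀ i, (σ₀ : F ≃+* F) (planeVec (Nat.succ_pos n) (-1 : F) i) =
      planeVec (Nat.succ_pos n) (-1 : F) i := fun i => by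
    rcases i with i | i <;> by_cases hi : i = (⟨0, Nat.succ_pos n⟩ : Fin (n + 1)) <;>
      simp [planeVec, Pi.single_apply, hi, apply_ite ⇑(σ₀ : F ≃+* F)]
  have hrv : qPlus (n + 1) F (planeVec (Nat.succ_pos n) (-1 : F)) ≠ 0 := by
    rw [Q_planeVec]; exact neg_ne_zero.mpr one_ne_zero
  have T := plusGraphTwist hn hσ₀ hrv hσr
  obtain ⟨c, hc⟩ := T.coset_conj ⟨k, hkp⟩ (by
    show (A _ k * (A _ r * Fd _ σ₀)) ^ 2 = 1
    rw [← hx', ← hx2, pow_orderOf_eq_one])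
  change A (qPlus (n + 1) F) k * (A _ r * Fd _ σ₀) =
    A _ c.1 * (A _ r * Fd _ σ₀) * (A _ c.1)⁻¹ at hc
  refine ⟨(A _ c.1)⁻¹, inv_mem ⟨c.1, c.2, rfl⟩, ?_⟩
  rw [hx', hc]
  group

end Cfsg.Agent.KnownB.Proj.Orth
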