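import Cfsg.Agent.KnownB.Proj.Orth.GraphSplit

/-! Involutory graph-field automorphisms of the plus type: centralisers and splitting. -/

set_option autoImplicit false
set_option maxHeartbeats 1000000

namespace Cfsg.Agent.KnownB.Proj.Orth

open Matrix Module
open Cfsg.Agent.Forms (qPlus qMinus)
open Cfsg.Agent.KnownB.AutPSL (fixSub mem_fixSub splitClassCount_eq_relIndex)

universe u v

theorem exists_aniso_one (K : Type u) [Field K] [Finite K] : ∃ ζ : K, Aniso 1 ζ := by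
  have hni : ¬ Function.Injective fun z : K => z ^ 2 + z := fun h => by
    have h1 := @h 0 (-1) (by simp)
    simp at h1
  obtain ⟨c, hc⟩ : ∃ c : K, ∀ z, z ^ 2 + z ≠ c := by
    have hns := mt Finite.injective_iff_surjective.mpr hni
    simp only [Function.Surjective] at hns
    push Not at hns
    exact hns
  refine ⟨-c, fun z₁ z₂ h => ?_⟩
  by_cases h2 : z₂ = 0
  · subst h2; exact ⟨by simpa using h, rfl⟩
  · exfalso
    refine hc (z₁ / z₂) ?_
    field_simp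
    linear_combination h

variable {F : Type u} [Field F] [Fintype F] {n : ℕ}

local notation "Ip" => (Fin (n + 1) ⊕ Fin (n + 1))
local notation "Jp" => ((Fin n ⊕ Fin n) ⊕ Fin 2)

theorem rho_fixed (σ : F ≃+* F) (i : Ip) :
    σ (planeVec (Nat.succ_pos n) (-1 : F) i) = planeVec (Nat.succ_pos n) (-1 : F) i := by
  rcases i with i | i <;> by_cases hi : i = (⟨0, Nat.succ_pos n⟩ : Fin (n + 1)) <;>
    simp [planeVec, Pi.single_apply, hi, apply_ite ⇑σ]

theorem rho_anis : qPlus (n + 1) F (planeVec (Nat.succ_pos n) (-1 : F)) ≠ 0 := by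
  rw [Q_planeVec]; exact neg_ne_zero.mpr one_ne_zero

/-- Similitudes of square multiplier are inner times the rest; in even characteristic all are. -/
theorem inn_le_two (hn : 4 ≤ n) (h2 : (2 : F) = 0) :
    (ptyPlus (n + 1)).ker.map (A (qPlus (n + 1) F)) ≤
      Cfsg.Inn (Cfsg.POmega F ⇑(qPlus (n + 1) F)) := by
  rintro _ ⟨g, hg, rfl⟩
  have hg1 : ptyPlus (n + 1) g = 1 := hg
  have hV := exists_ne_qPlus (F := F) (m := n + 1) (Nat.succ_pos n)
  have H := isPar_plus (F := F) (Nat.succ_pos n)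
  obtain ⟨u, hu⟩ := Forms.exists_sq_of_two_eq_zero h2 (sim hV g : F)
  have hu0 : u ≠ 0 := fun h => (sim hV g).ne_zero (by rw [← hu, h]; ring)
  have hmem : g * (sc _ (Units.mk0 u hu0))⁻¹ ∈ (sim hV).ker := by
    rw [MonoidHom.mem_ker, map_mul, map_inv, sim_sc, mul_inv_eq_one]
    exact Units.ext (by rw [Units.val_mul, Units.val_mk0, ← hu]; ring)
  rw [sim_ker] at hmem
  obtain ⟨s, hs⟩ := hmem
  have hso := par_mem_omega_two H h2 Forms.qPlus_nondegenerate (by simp; omega) s (by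
    rw [hs, map_mul, map_inv, H.scal, inv_one, mul_one, hg1])
  rw [show g = isoInc _ s * sc _ (Units.mk0 u hu0) by rw [hs, inv_mul_cancel_right], map_mul,
    (A_eq_one_iff' Forms.qPlus_nondegenerate (by simp; omega) _).mpr ⟨_, rfl⟩, mul_one, Inn_eq_map]
  exact ⟨_, ⟨s, hso, rfl⟩, rfl⟩

variable {F₀ : Type v} [Field F₀] [Fintype F₀]

/-- The data of the standard twist. -/
structure GFData (j : F₀ →+* F) (σ : fieldSub (qPlus (n + 1) F)) (ζ : F₀)
    (L : (Jp → F) ≃ₗ[F] (Ip → F)) : Prop where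
  ord : orderOf (σ : F ≃+* F) = 2
  fixed : ∀ x : F, (σ : F ≃+* F) x = x ↔ x ∈ j.range
  aniso : Aniso 1 ζ
  form : ∀ v, qPlus (n + 1) F (L v) = qMinus n F 1 (j ζ) v
  semi : ∀ u, L (⇑(σ : F ≃+* F) ∘ u) =
    ((rho n F).1 : Matrix Ip Ip F) *ᵥ (⇑(σ : F ≃+* F) ∘ L u)

namespace GFData

variable {j : F₀ →+* F} {σ : fieldSub (qPlus (n + 1) F)} {ζ : F₀} {L : (((Fin n ⊕ Fin n) ⊕ Fin 2) → F) ≃ₗ[F] ((Fin (n + 1) ⊕ Fin (n + 1)) → F)}
  (D : GFData j σ ζ L)
include D

theorem sq_eq (x : F) : (σ : F ≃+* F) ((σ : F ≃+* F) x) = x := by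
  have := pow_orderOf_eq_one (σ : F ≃+* F)
  rw [D.ord, sq] at this
  exact DFunLike.congr_fun this x

theorem nrm_surj (c : F₀) (hc : c ≠ 0) (hn : 4 ≤ n) : ∃ w : F, w * (σ : F ≃+* F) w = j c := by
  have L' := plusGraphTwist hn D.ord rho_anis (rho_fixed _)
  obtain ⟨u, hu⟩ := L'.exists_nrm_eq (c := Units.map (j : F₀ →* F) (Units.mk0 c hc))
    (Units.ext ((D.fixed _).mpr ⟨c, rfl⟩))
  refine ⟨(u : F), ?_⟩
  have h := congrArg Units.val hu
  simpa [AutPSL.nrm, mul_comm] using h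

theorem isSquare_hom (hn : 4 ≤ n) (h2 : (2 : F) ≠ 0) (c : F₀) : IsSquare (j c) := by
  by_cases hc : c = 0
  · rw [hc, map_zero]; exact IsSquare.zero
  refine (isSquare_norm_iff j D.fixed D.sq_eq h2 (fun d hd => D.nrm_surj d hd hn) (j c)
    ((map_ne_zero j).mpr hc) (c * c) ?_).mpr (IsSquare.mul_self c)
  rw [(D.fixed (j c)).mpr ⟨c, rfl⟩, map_mul]

theorem centralizer_range (hn : 4 ≤ n)
    {ε₀ : GO (qMinus n F₀ 1 ζ) →* Multiplicative (ZMod 2)}
    (hε₀ : IsPar (exists_ne_qMinus D.aniso) (n + 1) ε₀) :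
    (ptyPlus (n + 1)).ker.map (A (qPlus (n + 1) F)) ⊓
        Subgroup.centralizer {A (qPlus (n + 1) F) (rho n F) * Fd (qPlus (n + 1) F) σ} =
      ε₀.ker.map ((A (qPlus (n + 1) F)).comp (gfHom j L D.form)) := by
  have L' := plusGraphTwist hn D.ord rho_anis (rho_fixed _)
  rw [← range_comp_ker, show rho n F = reflGO (qPlus (n + 1) F) (planeVec (Nat.succ_pos n) (-1))
    from rfl, L'.centralizer_eq]
  have hpar := gfHom_par j L D.form (by omega) D.aniso hε₀
  have hfix : ∀ g : GO (qPlus (n + 1) F),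
      gfMap σ (planeVec (Nat.succ_pos n) (-1)) g = g ↔ ∃ g₀, gfHom j L D.form g₀ = g := by
    intro g
    rw [gfMap_apply]
    exact gfHom_range j L D.form D.aniso D.fixed D.semi g
  ext β
  constructor
  · rintro ⟨g, hg, rfl⟩
    rw [SetLike.mem_coe, mem_fixSub] at hg
    obtain ⟨g₀, hg₀⟩ := (hfix g.1).mp (congrArg Subtype.val hg)
    refine ⟨g₀, ?_, ?_⟩
    · rw [SetLike.mem_coe, MonoidHom.mem_ker, ← hpar, hg₀]
      exact g.2
    · simp only [MonoidHom.comp_apply, Subgroup.subtype_apply, hg₀]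
  · rintro ⟨g₀, hg₀, rfl⟩
    rw [SetLike.mem_coe, MonoidHom.mem_ker, ← hpar] at hg₀
    refine ⟨⟨gfHom j L D.form g₀, hg₀⟩, ?_, rfl⟩
    rw [SetLike.mem_coe, mem_fixSub]
    exact Subtype.ext ((hfix _).mpr ⟨g₀, rfl⟩)

theorem centralizer_equiv (hn : 4 ≤ n)
    {ε₀ : GO (qMinus n F₀ 1 ζ) →* Multiplicative (ZMod 2)}
    (hε₀ : IsPar (exists_ne_qMinus D.aniso) (n + 1) ε₀) :
    Nonempty (↥((ptyPlus (n + 1)).ker.map (A (qPlus (n + 1) F)) ⊓
        Subgroup.centralizer {A (qPlus (n + 1) F) (rho n F) * Fd (qPlus (n + 1) F) σ}) ≃*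
      ↥(ε₀.ker.map (A (qMinus n F₀ 1 ζ)))) := by
  let Φ : ε₀.ker →* MulAut (Cfsg.POmega F ⇑(qPlus (n + 1) F)) :=
    ((A _).comp (gfHom j L D.form)).comp ε₀.ker.subtype
  let Ψ : ε₀.ker →* MulAut (Cfsg.POmega F₀ ⇑(qMinus n F₀ 1 ζ)) := (A _).comp ε₀.ker.subtype
  have hker : Φ.ker = Ψ.ker := by
    ext g₀
    rw [MonoidHom.mem_ker, MonoidHom.mem_ker]
    show A _ (gfHom j L D.form g₀.1) = 1 ↔ A _ g₀.1 = 1
    rw [A_eq_one_iff (good_qPlus (n + 1) (by omega)),
      A_eq_one_iff (good_qMinus n (by omega) D.aniso)]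
    constructor
    · rintro ⟨u, hu⟩
      have h : ∀ b, (g₀.1.1 : Matrix Jp Jp F₀).map j *ᵥ Pi.single b 1 =
          (u : F) • Pi.single b 1 := fun b => L.injective (by
        rw [← gfHom_apply j L D.form, ← hu, sc_mulVec, map_smul])
      have h' : ∀ a b, j ((g₀.1.1 : Matrix Jp Jp F₀) a b) = if a = b then (u : F) else 0 :=
        fun a b => by
          have := congrFun (h b) a
          simpa [Matrix.mulVec_single_one, Pi.single_apply] using this
      have h0 : j ((g₀.1.1 : Matrix Jp Jp F₀) (Sum.inr 0) (Sum.inr 0)) = (u : F) :=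
        (h' _ _).trans (if_pos rfl)
      have hu0 : (g₀.1.1 : Matrix Jp Jp F₀) (Sum.inr 0) (Sum.inr 0) ≠ 0 := fun e =>
        u.ne_zero (by rw [← h0, e, map_zero])
      refine ⟨Units.mk0 _ hu0, Subtype.ext (Units.ext (Matrix.ext fun a b => j.injective ?_))⟩
      show j (Matrix.scalar Jp ((g₀.1.1 : Matrix Jp Jp F₀) (Sum.inr 0) (Sum.inr 0)) a b) = _
      rw [h' a b]
      by_cases hab : a = b <;> simp [Matrix.scalar_apply, hab, h0]
    · rintro ⟨u, hu⟩
      exact ⟨Units.map (j : F₀ →* F) u, by rw [← gfHom_sc j L D.form, hu]⟩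
  have e1 : (ptyPlus (n + 1)).ker.map (A (qPlus (n + 1) F)) ⊓
      Subgroup.centralizer {A (qPlus (n + 1) F) (rho n F) * Fd (qPlus (n + 1) F) σ} = Φ.range := by
    rw [D.centralizer_range hn hε₀, MonoidHom.range_comp _ _, Subgroup.range_subtype]
  have e2 : Ψ.range = ε₀.ker.map (A (qMinus n F₀ 1 ζ)) := range_comp_ker ε₀
  exact ⟨(MulEquiv.subgroupCongr e1).trans ((QuotientGroup.quotientKerEquivRange Φ).symm.trans
    ((QuotientGroup.quotientMulEquivOfEq hker).trans ((QuotientGroup.quotientKerEquivRange Ψ).trans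
      (MulEquiv.subgroupCongr e2))))⟩

end GFData

end Cfsg.Agent.KnownB.Proj.Orth
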