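import Cfsg.Agent.KnownB.Proj.Orth.TwistGen
import Cfsg.Agent.Forms.OrthFacts

/-! Fixed points of field twists: centralisers and the inner part. -/

set_option autoImplicit false
set_option maxHeartbeats 1000000

namespace Cfsg.Agent.KnownB.Proj.Orth

open Matrix Module
open Cfsg.Agent.KnownB.AutPSL (fixSub mem_fixSub)

universe u v

variable {F : Type u} [Field F] [Finite F] {F₀ : Type v} [Field F₀] [Finite F₀] (j : F₀ →+* F)
  {ι : Type} [Fintype ι] [DecidableEq ι] {Q : QuadraticForm F (ι → F)}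
  {Q₀ : QuadraticForm F₀ (ι → F₀)}

omit [Finite F] [Finite F₀] in
/-- The fixed similitudes are those defined over the fixed field. -/
theorem range_liftJ_eq (σ : fieldSub Q) (hj : ∀ x : F, (σ : F ≃+* F) x = x ↔ x ∈ j.range)
    (hQ : ∀ x, Q (⇑j ∘ x) = j (Q₀ x)) (hV₀ : ∃ v, Q₀ v ≠ 0) (g : GO Q) :
    mapGO σ g = g ↔ ∃ g₀, liftJ j hQ g₀ = g := by
  constructor
  · intro hg
    have h : ∀ a b, (g.1 : Matrix ι ι F) a b ∈ j.range := fun a b => (hj _).mp
      (congrArg (fun x : GO Q => (x.1 : Matrix ι ι F) a b) hg)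
    choose e he using h
    have hme : (Matrix.of e).map j = (g.1 : Matrix ι ι F) := Matrix.ext fun a b => he a b
    have hd : (Matrix.of e).det ≠ 0 := fun h => (GeneralLinearGroup.det g.1).ne_zero (by
      show (g.1 : Matrix ι ι F).det = 0
      rw [← hme, ← RingHom.mapMatrix_apply, ← RingHom.map_det, h, map_zero])
    obtain ⟨v₀, hv₀⟩ := hV₀
    obtain ⟨c, hc⟩ := g.2
    set c₀ := Q₀ (Matrix.of e *ᵥ v₀) / Q₀ v₀ with hc₀
    have key : ∀ x, j (Q₀ (Matrix.of e *ᵥ x)) = (c : F) * j (Q₀ x) := fun x => by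
      rw [← hQ, ← hQ, ← gl_map_mulVec, hme, hc]
    have hcc : j c₀ = (c : F) := by
      rw [hc₀, map_div₀, key, mul_div_assoc, div_self ((map_ne_zero j).mpr hv₀), mul_one]
    have hc0 : c₀ ≠ 0 := fun h => c.ne_zero (by rw [← hcc, h, map_zero])
    refine ⟨⟨GeneralLinearGroup.mkOfDetNeZero (Matrix.of e) hd, Units.mk0 c₀ hc0, fun x => ?_⟩,
      Subtype.ext (Units.ext hme)⟩
    refine j.injective ?_
    show j (Q₀ (Matrix.of e *ᵥ x)) = _
    rw [key, map_mul, Units.val_mk0, hcc]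
  · rintro ⟨g₀, rfl⟩
    exact Subtype.ext (Units.ext (Matrix.ext fun a b => (hj _).mpr ⟨_, rfl⟩))

theorem liftJ_sc (hQ : ∀ x, Q (⇑j ∘ x) = j (Q₀ x)) (u : F₀ˣ) :
    liftJ j hQ (sc Q₀ u) = sc Q (Units.map (j : F₀ →* F) u) := by
  refine Subtype.ext (Units.ext ?_)
  show (Matrix.scalar ι (u : F₀)).map j = Matrix.scalar ι (j (u : F₀))
  ext a b
  by_cases hab : a = b <;> simp [Matrix.scalar_apply, hab]

/-- The centraliser of a field twist is the group over the fixed field. -/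
theorem fix_equiv [Nonempty ι] (σ : fieldSub Q)
    (hj : ∀ x : F, (σ : F ≃+* F) x = x ↔ x ∈ j.range) (hQ : ∀ x, Q (⇑j ∘ x) = j (Q₀ x))
    (hn₀ : (QuadraticMap.polarBilin Q₀).Nondegenerate) (hdim : 5 ≤ Fintype.card ι)
    (hA : ∀ g : GO Q, A Q g = 1 ↔ g ∈ (sc Q).range)
    (hA₀ : ∀ g : GO Q₀, A Q₀ g = 1 ↔ g ∈ (sc Q₀).range)
    {hV : ∃ v, Q v ≠ 0} {hV₀ : ∃ v, Q₀ v ≠ 0} {k : ℕ}
    {ε : GO Q →* Multiplicative (ZMod 2)} {ε₀ : GO Q₀ →* Multiplicative (ZMod 2)}
    (H : IsPar hV k ε) (H₀ : IsPar hV₀ k ε₀) (hinv : ∀ g, ε (mapGO σ g) = ε g) :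
    Nonempty (↥((fixSub (kerMap ε (mapGO σ) hinv)).map ((A Q).comp ε.ker.subtype)) ≃*
      ↥(ε₀.ker.map (A Q₀))) := by
  have hpar : ∀ g₀, ε (liftJ j hQ g₀) = ε₀ g₀ :=
    par_comp j hQ hn₀ hdim H H₀ (liftJ j hQ) (liftJ_val j hQ)
  let Φ : ε₀.ker →* MulAut (Cfsg.POmega F ⇑Q) :=
    ((A Q).comp (liftJ j hQ)).comp ε₀.ker.subtype
  have hrange : (fixSub (kerMap ε (mapGO σ) hinv)).map ((A Q).comp ε.ker.subtype) = Φ.range := by
    ext β
    constructor
    · rintro ⟨g, hg, rfl⟩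
      obtain ⟨g₀, hg₀⟩ := (range_liftJ_eq j σ hj hQ hV₀ g.1).mp
        (congrArg Subtype.val (mem_fixSub.mp hg))
      refine ⟨⟨g₀, ?_⟩, congrArg (A Q) hg₀⟩
      show ε₀ g₀ = 1
      rw [← hpar, hg₀]
      exact g.2
    · rintro ⟨g₀, rfl⟩
      exact ⟨⟨liftJ j hQ g₀.1, (hpar _).trans g₀.2⟩, mem_fixSub.mpr (Subtype.ext
        ((range_liftJ_eq j σ hj hQ hV₀ _).mpr ⟨_, rfl⟩)), rfl⟩
  let Ψ : ε₀.ker →* MulAut (Cfsg.POmega F₀ ⇑Q₀) := (A Q₀).comp ε₀.ker.subtype
  have hker : Φ.ker = Ψ.ker := by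
    ext g₀
    rw [MonoidHom.mem_ker, MonoidHom.mem_ker]
    show A Q (liftJ j hQ g₀.1) = 1 ↔ A Q₀ g₀.1 = 1
    rw [hA, hA₀]
    constructor
    · rintro ⟨u, hu⟩
      obtain ⟨i⟩ := ‹Nonempty ι›
      have h1 := congrArg (fun g : GO Q => ((g.1 : GL ι F) : Matrix ι ι F) i i) hu
      have h2 : (u : F) = j ((g₀.1.1 : Matrix ι ι F₀) i i) := by
        simpa [sc, liftJ, Matrix.scalar_apply] using h1
      have hu0 : (g₀.1.1 : Matrix ι ι F₀) i i ≠ 0 := fun h => u.ne_zero (by rw [h2, h, map_zero])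
      refine ⟨Units.mk0 _ hu0, Subtype.ext (Units.ext (Matrix.ext fun a b => j.injective ?_))⟩
      have h3 := congrArg (fun g : GO Q => ((g.1 : GL ι F) : Matrix ι ι F) a b) hu
      simp only [sc, MonoidHom.codRestrict_apply] at h3
      show j (Matrix.scalar ι _ a b) = j _
      refine Eq.trans ?_ h3
      show j (Matrix.scalar ι ((g₀.1.1 : Matrix ι ι F₀) i i) a b) = Matrix.scalar ι (u : F) a b
      rw [h2]
      by_cases hab : a = b <;> simp [Matrix.scalar_apply, hab]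
    · rintro ⟨u, hu⟩
      exact ⟨Units.map (j : F₀ →* F) u, by rw [← liftJ_sc, hu]⟩
  refine ⟨(MulEquiv.subgroupCongr hrange).trans ((QuotientGroup.quotientKerEquivRange Φ).symm.trans
    ((QuotientGroup.quotientMulEquivOfEq hker).trans ((QuotientGroup.quotientKerEquivRange Ψ).trans
      (MulEquiv.subgroupCongr ?_))))⟩
  rw [MonoidHom.range_comp, Subgroup.range_subtype]

/-- In even characteristic an isometry of trivial character is in `Ω`. -/
theorem par_mem_omega_two {hV₀ : ∃ v, Q₀ v ≠ 0} {k : ℕ}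
    {ε₀ : GO Q₀ →* Multiplicative (ZMod 2)} (H₀ : IsPar hV₀ k ε₀) (h2 : (2 : F₀) = 0)
    (hQ : (QuadraticMap.polarBilin Q₀).Nondegenerate) (hn : 5 ≤ Fintype.card ι)
    (s : Cfsg.isometryGroup F₀ ⇑Q₀) (hs : ε₀ (isoInc Q₀ s) = 1) : s ∈ Cfsg.Omega F₀ ⇑Q₀ := by
  have hd : finrank F₀ (ι → F₀) = Fintype.card ι := Module.finrank_fintype_fun_eq_card F₀
  have hgen := Forms.closure_reflectionSet_two h2 hQ (Or.inr (by omega))
  have key : ∀ r : Forms.orthGroup Q₀,
      ε₀ (isoInc Q₀ ((Forms.isometryEquiv Q₀).symm r)) = Forms.dicksonHom hQ hgen r := by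
    intro r
    have hr : r ∈ Subgroup.closure (Forms.reflectionSet Q₀) := hgen ▸ Subgroup.mem_top r
    induction hr using Subgroup.closure_induction with
    | mem r hr =>
      obtain ⟨v, hv, rfl⟩ := hr
      show ε₀ (reflGO Q₀ v) = Multiplicative.ofAdd (Forms.dickson (Forms.reflection Q₀ v))
      rw [H₀.refl v hv, Forms.dickson_reflection hQ hv]
    | one => simp
    | mul x y _ _ hx hy => simp only [map_mul, hx, hy]
    | inv x _ hx => simp only [map_inv, hx]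
  rw [Forms.mem_omega_iff, (Forms.commutator_index_two h2 hQ (Or.inr (by omega)) (by omega)).2]
  have h := key (Forms.isometryEquiv Q₀ s)
  rw [MulEquiv.symm_apply_apply, hs] at h
  exact congrArg Multiplicative.toAdd h.symm

/-- Every element of trivial character is inner times rational, when non-squares stay non-squares. -/
theorem exists_inn_mul_rational (hQ : ∀ x, Q (⇑j ∘ x) = j (Q₀ x))
    (hn : (QuadraticMap.polarBilin Q).Nondegenerate)
    (hn₀ : (QuadraticMap.polarBilin Q₀).Nondegenerate) (hdim : 5 ≤ Fintype.card ι)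
    {hV : ∃ v, Q v ≠ 0} {hV₀ : ∃ v, Q₀ v ≠ 0} {k : ℕ}
    {ε : GO Q →* Multiplicative (ZMod 2)} {ε₀ : GO Q₀ →* Multiplicative (ZMod 2)}
    (H : IsPar hV k ε) (H₀ : IsPar hV₀ k ε₀) (hsurj : Function.Surjective (sim hV₀))
    (hns : ∀ a : F₀, (2 : F) ≠ 0 → IsSquare (j a) → IsSquare a)
    (hA : ∀ u, A Q (sc Q u) = 1) (g : GO Q) (hg : ε g = 1) :
    ∃ g₀ : GO Q₀, ε₀ g₀ = 1 ∧ A Q g * (A Q (liftJ j hQ g₀))⁻¹ ∈ Cfsg.Inn (Cfsg.POmega F ⇑Q) := by
  classical
  haveI := Fintype.ofFinite F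
  haveI := Fintype.ofFinite F₀
  have hpar : ∀ g₀, ε (liftJ j hQ g₀) = ε₀ g₀ :=
    par_comp j hQ hn₀ hdim H H₀ (liftJ j hQ) (liftJ_val j hQ)
  have hinn : ∀ (s : Cfsg.isometryGroup F ⇑Q) (u : Fˣ), s ∈ Cfsg.Omega F ⇑Q →
      A Q (isoInc Q s * sc Q u) ∈ Cfsg.Inn (Cfsg.POmega F ⇑Q) := fun s u hs => by
    rw [map_mul, hA, mul_one, Inn_eq_map]
    exact ⟨_, ⟨s, hs, rfl⟩, rfl⟩
  by_cases h2 : (2 : F) = 0
  · obtain ⟨u, hu⟩ := Forms.exists_sq_of_two_eq_zero h2 (sim hV g : F)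
    have hu0 : u ≠ 0 := fun h => (sim hV g).ne_zero (by rw [← hu, h]; ring)
    have hmem : g * (sc Q (Units.mk0 u hu0))⁻¹ ∈ (sim hV).ker := by
      rw [MonoidHom.mem_ker, map_mul, map_inv, sim_sc, mul_inv_eq_one]
      exact Units.ext (by rw [Units.val_mul, Units.val_mk0, ← hu]; ring)
    rw [sim_ker] at hmem
    obtain ⟨s, hs⟩ := hmem
    refine ⟨1, map_one _, ?_⟩
    rw [map_one, map_one, inv_one, mul_one,
      show g = isoInc Q s * sc Q (Units.mk0 u hu0) by rw [hs, inv_mul_cancel_right]]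
    refine hinn s _ (par_mem_omega_two H h2 hn hdim s ?_)
    rw [hs, map_mul, map_inv, H.scal, inv_one, mul_one, hg]
  · have h20 : (2 : F₀) ≠ 0 := fun h => h2 (by rw [← map_ofNat j 2, h, map_zero])
    have hd2 : 2 ≤ finrank F₀ (ι → F₀) := by rw [Module.finrank_fintype_fun_eq_card]; omega
    have hd2' : 2 ≤ finrank F (ι → F) := by rw [Module.finrank_fintype_fun_eq_card]; omega
    obtain ⟨U, W, hU, hW, hUs, hWs⟩ := Forms.exists_reflection_pair h20 hn₀ hd2
    -- first the multiplier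
    obtain ⟨g₁, hg₁, hsq⟩ : ∃ g₁ : GO Q₀, ε₀ g₁ = 1 ∧
        IsSquare (sim hV g * (sim hV (liftJ j hQ g₁))⁻¹) := by
      by_cases hs : IsSquare (sim hV g)
      · exact ⟨1, map_one _, by simpa using hs⟩
      obtain ⟨c, hc⟩ : ∃ c : F₀ˣ, ¬ IsSquare (c : F₀) := ⟨Units.mk0 (Q₀ W) hW, hWs⟩
      obtain ⟨d, hd⟩ := hsurj c
      have hc' : ¬ IsSquare (j (c : F₀)) := fun h => hc (hns _ h2 h)
      have key : ∀ d' : GO Q₀, sim hV₀ d' = c →
          IsSquare (sim hV g * (sim hV (liftJ j hQ d'))⁻¹) := by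
        intro d' hd'
        have hgs : ¬ IsSquare (sim hV g : F) := fun ⟨y, hy⟩ => hs
          ⟨Units.mk0 y (fun h => (sim hV g).ne_zero (by rw [hy, h, mul_zero])), Units.ext hy⟩
        have h1 : IsSquare ((sim hV g : F) * (j (c : F₀))⁻¹) := by
          have := (binary_isSquare_mul_not (x := (sim hV g : F)) (Units.ne_zero _)
            (y := (j (c : F₀))⁻¹) (fun h => hc' (by simpa using h.inv))).mpr hgs
          exact this
        obtain ⟨y, hy⟩ := h1
        rw [sim_hom j hQ hV hV₀ (liftJ j hQ) (liftJ_val j hQ), hd']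
        have hy0 : y ≠ 0 := fun h => by
          rw [h, mul_zero] at hy
          simp at hy
        exact ⟨Units.mk0 y hy0, Units.ext (by simpa using hy)⟩
      rcases mz2_cases (ε₀ d) with hp | hp
      · exact ⟨d, hp, key d hd⟩
      · refine ⟨d * reflGO Q₀ U, by rw [map_mul, hp, H₀.refl U hU]; decide, key _ ?_⟩
        rw [map_mul, hd, sim_reflGO, mul_one]
    obtain ⟨u, hu⟩ := hsq
    have hmem : g * (liftJ j hQ g₁)⁻¹ * (sc Q u)⁻¹ ∈ (sim hV).ker := by
      rw [MonoidHom.mem_ker, map_mul, map_mul, map_inv, map_inv, sim_sc, ← hu, mul_inv_cancel]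
    rw [sim_ker] at hmem
    obtain ⟨s, hs⟩ := hmem
    have hεs : ε (isoInc Q s) = 1 := by
      rw [hs, map_mul, map_mul, map_inv, map_inv, H.scal, hpar, hg₁, hg]; simp
    have hdet : Forms.orthDet Q (Forms.isometryEquiv Q s) = 1 := by
      have h := (H.det h2 (isoInc Q s)).mpr hεs
      rw [show sim hV (isoInc Q s) = 1 by rw [← MonoidHom.mem_ker, sim_ker]; exact ⟨s, rfl⟩,
        one_pow] at h
      refine Units.ext ?_
      rw [Forms.det_isometryEquiv]
      exact congrArg Units.val h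
    have hfin : A Q g * (A Q (liftJ j hQ g₁))⁻¹ = A Q (isoInc Q s * sc Q u) := by
      rw [hs, inv_mul_cancel_right, map_mul, map_inv]
    by_cases hsp : Forms.spinor Q h2 (Forms.isometryEquiv Q s) = 1
    · refine ⟨g₁, hg₁, ?_⟩
      rw [hfin]
      exact hinn s u ((Forms.mem_omega_iff Q s).mpr
        ((Forms.mem_commutator_iff h2 hn hd2').mpr ⟨hdet, hsp⟩))
    · set p := reflGO Q₀ U * reflGO Q₀ W with hp
      set U' : ι → F := ⇑j ∘ U
      set W' : ι → F := ⇑j ∘ W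
      have hU' : Q U' ≠ 0 := by rw [hQ]; exact (map_ne_zero j).mpr hU
      have hW' : Q W' ≠ 0 := by rw [hQ]; exact (map_ne_zero j).mpr hW
      set t := (Forms.isometryEquiv Q).symm (Forms.reflection Q U' * Forms.reflection Q W') with ht
      have hlift : liftJ j hQ p = isoInc Q t := by
        rw [hp, map_mul, refl_hom j hQ _ (liftJ_val j hQ), refl_hom j hQ _ (liftJ_val j hQ), ht,
          map_mul, map_mul]
        rfl
      refine ⟨p * g₁, by rw [hp, map_mul, map_mul, H₀.refl U hU, H₀.refl W hW, hg₁]; decide, ?_⟩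
      rw [map_mul (liftJ j hQ), map_mul (A Q), _root_.mul_inv_rev, ← mul_assoc, hfin, hlift,
        ← map_inv, ← map_mul, mul_assoc, (sc_comm u _).eq, ← mul_assoc, ← map_inv, ← map_mul]
      refine hinn _ u ((Forms.mem_omega_iff Q _).mpr
        ((Forms.mem_commutator_iff h2 hn hd2').mpr ⟨?_, ?_⟩))
      · rw [map_mul, map_inv, ht, MulEquiv.apply_symm_apply, map_mul, map_inv, hdet, one_mul,
          inv_eq_one, map_mul]
        refine Units.ext ?_
        rw [Units.val_mul, Forms.orthDet_reflection Q hU', Forms.orthDet_reflection Q hW']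
        simp
      · rw [map_mul, map_inv, ht, MulEquiv.apply_symm_apply, map_mul, map_inv, map_mul,
          (Int.units_eq_one_or _).resolve_left hsp,
          (Forms.spinor_reflection h2 hn hU').1 (by rw [hQ]; exact hUs.map j),
          (Forms.spinor_reflection h2 hn hW').2 (by rw [hQ]; exact fun h => hWs (hns _ h2 h))]
        decide

end Cfsg.Agent.KnownB.Proj.Orth
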