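import Cfsg.Agent.KnownB.Proj.Orth.MinusApps
import Cfsg.Agent.KnownB.Proj.Orth.FixField

/-! Centralisers and splitting of field classes of the minus type. -/

set_option autoImplicit false
set_option maxHeartbeats 1000000

namespace Cfsg.Agent.KnownB.Proj.Orth

open Matrix Module Polynomial
open Cfsg.Agent.Forms (qMinus)
open Cfsg.Agent.KnownB.AutPSL (fixSub splitClassCount_eq_relIndex)

universe u v

variable {F : Type u} [Field F] [Fintype F] {m : ℕ} {a b : F}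

local notation "Jm" => ((Fin m ⊕ Fin m) ⊕ Fin 2)

theorem qMinus_comp' {F₀ : Type v} [Field F₀] (j : F₀ →+* F) (a₀ b₀ : F₀)
    (v : Jm → F₀) : qMinus m F (j a₀) (j b₀) (⇑j ∘ v) = j (qMinus m F₀ a₀ b₀ v) := by
  rw [Forms.coe_qMinus, Forms.coe_qMinus]
  simp [Cfsg.quadFormMinus, map_sum]

/-- An anisotropic plane survives only odd extensions. -/
theorem odd_of_aniso {p f r : ℕ} [Fact p.Prime] (hF : Fintype.card F = p ^ f) (hrf : r ∣ f)
    (hr : r.Prime) {F₀ : Type v} [Field F₀] [Fintype F₀] (hF₀ : Fintype.card F₀ = p ^ (f / r))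
    (j : F₀ →+* F) {a₀ b₀ : F₀} (hab : Aniso (j a₀) (j b₀)) : Odd r := by
  refine hr.odd_of_ne_two fun h2 => ?_
  subst h2
  letI := j.toAlgebra
  have hab₀ : Aniso a₀ b₀ := fun z₁ z₂ h => by
    have h' := hab (j z₁) (j z₂) (by
      rw [← map_pow, ← map_pow, ← map_mul, ← map_mul, ← map_mul, ← map_add, ← map_add, h, map_zero])
    exact ⟨j.injective (h'.1.trans (map_zero j).symm), j.injective (h'.2.trans (map_zero j).symm)⟩
  have hd := minusPoly_natDegree a₀ b₀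
  haveI := Fact.mk (minusPoly_irreducible hab₀)
  have hfin : finrank F₀ F = 2 := by
    have h := Module.card_eq_pow_finrank (K := F₀) (V := F)
    rw [hF, hF₀, ← pow_mul] at h
    have hf0 : 0 < f := by
      rcases Nat.eq_zero_or_pos f with rfl | h0
      · have := Fintype.one_lt_card (α := F); rw [hF] at this; simp at this
      · exact h0
    have h' := Nat.pow_right_injective (Fact.out : p.Prime).two_le h
    have h3 : 0 < f / 2 := Nat.div_pos (Nat.le_of_dvd hf0 hrf) two_pos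
    exact (Nat.eq_of_mul_eq_mul_left h3 (by rw [← h', Nat.div_mul_cancel hrf])).symm
  haveI : Module.Finite F₀ (AdjoinRoot (minusPoly a₀ b₀)) := Module.finite_of_finrank_pos (by
    rw [show finrank F₀ (AdjoinRoot (minusPoly a₀ b₀)) = 2 from
      (finrank_quotient_span_eq_natDegree (f := minusPoly a₀ b₀)).trans hd]; exact two_pos)
  haveI : Finite (AdjoinRoot (minusPoly a₀ b₀)) := Module.finite_of_finite F₀
  obtain ⟨φ⟩ := FiniteField.nonempty_algHom_of_finrank_dvd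
    (F := F₀) (K := AdjoinRoot (minusPoly a₀ b₀)) (L := F) (by
      rw [hfin, show finrank F₀ (AdjoinRoot (minusPoly a₀ b₀)) = 2 from
        (finrank_quotient_span_eq_natDegree (f := minusPoly a₀ b₀)).trans hd])
  have h : (Polynomial.aeval (AdjoinRoot.root (minusPoly a₀ b₀))) (minusPoly a₀ b₀) = 0 := by
    rw [AdjoinRoot.aeval_eq, AdjoinRoot.mk_self]
  have h2 := congrArg φ h
  rw [← Polynomial.aeval_algHom_apply, map_zero] at h2
  have hroot : φ (AdjoinRoot.root (minusPoly a₀ b₀)) ^ 2 +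
      j a₀ * φ (AdjoinRoot.root (minusPoly a₀ b₀)) + j b₀ = 0 := by
    simpa [minusPoly, RingHom.algebraMap_toAlgebra] using h2
  exact one_ne_zero (hab (φ (AdjoinRoot.root (minusPoly a₀ b₀))) 1 (by
    linear_combination hroot)).2

theorem isSquare_of_hom_odd {F₀ : Type v} [Field F₀] (j : F₀ →+* F) (σ : F ≃+* F)
    (hj : ∀ x : F, σ x = x ↔ x ∈ j.range) {r : ℕ} (hσr : σ ^ r = 1) (h2 : (2 : F) ≠ 0)
    (hr : Odd r) (c : F₀) (hc : IsSquare (j c)) : IsSquare c := by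
  obtain ⟨x, hx⟩ := hc
  have hsx : σ x = x := by
    have h1 : σ x * σ x = x * x := by rw [← map_mul, ← hx]; exact (hj _).mpr ⟨c, rfl⟩
    rcases mul_self_eq_mul_self_iff.mp h1 with h | h
    · exact h
    · have hk : ∀ k : ℕ, (σ ^ k) x = (-1) ^ k * x := by
        intro k
        induction k with
        | zero => simp
        | succ k ih =>
          rw [pow_succ', RingAut.mul_apply, ih, map_mul, map_pow, map_neg, map_one, h, pow_succ]
          ring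
      have h3 := hk r
      rw [hσr, hr.neg_one_pow] at h3
      have : (2 : F) * x = 0 := by
        have h4 : x = -1 * x := h3
        linear_combination h4
      rw [h, (mul_eq_zero.mp this).resolve_left h2, neg_zero]
  obtain ⟨y, rfl⟩ := (hj x).mp hsx
  exact ⟨y, j.injective (by rw [hx, map_mul])⟩

theorem ringAut_order_dvd {p f : ℕ} [Fact p.Prime] (hF : Fintype.card F = p ^ f) (hf : 1 ≤ f)
    (σ : F ≃+* F) : orderOf σ ∣ f := by
  obtain ⟨e⟩ := AutPSL.exists_ringAut_equiv (F := F) (by rw [Nat.card_eq_fintype_card, hF]) hf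
  haveI : NeZero f := ⟨by omega⟩
  have h := orderOf_dvd_natCard (e σ)
  rwa [MulEquiv.orderOf_eq, Nat.card_congr Multiplicative.toAdd, Nat.card_zmod] at h

/-- The field statement. -/
theorem field_minus (hm : 3 ≤ m) (hab : Aniso a b) {p f : ℕ} [Fact p.Prime]
    (hF : Fintype.card F = p ^ f) (hf : 1 ≤ f)
    (x : MulAut (Cfsg.POmega F ⇑(qMinus m F a b)))
    (hx : ∃ (a' b' : F) (ψ : Cfsg.POmega F ⇑(qMinus m F a b) ≃*
        Cfsg.POmega F (Cfsg.quadFormMinus m F a' b')) (σ : F ≃+* F),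
      (∀ z₁ z₂ : F, z₁ ^ 2 + a' * z₁ * z₂ + b' * z₂ ^ 2 = 0 → z₁ = 0 ∧ z₂ = 0) ∧
      σ ≠ RingEquiv.refl F ∧ σ a' = a' ∧ σ b' = b' ∧
      Cfsg.IsFieldAutPOmegaOf (Cfsg.quadFormMinus m F a' b') σ ((ψ.symm.trans x).trans ψ))
    {r : ℕ} (hr : r.Prime) (hxr : orderOf x = r) (F₀ : Type v) [Field F₀] [Fintype F₀]
    (hF₀ : Fintype.card F₀ = p ^ (f / r))
    {ε : GO (qMinus m F a b) →* Multiplicative (ZMod 2)}
    (hε : IsPar (exists_ne_qMinus hab) (m + 1) ε) :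
    Odd r ∧ r ∣ f ∧
      (∃ a₀ b₀ : F₀, Aniso a₀ b₀ ∧
        ∀ ε₀ : GO (qMinus m F₀ a₀ b₀) →* Multiplicative (ZMod 2),
          (∀ hab₀ : Aniso a₀ b₀, IsPar (exists_ne_qMinus hab₀) (m + 1) ε₀) →
          Nonempty (↥(ε.ker.map (A (qMinus m F a b)) ⊓ Subgroup.centralizer {x}) ≃*
            ↥(ε₀.ker.map (A (qMinus m F₀ a₀ b₀))))) ∧
      Cfsg.splitClassCount (ε.ker.map (A (qMinus m F a b)))
        (Cfsg.Inn (Cfsg.POmega F ⇑(qMinus m F a b))) x = 1 := by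
  classical
  obtain ⟨a', b', hab', σ, ψ, ha, hb, hσ, h⟩ := minus_class hm hab x hx hxr
  have hrf : r ∣ f := hσ ▸ ringAut_order_dvd hF hf (σ : F ≃+* F)
  obtain ⟨j, hj⟩ := AutPSL.exists_fixedField hF hσ hr.pos hrf F₀ hF₀
  obtain ⟨a₀, rfl⟩ := (hj a').mp ha
  obtain ⟨b₀, rfl⟩ := (hj b').mp hb
  have hodd := odd_of_aniso hF hrf hr hF₀ j hab'
  have hab₀ : Aniso a₀ b₀ := fun z₁ z₂ h => by
    have h' := hab' (j z₁) (j z₂) (by
      rw [← map_pow, ← map_pow, ← map_mul, ← map_mul, ← map_mul, ← map_add, ← map_add, h, map_zero])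
    exact ⟨j.injective (h'.1.trans (map_zero j).symm), j.injective (h'.2.trans (map_zero j).symm)⟩
  obtain ⟨ε', hε', -⟩ := exists_par_minus (m := m) (by omega) hab'
  obtain ⟨hinv, T⟩ := minusFieldTwist hm hab' hε' hr.pos ha hb hσ
  have hmap := minus_congr hm hab hab' hε hε' ψ
  have hQ : ∀ v, qMinus m F (j a₀) (j b₀) (⇑j ∘ v) = j (qMinus m F₀ a₀ b₀ v) :=
    qMinus_comp' j a₀ b₀
  have hnd := Forms.qMinus_nondegenerate (m := m) (j a₀) (j b₀) (Forms.disc_ne_zero hab')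
  have hnd₀ := Forms.qMinus_nondegenerate (m := m) a₀ b₀ (Forms.disc_ne_zero hab₀)
  have hA := A_eq_one_iff (good_qMinus (F := F) m hm hab')
  refine ⟨hodd, hrf, ⟨a₀, b₀, hab₀, fun ε₀ hε₀ => ?_⟩, ?_⟩
  · obtain ⟨e1⟩ := centralizer_map (MulAut.congr ψ) (ε.ker.map (A (qMinus m F a b))) x
    rw [hmap, h, ← range_comp_ker ε', T.centralizer_eq] at e1
    obtain ⟨e2⟩ := fix_equiv j σ hj hQ hnd₀ (by simp; omega) hA
      (A_eq_one_iff (good_qMinus m hm hab₀)) hε' (hε₀ hab₀) hinv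
    exact ⟨e1.trans e2⟩
  · rw [← splitClassCount_map (MulAut.congr ψ), hmap, inn_map_congr ψ, h]
    obtain ⟨ε₀, hε₀, -⟩ := exists_par_minus (m := m) (by omega) hab₀
    rw [← range_comp_ker, splitClassCount_eq_relIndex _ _ ?_, Subgroup.relIndex_eq_one,
      T.centralizer_eq]
    · rintro _ ⟨g, rfl⟩
      obtain ⟨g₀, hg₀, hinn⟩ := exists_inn_mul_rational j hQ hnd hnd₀ (by simp; omega) hε' hε₀
        (sim_surjective_minus hm hab₀) (fun c h2 => isSquare_of_hom_odd j (σ : F ≃+* F) hj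
          (by rw [← hσ, pow_orderOf_eq_one]) h2 hodd c)
        (fun u => (hA _).mpr ⟨u, rfl⟩) g.1 g.2
      show A _ g.1 ∈ _
      rw [← inv_mul_cancel_right (A _ g.1) (A _ (liftJ j hQ g₀))]
      refine Subgroup.mul_mem_sup hinn ⟨⟨liftJ j hQ g₀, ?_⟩, ?_, rfl⟩
      · exact (par_comp j hQ hnd₀ (by simp; omega) hε' hε₀ _ (liftJ_val j hQ) g₀).trans hg₀
      · exact Subtype.ext ((range_liftJ_eq j σ hj hQ (exists_ne_qMinus hab₀) _).mpr ⟨g₀, rfl⟩)
    · rw [Inn_eq_map, range_comp_ker]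
      refine Subgroup.map_mono ?_
      rintro _ ⟨s, hs, rfl⟩
      have hhom : (ε'.comp (isoInc (qMinus m F (j a₀) (j b₀)))) s = 1 :=
        Abelianization.commutator_subset_ker _ hs
      exact hhom

end Cfsg.Agent.KnownB.Proj.Orth

namespace Cfsg.Agent.KnownB.Proj.Orth

open Matrix Module
open Cfsg.Agent.Forms (qMinus)

universe u v

variable {F : Type u} [Field F] [Fintype F] {m : ℕ} {a b : F}

/-- The field statement, on any presentation of the forms. -/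
theorem field_minus_model (hm : 3 ≤ m) (hab : Aniso a b) {p f : ℕ} [Fact p.Prime]
    (hF : Fintype.card F = p ^ f) (hf : 1 ≤ f)
    (Qf : ((Fin m ⊕ Fin m) ⊕ Fin 2 → F) → F) (hQf : ⇑(qMinus m F a b) = Qf)
    (x : MulAut (Cfsg.POmega F Qf))
    (hx : ∃ (a' b' : F) (ψ : Cfsg.POmega F Qf ≃*
        Cfsg.POmega F (Cfsg.quadFormMinus m F a' b')) (σ : F ≃+* F),
      (∀ z₁ z₂ : F, z₁ ^ 2 + a' * z₁ * z₂ + b' * z₂ ^ 2 = 0 → z₁ = 0 ∧ z₂ = 0) ∧
      σ ≠ RingEquiv.refl F ∧ σ a' = a' ∧ σ b' = b' ∧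
      Cfsg.IsFieldAutPOmegaOf (Cfsg.quadFormMinus m F a' b') σ ((ψ.symm.trans x).trans ψ))
    {r : ℕ} (hr : r.Prime) (hxr : orderOf x = r) (F₀ : Type v) [Field F₀] [Fintype F₀]
    (hF₀ : Fintype.card F₀ = p ^ (f / r))
    (Qf₀ : F₀ → F₀ → ((Fin m ⊕ Fin m) ⊕ Fin 2 → F₀) → F₀)
    (hQf₀ : (fun a₀ b₀ => ⇑(qMinus m F₀ a₀ b₀)) = Qf₀) :
    Odd r ∧ r ∣ f ∧
      (∃ a₀ b₀ : F₀, Aniso a₀ b₀ ∧ Nonempty
        (↥((Cfsg.autSubgroupOf fun β : MulAut (Cfsg.POmega F Qf) =>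
            ∃ g : GL ((Fin m ⊕ Fin m) ⊕ Fin 2) F, g ∈ Cfsg.Geo.quadSimilarityGroup (F := F) Qf ∧
              Cfsg.PreservesSingularClassesMinus m a b (g : Matrix _ _ F) ∧
              Cfsg.IsInducedBySemilinearPOmega Qf g (RingEquiv.refl F) β) ⊓
            Subgroup.centralizer {x}) ≃*
          ↥(Cfsg.autSubgroupOf fun β : MulAut (Cfsg.POmega F₀ (Qf₀ a₀ b₀)) =>
            ∃ g : GL ((Fin m ⊕ Fin m) ⊕ Fin 2) F₀,
              g ∈ Cfsg.Geo.quadSimilarityGroup (F := F₀) (Qf₀ a₀ b₀) ∧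
              Cfsg.PreservesSingularClassesMinus m a₀ b₀ (g : Matrix _ _ F₀) ∧
              Cfsg.IsInducedBySemilinearPOmega (Qf₀ a₀ b₀) g (RingEquiv.refl F₀) β))) ∧
      Cfsg.splitClassCount (Cfsg.autSubgroupOf fun β : MulAut (Cfsg.POmega F Qf) =>
          ∃ g : GL ((Fin m ⊕ Fin m) ⊕ Fin 2) F, g ∈ Cfsg.Geo.quadSimilarityGroup (F := F) Qf ∧
            Cfsg.PreservesSingularClassesMinus m a b (g : Matrix _ _ F) ∧
            Cfsg.IsInducedBySemilinearPOmega Qf g (RingEquiv.refl F) β)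
        (Cfsg.Inn (Cfsg.POmega F Qf)) x = 1 := by
  subst hQf hQf₀
  obtain ⟨ε, hε, hεp⟩ := exists_par_minus (m := m) (by omega) hab
  rw [inndiag_minus_ker hεp]
  obtain ⟨h1, h2, ⟨a₀, b₀, hab₀, h3⟩, h4⟩ := field_minus hm hab hF hf x hx hr hxr F₀ hF₀ hε
  obtain ⟨ε₀, hε₀, hεp₀⟩ := exists_par_minus (m := m) (by omega) hab₀
  refine ⟨h1, h2, ⟨a₀, b₀, hab₀, ?_⟩, h4⟩
  show Nonempty (_ ≃* ↥(Cfsg.autSubgroupOf fun β : MulAut (Cfsg.POmega F₀ ⇑(qMinus m F₀ a₀ b₀)) => _))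
  rw [inndiag_minus_ker hεp₀]
  exact h3 ε₀ fun _ => hε₀

end Cfsg.Agent.KnownB.Proj.Orth
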