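import Cfsg.Agent.KnownB.Proj.Orth.DiagModels
import Cfsg.Agent.S2723
import Cfsg.Agent.S2727

/-! The quotients by `PΩ` for the plus and minus models, for any presentation of the forms. -/

set_option autoImplicit false
set_option maxHeartbeats 1000000

namespace Cfsg.Agent.KnownB.Proj.Orth

open Matrix Module
open Cfsg.Agent.Forms (qPlus qMinus)

universe u

variable {F : Type u} [Field F] [Fintype F] {m : ℕ}

theorem two_ne_zero_card (hodd : Odd (Fintype.card F)) : (2 : F) ≠ 0 := fun h => by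
  have := Forms.card_field_parity.1 h; rw [Nat.odd_iff] at hodd; omega

/-- `Inndiag` of the minus type. -/
theorem inndiag_minus_eq (h2 : (2 : F) ≠ 0) {a b : F} (hab : Aniso a b)
    (Qf : ((Fin m ⊕ Fin m) ⊕ Fin 2 → F) → F) (hQf : ⇑(qMinus m F a b) = Qf) :
    (Cfsg.autSubgroupOf fun β : MulAut (Cfsg.POmega F Qf) =>
      ∃ g : GL ((Fin m ⊕ Fin m) ⊕ Fin 2) F, g ∈ Cfsg.Geo.quadSimilarityGroup (F := F) Qf ∧
        Cfsg.PreservesSingularClassesMinus m a b (g : Matrix _ _ F) ∧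
        Cfsg.IsInducedBySemilinearPOmega Qf g (RingEquiv.refl F) β) =
      hQf ▸ (dSub (exists_ne_qMinus (m := m) hab) (m + 1)).map (A (qMinus m F a b)) := by
  subst hQf
  simp only
  have key : ∀ β : MulAut (Cfsg.POmega F ⇑(qMinus m F a b)),
      (∃ g : GL ((Fin m ⊕ Fin m) ⊕ Fin 2) F, g ∈ GO (qMinus m F a b) ∧
        Cfsg.PreservesSingularClassesMinus m a b (g : Matrix _ _ F) ∧
        Cfsg.IsInducedBySemilinearPOmega ⇑(qMinus m F a b) g (RingEquiv.refl F) β) ↔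
      β ∈ (dSub (exists_ne_qMinus (m := m) hab) (m + 1)).map (A (qMinus m F a b)) := by
    intro β
    constructor
    · rintro ⟨g, hg, ⟨K, i1, i2, hK, hp⟩, h⟩
      letI := i1
      letI := i2
      obtain ⟨ε, -, -, he, hd⟩ := exists_ptyMinus (m := m) hab K hK
      rw [show (RingEquiv.refl F : F ≃+* F) = ((1 : fieldSub (qMinus m F a b)) : F ≃+* F) from rfl,
        isInduced_iff' (g := ⟨g, hg⟩), map_one, mul_one] at h
      refine ⟨⟨g, hg⟩, mem_dSub.mpr ((hd h2 _).mpr ((he ⟨g, hg⟩).mp ?_)), h.symm⟩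
      rw [Forms.coe_qMinus]
      exact hp
    · rintro ⟨g, hg, rfl⟩
      obtain ⟨K, i1, i2, hK⟩ := exists_quadratic_ext hab
      letI := i1
      letI := i2
      obtain ⟨ε, -, -, he, hd⟩ := exists_ptyMinus (m := m) hab K hK
      refine ⟨g.1, g.2, ⟨K, i1, i2, hK, ?_⟩,
        (isInduced_iff' (g := g) 1 _).mpr (by rw [map_one, mul_one])⟩
      have h := (he g).mpr ((hd h2 g).mp (mem_dSub.mp hg))
      rw [Forms.coe_qMinus] at h
      exact h
  exact le_antisymm ((Subgroup.closure_le _).mpr fun β hβ => (key β).mp hβ)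
    fun β hβ => Subgroup.subset_closure ((key β).mpr hβ)

theorem isSquare_pow_iff' (m : ℕ) (h2 : (2 : F) ≠ 0) :
    IsSquare ((-1 : F) ^ m) ↔ ¬ (Odd m ∧ Fintype.card F % 4 = 3) := by
  rw [Forms.isSquare_neg_one_pow_iff h2, and_comm]

theorem negOne_plus (h2 : (2 : F) ≠ 0) (hm : 4 ≤ m) (hc : ¬ (Odd m ∧ Fintype.card F % 4 = 3)) :
    Forms.negOne (qPlus m F) ∈ commutator (Forms.orthGroup (qPlus m F)) :=
  (Forms.negOne_mem_qPlus h2 hm).mpr ((isSquare_pow_iff' m h2).mpr hc)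

theorem negOne_minus (h2 : (2 : F) ≠ 0) (hm : 3 ≤ m) {a b : F} (hab : Aniso a b)
    (hc : Even m ∧ Fintype.card F % 4 = 3) :
    Forms.negOne (qMinus m F a b) ∈ commutator (Forms.orthGroup (qMinus m F a b)) :=
  (Forms.negOne_mem_qMinus h2 hm hab).mpr fun h =>
    (isSquare_pow_iff' (m + 1) h2).mp h ⟨hc.1.add_one, hc.2⟩

theorem exists_nonsquare_unit (h2 : (2 : F) ≠ 0) : ∃ c : Fˣ, ¬ IsSquare (c : F) := by
  obtain ⟨a, ha⟩ := Forms.exists_nonsquare_of_two_ne_zero (F := F) h2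
  exact ⟨Units.mk0 a fun h => ha (h ▸ IsSquare.zero), ha⟩

theorem not_isSquare_unit {c : Fˣ} (hc : ¬ IsSquare (c : F)) : ¬ IsSquare c := fun ⟨x, hx⟩ =>
  hc ⟨x, by rw [hx, Units.val_mul]⟩

theorem plus_results (hodd : Odd (Fintype.card F)) (hm : 4 ≤ m)
    (Qf : (Fin m ⊕ Fin m → F) → F) (hQf : ⇑(qPlus m F) = Qf) :
    let D := Cfsg.autSubgroupOf fun β : MulAut (Cfsg.POmega F Qf) =>
      ∃ g : GL (Fin m ⊕ Fin m) F, g ∈ Cfsg.Geo.quadSimilarityGroup (F := F) Qf ∧
        Cfsg.PreservesSingularClasses Qf (g : Matrix _ _ F) ∧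
        Cfsg.IsInducedBySemilinearPOmega Qf g (RingEquiv.refl F) β
    let I := Cfsg.Inn (Cfsg.POmega F Qf)
    (((Odd m ∧ Fintype.card F % 4 = 3) → (∃ φ : ↥D →* Multiplicative (ZMod 2),
        Function.Surjective φ ∧ φ.ker = I.subgroupOf D)) ∧
      ((Odd m ∧ Fintype.card F % 4 = 1) → (∃ φ : ↥D →* Multiplicative (ZMod 4),
        Function.Surjective φ ∧ φ.ker = I.subgroupOf D)) ∧
      (Even m → (∃ φ : ↥D →* Multiplicative (ZMod 2 × ZMod 2),
        Function.Surjective φ ∧ φ.ker = I.subgroupOf D))) ∧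
    ((Odd m ∧ Fintype.card F % 4 = 3) →
      (∃ φ : ↥(Cfsg.pgoAut F Qf) →* Multiplicative (ZMod 2 × ZMod 2), Function.Surjective φ ∧
        φ.ker = I.subgroupOf (Cfsg.pgoAut F Qf))) ∧
    (¬ (Odd m ∧ Fintype.card F % 4 = 3) →
      (∃ φ : ↥(Cfsg.pgoAut F Qf) →* DihedralGroup 4, Function.Surjective φ ∧
        φ.ker = I.subgroupOf (Cfsg.pgoAut F Qf))) := by
  intro D I
  subst hQf
  have h2 := two_ne_zero_card hodd
  have H := evenOdd_plus (F := F) h2 hm
  have hD : D = (dSub H.ns m).map (A (qPlus m F)) :=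
    (inndiag_plus_eq m).trans (by rw [dSub_eq_ker_plus h2 hm])
  rw [hD]
  have hr := S2723.result (F := F) hodd hm
  rw [← Forms.coe_qPlus] at hr
  have hm1 : 1 ≤ m := by omega
  obtain ⟨c, hc⟩ := exists_nonsquare_unit (F := F) h2
  have hc0 := c.ne_zero
  obtain ⟨e0, eK, eRK, eR0⟩ := swap_relations (m := m) hm1 c
  have hQ1 : qPlus m F (planeVec hm1 1) ≠ 0 := by rw [Q_planeVec]; exact one_ne_zero
  have hQc : qPlus m F (planeVec hm1 (c : F)) ≠ 0 := by rw [Q_planeVec]; exact hc0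
  have hns : ¬ IsSquare (qPlus m F (planeVec hm1 1) * qPlus m F (planeVec hm1 (c : F))) := by
    rw [Q_planeVec, Q_planeVec, one_mul]; exact hc
  have hsim : ∀ keep, ¬ IsSquare (sim H.ns (swapGO m keep c)) := fun keep => by
    rw [sim_swapGO]; exact not_isSquare_unit hc
  have hmem : ∀ keep, Even (m - cond keep 1 0) → swapGO m keep c ∈ dSub H.ns m := fun keep he => by
    rw [dSub_eq_ker_plus h2 hm, MonoidHom.mem_ker]
    exact swapGO_pty keep hm1 he c
  refine ⟨⟨fun h => H.inndiag_two (hr.1 h), fun h => ?_, fun h => ?_⟩,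
    fun h => H.pgo_klein (hr.1 h), fun h => ?_⟩
  · have hnot : ¬ (Odd m ∧ Fintype.card F % 4 = 3) := fun h' => by omega
    refine H.inndiag_cyclic (hr.2 hnot) (negOne_plus h2 hm hnot) (g := swapGO m true c)
      (hmem true ?_) hQ1 hQc eK hns
    obtain ⟨t, rfl⟩ := h.1
    exact ⟨t, by simp; omega⟩
  · have hnot : ¬ (Odd m ∧ Fintype.card F % 4 = 3) := fun h' => (Nat.not_even_iff_odd.mpr h'.1) h
    exact H.inndiag_klein (hr.2 hnot) (negOne_plus h2 hm hnot) (g := swapGO m false c)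
      (hmem false (by simpa using h)) e0 (hsim false) hQ1 hQc hns
  · rcases Nat.even_or_odd m with he | ho
    · have hsimR : ¬ IsSquare (sim H.ns (reflGO (qPlus m F) (planeVec hm1 1) * swapGO m false c)) := by
        rw [map_mul, sim_reflGO, one_mul]; exact hsim false
      have hQi : qPlus m F (planeVec hm1 ((c⁻¹ : Fˣ) : F)) ≠ 0 := by
        rw [Q_planeVec]; exact Units.ne_zero _
      refine H.pgo_dihedral (hr.2 h) (negOne_plus h2 hm h) hsimR hQ1 (U' := planeVec hm1 1)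
        (W' := planeVec hm1 1) hQ1 hQi hQ1 hQ1 (c' := c) eR0 ?_ ?_ ?_
      · rw [Q_planeVec, Q_planeVec, one_mul, Units.val_inv_eq_inv_val]
        exact fun h' => hc (by simpa using h'.inv)
      · have hrr : reflGO (qPlus m F) (planeVec hm1 1) * reflGO (qPlus m F) (planeVec hm1 1) = 1 := by
          show isoInc _ _ * isoInc _ _ = 1
          rw [← map_mul, ← map_mul, Forms.reflection_mul_self, map_one, map_one]
        rw [← mul_assoc (reflGO (qPlus m F) (planeVec hm1 1)) (reflGO _ _) (swapGO m false c), hrr,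
          one_mul, e0, mul_one]
      · exact IsSquare.mul_self _
    · exact H.pgo_dihedral (hr.2 h) (negOne_plus h2 hm h) (hsim true) hQ1 hQ1 hQc hQ1 hQ1 eK hns eRK
        (IsSquare.mul_self _)

theorem minus_results (hodd : Odd (Fintype.card F)) (hm : 3 ≤ m) {a b : F} (hab : Aniso a b)
    (Qf : ((Fin m ⊕ Fin m) ⊕ Fin 2 → F) → F) (hQf : ⇑(qMinus m F a b) = Qf) :
    let D := Cfsg.autSubgroupOf fun β : MulAut (Cfsg.POmega F Qf) =>
      ∃ g : GL ((Fin m ⊕ Fin m) ⊕ Fin 2) F, g ∈ Cfsg.Geo.quadSimilarityGroup (F := F) Qf ∧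
        Cfsg.PreservesSingularClassesMinus m a b (g : Matrix _ _ F) ∧
        Cfsg.IsInducedBySemilinearPOmega Qf g (RingEquiv.refl F) β
    let I := Cfsg.Inn (Cfsg.POmega F Qf)
    ((Even m ∧ Fintype.card F % 4 = 3) →
      (∃ φ : ↥D →* Multiplicative (ZMod 4), Function.Surjective φ ∧ φ.ker = I.subgroupOf D) ∧
      (∃ φ : ↥(Cfsg.pgoAut F Qf) →* DihedralGroup 4, Function.Surjective φ ∧
        φ.ker = I.subgroupOf (Cfsg.pgoAut F Qf))) ∧
    (¬ (Even m ∧ Fintype.card F % 4 = 3) →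
      (∃ φ : ↥D →* Multiplicative (ZMod 2), Function.Surjective φ ∧ φ.ker = I.subgroupOf D) ∧
      (∃ φ : ↥(Cfsg.pgoAut F Qf) →* Multiplicative (ZMod 2 × ZMod 2), Function.Surjective φ ∧
        φ.ker = I.subgroupOf (Cfsg.pgoAut F Qf))) := by
  intro D I
  subst hQf
  have h2 := two_ne_zero_card hodd
  have H := evenOdd_minus (F := F) h2 hm hab
  have hD : D = (dSub H.ns (m + 1)).map (A (qMinus m F a b)) :=
    inndiag_minus_eq (m := m) h2 hab _ rfl
  rw [hD]
  have hr := S2727.result (F := F) hodd hm a b hab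
  rw [← Forms.coe_qMinus] at hr
  refine ⟨fun h => ?_, fun h => ⟨H.inndiag_two (hr.2 h), H.pgo_klein (hr.2 h)⟩⟩
  obtain ⟨g, E, U, U', hE, hg1, hg2, hU, hU', hgg, hrg⟩ := exists_minus_gen h2 hab H.ns
  have hns1 : ¬ IsSquare (-1 : F) := by
    rw [FiniteField.isSquare_neg_one_iff]; omega
  have hD2 := binary_disc_not_square h2 hab
  have hD0 : a ^ 2 - 4 * b ≠ 0 := fun h => hD2 (h ▸ IsSquare.zero)
  have hE0 : qMinus m F a b E ≠ 0 := by rw [hE]; exact one_ne_zero
  have hU0 : qMinus m F a b U ≠ 0 := by rw [hU]; exact hD0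
  have hU'0 : qMinus m F a b U' ≠ 0 := by rw [hU']; exact neg_ne_zero.mpr hD0
  have hns : ¬ IsSquare (qMinus m F a b U * qMinus m F a b E) := by
    rw [hU, hE, mul_one]; exact hD2
  have hneg := negOne_minus h2 hm hab h
  have hgD : g ∈ dSub H.ns (m + 1) := mem_dSub.mpr (by rw [hg1, hg2])
  have hsim : ¬ IsSquare (sim H.ns g) := by
    rw [hg1]; exact not_isSquare_unit (by rw [Units.val_neg, Units.val_one]; exact hns1)
  refine ⟨H.inndiag_cyclic (hr.1 h) hneg hgD hU0 hE0 hgg hns,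
    H.pgo_dihedral (hr.1 h) hneg hsim hE0 hU0 hE0 hE0 hU'0 hgg hns hrg ?_⟩
  rw [hE, hU', one_mul, show -(a ^ 2 - 4 * b) = (-1) * (a ^ 2 - 4 * b) by ring]
  exact (binary_isSquare_mul_not (neg_ne_zero.mpr one_ne_zero) hD2).mpr hns1

end Cfsg.Agent.KnownB.Proj.Orth
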