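import Cfsg.Agent.KnownB.Proj.Orth.MinusApps
import Cfsg.Agent.KnownB.Proj.Orth.DiagResults

/-! A lift of the Frobenius automorphism to the minus form in odd characteristic. -/

set_option autoImplicit false
set_option maxHeartbeats 1000000

namespace Cfsg.Agent.KnownB.Proj.Orth

open Matrix Module
open Cfsg.Agent.Forms (qMinus)

universe u

variable {F : Type u} [Field F] {n : ℕ}

local notation "Jm" => ((Fin n ⊕ Fin n) ⊕ Fin 2)

theorem frobenius_pow_apply (p : ℕ) [Fact p.Prime] [CharP F p] [PerfectRing F p] (j : ℕ) (x : F) :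
    ((frobeniusEquiv F p) ^ j) x = x ^ p ^ j := by
  induction j generalizing x with
  | zero => simp
  | succ j ih =>
    rw [pow_succ', RingAut.mul_apply, ih, frobeniusEquiv_apply, frobenius_def, ← pow_mul, ← pow_succ]

theorem frobenius_dvd [Fintype F] {p f k : ℕ} [Fact p.Prime] [CharP F p]
    (hF : Fintype.card F = p ^ f) (h : (frobeniusEquiv F p) ^ k = 1) : f ∣ k := by
  have hp := (Fact.out : p.Prime)
  have hk : ∀ x : F, x ^ p ^ k = x := fun x => by rw [← frobenius_pow_apply, h]; rfl
  obtain ⟨g, hg⟩ := IsCyclic.exists_ofOrder_eq_natCard (α := Fˣ)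
  have hu : g ^ (p ^ k - 1) = 1 := Units.ext (mul_right_cancel₀ g.ne_zero (by
    rw [Units.val_pow_eq_pow_val, ← pow_succ, Nat.sub_add_cancel (Nat.one_le_pow _ _ hp.pos), hk,
      Units.val_one, one_mul]))
  have hd := orderOf_dvd_of_pow_eq_one hu
  rw [hg, Nat.card_units, Nat.card_eq_fintype_card, hF] at hd
  have h1 := Nat.pow_sub_one_mod_pow_sub_one p f k
  rw [Nat.mod_eq_zero_of_dvd hd] at h1
  refine Nat.dvd_of_mod_eq_zero ?_
  by_contra hne
  have h2 : 2 ≤ p ^ (k % f) := le_trans hp.two_le (Nat.le_self_pow hne p)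
  omega

/-- Frobenius on the completed squares. -/
def frobStep (p : ℕ) (a d : F) (v : Jm → F) : Jm → F :=
  Sum.elim (fun i => v (Sum.inl i) ^ p)
    ![(v (Sum.inr 0) + a / 2 * v (Sum.inr 1)) ^ p - a / 2 * (d * v (Sum.inr 1) ^ p),
      d * v (Sum.inr 1) ^ p]

/-- `frobStep` as an additive map. -/
def frobStepHom (p : ℕ) [Fact p.Prime] [CharP F p] (a d : F) : (Jm → F) →+ (Jm → F) :=
  AddMonoidHom.mk' (frobStep p a d) fun u v => by
    funext j
    rcases j with i | j
    · simp [frobStep, add_pow_char]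
    · fin_cases j <;> simp [frobStep, mul_add, add_pow_char] <;> ring

theorem frobStep_iter {p f : ℕ} [Fact p.Prime] [CharP F p] (hp : p ≠ 2) (a e : F) (k : ℕ)
    (v : Jm → F) :
    (frobStep p a (e ^ ((p - 1) / 2)))^[k] v = Sum.elim (fun i => v (Sum.inl i) ^ p ^ k)
      ![(v (Sum.inr 0) + a / 2 * v (Sum.inr 1)) ^ p ^ k -
          a / 2 * (e ^ ((p ^ k - 1) / 2) * v (Sum.inr 1) ^ p ^ k),
        e ^ ((p ^ k - 1) / 2) * v (Sum.inr 1) ^ p ^ k] := by
  induction k with
  | zero =>
    funext j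
    rcases j with i | j
    · simp
    · fin_cases j <;> simp
  | succ k ih =>
    obtain ⟨s, hs⟩ := ((Fact.out : p.Prime).odd_of_ne_two hp).pow (n := k)
    obtain ⟨t, ht⟩ := (Fact.out : p.Prime).odd_of_ne_two hp
    have he : (p ^ (k + 1) - 1) / 2 = (p ^ k - 1) / 2 * p + (p - 1) / 2 := by
      rw [pow_succ, hs, ht, show (2 * s + 1) * (2 * t + 1) = 2 * (s * (2 * t + 1) + t) + 1 by ring,
        Nat.add_sub_cancel, Nat.add_sub_cancel, Nat.add_sub_cancel,
        Nat.mul_div_cancel_left _ two_pos, Nat.mul_div_cancel_left _ two_pos,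
        Nat.mul_div_cancel_left _ two_pos]
    rw [Function.iterate_succ_apply', ih]
    funext j
    rcases j with i | j
    · simp [frobStep, ← pow_mul, ← pow_succ]
    · fin_cases j <;> simp [frobStep, he] <;> simp only [mul_pow, ← pow_mul, ← pow_succ, pow_add (e)] <;>
        ring

variable [Fintype F]

/-- A lift `β` of Frobenius whose `f`th power is a reflection. -/
theorem exists_frob_lift (hn : 3 ≤ n) {p f : ℕ} [Fact p.Prime] [CharP F p]
    (hF : Fintype.card F = p ^ f) (hp : p ≠ 2) {a b : F} (hab : Aniso a b)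
    {π : MulAut (Cfsg.POmega F ⇑(qMinus n F a b)) →* (F ≃+* F)}
    (hπ : ∀ β (S : SSim (qMinus n F a b)),
      MulAut.congr (pomEquiv (qMinus n F a b)) β = S.A → π β = S.σ) :
    ∃ (β : MulAut (Cfsg.POmega F ⇑(qMinus n F a b))) (w : Jm → F), qMinus n F a b w ≠ 0 ∧
      π β = frobeniusEquiv F p ∧ β ^ f = A (qMinus n F a b) (reflGO (qMinus n F a b) w) := by
  classical
  have hprime := (Fact.out : p.Prime)
  have h2 : (2 : F) ≠ 0 := two_ne_zero_card (by rw [hF]; exact (hprime.odd_of_ne_two hp).pow)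
  set Q := qMinus n F a b with hQ
  set e := a ^ 2 / 4 - b with hedef
  have h4 : (4 : F) ≠ 0 := by
    rw [show (4 : F) = 2 * 2 by norm_num]; exact mul_ne_zero h2 h2
  have hens : ¬ IsSquare e := fun h => binary_disc_not_square h2 hab (by
    rw [show a ^ 2 - 4 * b = e * (2 * 2) by rw [hedef]; field_simp; ring]
    exact h.mul (IsSquare.mul_self 2))
  have he0 : e ≠ 0 := fun h => hens (h ▸ IsSquare.zero)
  set d := e ^ ((p - 1) / 2) with hd
  have hd0 : d ≠ 0 := pow_ne_zero _ he0
  have hde : d ^ 2 * e = e ^ p := by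
    obtain ⟨t, ht⟩ := hprime.odd_of_ne_two hp
    rw [hd, ← pow_mul, ← pow_succ, ht, Nat.add_sub_cancel, Nat.mul_div_cancel_left _ two_pos,
      mul_comm]
  have hform : ∀ v : Jm → F, Q v = ∑ i : Fin n, v (Sum.inl (Sum.inl i)) * v (Sum.inl (Sum.inr i)) +
      ((v (Sum.inr 0) + a / 2 * v (Sum.inr 1)) ^ 2 - e * v (Sum.inr 1) ^ 2) := fun v => by
    rw [hQ, Forms.coe_qMinus, hedef]
    simp only [Cfsg.quadFormMinus]
    field_simp
    ring
  obtain ⟨S, hSσ, hSL⟩ : ∃ S : SSim Q, S.σ = frobeniusEquiv F p ∧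
      ∀ v, S.L v = frobStep p a d v := by
    have hinj : Function.Injective (frobStepHom (n := n) p a d) := by
      rw [injective_iff_map_eq_zero]
      intro v hv
      have h1 : v (Sum.inr 1) = 0 := by
        have := congrFun hv (Sum.inr 1)
        simpa [frobStepHom, frobStep, hd0, hprime.ne_zero] using this
      funext j
      rcases j with i | j
      · have := congrFun hv (Sum.inl i)
        simpa [frobStepHom, frobStep, hprime.ne_zero] using this
      · fin_cases j
        · have := congrFun hv (Sum.inr 0)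
          simpa [frobStepHom, frobStep, h1, hprime.ne_zero] using this
        · exact h1
    refine ⟨⟨AddEquiv.ofBijective _ hinj.bijective_of_finite, frobeniusEquiv F p, 1, one_ne_zero,
      fun c v => ?_, fun v => ?_⟩, rfl, fun v => rfl⟩
    · show frobStep p a d (c • v) = (frobeniusEquiv F p) c • frobStep p a d v
      rw [frobeniusEquiv_apply, frobenius_def]
      funext j
      rcases j with i | j
      · simp [frobStep, mul_pow]
      · fin_cases j <;> simp [frobStep, mul_pow, ← mul_add, mul_left_comm _ c] <;> ring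
    · show Q (frobStep p a d v) = 1 * (frobeniusEquiv F p) (Q v)
      rw [hform, hform, frobeniusEquiv_apply, one_mul]
      simp only [map_add, map_sum, map_mul, map_sub, map_pow]
      simp only [frobenius_def, frobStep, Sum.elim_inl, Sum.elim_inr, Matrix.cons_val_zero,
        Matrix.cons_val_one, ← hde, sub_add_cancel, add_pow_char, mul_pow]
      ring
  set em := MulAut.congr (pomEquiv Q)
  set β := em.symm S.A with hβ
  have hiter : ∀ k, ∃ T : SSim Q, T.A = S.A ^ k ∧ ∀ v, T.L v = (frobStep p a d)^[k] v := by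
    intro k
    induction k with
    | zero =>
      exact ⟨SSim.ofOm 1, by rw [SSim.A_ofOm, pow_zero, QuotientGroup.mk_one, map_one], fun v => rfl⟩
    | succ k ih =>
      obtain ⟨T, hT, hL⟩ := ih
      refine ⟨T.trans S, by rw [SSim.A_trans, hT, pow_succ'], fun v => ?_⟩
      rw [Function.iterate_succ_apply', ← hL, ← hSL]
      rfl
  set w : Jm → F := Sum.elim 0 ![-a / 2, 1] with hw
  have hQw : Q w = -e := by
    rw [hform]; simp [hw, neg_div]
  refine ⟨β, w, by rw [hQw]; exact neg_ne_zero.mpr he0,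
    (hπ β S (MulEquiv.apply_symm_apply _ _)).trans hSσ, ?_⟩
  set r := (Forms.isometryEquiv Q).symm (Forms.reflection Q w) with hr
  have hef : e ^ ((p ^ f - 1) / 2) = -1 := by
    have hne : ringChar F ≠ 2 := by rw [ringChar.eq F p]; exact hp
    obtain ⟨t, ht⟩ := (hprime.odd_of_ne_two hp).pow (n := f)
    have hdiv : Fintype.card F / 2 = (p ^ f - 1) / 2 := by rw [hF, ht]; omega
    rw [← hdiv]
    exact (FiniteField.pow_dichotomy hne he0).resolve_left
      fun h => hens ((FiniteField.isSquare_iff hne he0).mpr h)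
  have hrv : ∀ v : Jm → F,
      (frobStep p a d)^[f] v = ((r : GL Jm F) : Matrix Jm Jm F) *ᵥ v := by
    intro v
    have hq : ∀ x : F, x ^ p ^ f = x := fun x => by rw [← hF]; exact FiniteField.pow_card x
    rw [← Forms.isometryEquiv_apply, hr, MulEquiv.apply_symm_apply, Forms.reflection_apply, hQw,
      hd, frobStep_iter (f := f) hp a e f v, hef, hq]
    have hpol : QuadraticMap.polar ⇑Q w v = -2 * e * v (Sum.inr 1) := by
      rw [hQ, Forms.polar_qMinus, hedef]
      simp [hw]
      field_simp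
      ring
    rw [hpol, show (-e)⁻¹ * (-2 * e * v (Sum.inr 1)) = 2 * v (Sum.inr 1) by field_simp]
    funext j
    rcases j with i | j
    · simp [hw, hq]
    · fin_cases j <;> simp [hw, hq] <;> field_simp <;> ring
  obtain ⟨T, hT, hL⟩ := hiter f
  have hQ1 : ∀ v : Jm → F,
      Q (((isoInc Q r).1 : Matrix Jm Jm F) *ᵥ (⇑(1 : F ≃+* F) ∘ v)) =
        1 * (1 : F ≃+* F) (Q v) := fun v => by
    rw [one_mul]
    exact Forms.mem_isometryGroup_iff.mp r.2 v
  have h1 := (isInduced_iff one_ne_zero hQ1 _).mp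
    ((isInduced_iff' (g := isoInc Q r) (1 : fieldSub Q) _).mpr (by rw [map_one, mul_one]))
  show β ^ f = A Q (isoInc Q r)
  refine em.injective ?_
  rw [map_pow, hβ, MulEquiv.apply_symm_apply, ← hT]
  refine Eq.trans ?_ h1.symm
  refine SSim.eq_A _ fun k k' hk => T.A_spec fun v => ?_
  rw [hL, hrv, hL, hrv]
  exact hk v

end Cfsg.Agent.KnownB.Proj.Orth
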