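import Mathlib.GroupTheory.SpecificGroups.Dihedral
import Mathlib.GroupTheory.SpecificGroups.KleinFour
import Mathlib.Algebra.Group.TypeTags.Finite
import Mathlib.Data.ZMod.Basic
import Mathlib.GroupTheory.SpecificGroups.Cyclic

/-! Recognition of `4`, `2²` and dihedral groups. -/

set_option autoImplicit false

namespace Cfsg.Agent.KnownB.Proj.Orth

variable {G : Type*} [Group G]

theorem nonempty_dihedral [Finite G] {n : ℕ} [NeZero n] {x y : G} (hx : x * x = 1) (hy : y * y = 1)
    (ho : orderOf (x * y) = n) (hxn : x ∉ Subgroup.zpowers (x * y))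
    (hcard : Nat.card G = 2 * n) : Nonempty (G ≃* DihedralGroup n) := by
  set z := x * y with hz
  let k : ZMod n → G := fun i => z ^ i.val
  have k_add : ∀ i j, k (i + j) = k i * k j := fun i j => by
    show z ^ (i + j).val = z ^ i.val * z ^ j.val
    rw [← pow_add, ZMod.val_add]
    conv_rhs => rw [← pow_mod_orderOf, ho]
  have hflip : ∀ i : ℕ, x * z ^ i * x = (z⁻¹) ^ i := fun i => by
    have hxi : x⁻¹ = x := inv_eq_of_mul_eq_one_right hx
    have hyi : y⁻¹ = y := inv_eq_of_mul_eq_one_right hy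
    have e : x * z * x⁻¹ = z⁻¹ := by
      rw [hxi, hz, ← mul_assoc x x, hx, one_mul, _root_.mul_inv_rev, hyi, hxi]
    rw [← e, conj_pow, hxi]
  have k_neg : ∀ i, k i * x = x * k (-i) := fun i => by
    have h1 : k (-i) = (k i)⁻¹ := eq_inv_of_mul_eq_one_left (by
      rw [← k_add, neg_add_cancel]; exact (congrArg (z ^ ·) ZMod.val_zero).trans (pow_zero z))
    have h2 : x * k i * x = (k i)⁻¹ := (hflip i.val).trans (inv_pow z _)
    rw [h1, ← h2]
    simp only [← mul_assoc, hx, one_mul]
  let f : DihedralGroup n → G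
    | .r i => k i
    | .sr i => x * k i
  let φ : DihedralGroup n →* G := MonoidHom.mk' f fun a b => by
    rcases a with i | i <;> rcases b with j | j
    · exact k_add i j
    · show x * k (j - i) = k i * (x * k j)
      rw [← mul_assoc, k_neg, mul_assoc, ← k_add, sub_eq_neg_add]
    · show x * k (i + j) = x * k i * k j
      rw [mul_assoc, k_add]
    · show k (j - i) = x * k i * (x * k j)
      rw [← mul_assoc, mul_assoc x, k_neg, ← mul_assoc, hx, one_mul, ← k_add, sub_eq_neg_add]
  have hinj : Function.Injective φ := by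
    rw [injective_iff_map_eq_one]
    intro a ha
    rcases a with i | i
    · have h : z ^ i.val = 1 := ha
      have h1 := orderOf_dvd_of_pow_eq_one h
      rw [ho] at h1
      have h2 : i.val = 0 := Nat.eq_zero_of_dvd_of_lt h1 (ZMod.val_lt i)
      rw [(ZMod.val_eq_zero i).mp h2]
      rfl
    · exfalso
      refine hxn ?_
      have h : x * z ^ i.val = 1 := ha
      rw [mul_eq_one_iff_eq_inv] at h
      rw [h]
      exact Subgroup.inv_mem _ (Subgroup.pow_mem _ (Subgroup.mem_zpowers z) _)
  exact ⟨(MulEquiv.ofBijective φ ((Nat.bijective_iff_injective_and_card φ).mpr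
    ⟨hinj, by rw [DihedralGroup.nat_card, hcard]⟩)).symm⟩

theorem not_mem_zpowers_of_hom {A : Type*} [Group A] {g x : G} (χ : G →* A) (hg : χ g = 1)
    (hx : χ x ≠ 1) : x ∉ Subgroup.zpowers g := fun h => hx (by
  obtain ⟨k, rfl⟩ := h
  rw [map_zpow, hg, one_zpow])

theorem nonempty_klein [Finite G] {a b : G} (ha : a * a = 1) (hb : b * b = 1) (ha1 : a ≠ 1)
    (hb1 : b ≠ 1) (hab : a ≠ b) (hcard : Nat.card G = 4) :
    Nonempty (G ≃* Multiplicative (ZMod 2 × ZMod 2)) := by
  classical
  haveI : Nontrivial G := ⟨⟨a, 1, ha1⟩⟩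
  have h2 : ∀ t : G, t * t = 1 := by
    intro t
    by_contra ht
    have hd : orderOf t ∣ 2 ^ 2 := by rw [show (2 : ℕ) ^ 2 = 4 by norm_num, ← hcard]; exact orderOf_dvd_natCard t
    obtain ⟨i, hi, e⟩ := (Nat.dvd_prime_pow Nat.prime_two).mp hd
    have ho : orderOf t = 4 := by
      interval_cases i
      · exact absurd (by rw [orderOf_eq_one_iff.mp (show orderOf t = 1 by simpa using e), mul_one]) ht
      · exact absurd (by rw [← pow_two]; exact (by simpa using e : orderOf t = 2) ▸ pow_orderOf_eq_one t) ht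
      · simpa using e
    have hsq : ∀ s : G, s * s = 1 → s ≠ 1 → s = t ^ 2 := by
      intro s hs hs1
      have hs' : s ∈ Subgroup.zpowers t := by
        rw [Subgroup.eq_top_of_card_eq (Subgroup.zpowers t) (by rw [Nat.card_zpowers, ho, hcard])]
        exact Subgroup.mem_top s
      obtain ⟨k, hk⟩ := (mem_zpowers_iff_mem_range_orderOf.mp hs') |> Finset.mem_image.mp
      obtain ⟨hk4, rfl⟩ := hk
      rw [Finset.mem_range, ho] at hk4
      rw [← pow_add] at hs
      have h := orderOf_dvd_of_pow_eq_one hs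
      rw [ho] at h
      have : k = 0 ∨ k = 2 := by omega
      rcases this with rfl | rfl
      · exact absurd (pow_zero t) hs1
      · rfl
    exact hab ((hsq a ha ha1).trans (hsq b hb hb1).symm)
  haveI : IsKleinFour G := ⟨hcard, Monoid.exponent_eq_prime_iff Nat.prime_two |>.mpr fun g hg =>
    orderOf_eq_prime (by rw [pow_two]; exact h2 g) hg⟩
  haveI : IsAddKleinFour (ZMod 2 × ZMod 2) := ⟨by simp, by
    refine Nat.dvd_antisymm (AddMonoid.exponent_dvd_of_forall_nsmul_eq_zero (by decide)) ?_
    have h := AddMonoid.addOrder_dvd_exponent (((1 : ZMod 2), (0 : ZMod 2)))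
    rwa [addOrderOf_eq_prime (p := 2) (by decide) (by decide)] at h⟩
  exact IsKleinFour.nonempty_mulEquiv

theorem nonempty_cyclic_four [Finite G] {g : G} (hg : g * g ≠ 1) (hcard : Nat.card G = 4) :
    Nonempty (G ≃* Multiplicative (ZMod 4)) := by
  have hd : orderOf g ∣ 2 ^ 2 := by
    rw [show (2 : ℕ) ^ 2 = 4 by norm_num, ← hcard]; exact orderOf_dvd_natCard g
  obtain ⟨i, hi, e⟩ := (Nat.dvd_prime_pow Nat.prime_two).mp hd
  have hcyc : IsCyclic G := by
    interval_cases i
    · exact absurd (by rw [orderOf_eq_one_iff.mp (show orderOf g = 1 by simpa using e), mul_one]) hg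
    · exact absurd (by rw [← pow_two]; exact (by simpa using e : orderOf g = 2) ▸ pow_orderOf_eq_one g) hg
    · exact isCyclic_of_orderOf_eq_card g (by rw [e, hcard]; norm_num)
  exact ⟨mulEquivOfCyclicCardEq (by rw [hcard, Nat.card_congr Multiplicative.toAdd, Nat.card_zmod])⟩

theorem orderOf_eq_four {g : G} (h2 : g * g ≠ 1) (h4 : g * g * (g * g) = 1) : orderOf g = 4 := by
  refine orderOf_eq_prime_pow (p := 2) (n := 1) ?_ ?_
  · rw [pow_one, pow_two]; exact h2
  · rw [show (2 : ℕ) ^ (1 + 1) = 2 * 2 by norm_num, pow_mul, pow_two, pow_two]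
    exact h4

end Cfsg.Agent.KnownB.Proj.Orth
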