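import Cfsg.Agent.KnownB.Proj.Orth.GOInd
import Cfsg.Agent.KnownB.Proj.Orth.SmallGroups
import Cfsg.Agent.Forms.OrthFacts

/-! The groups `Inndiag/Inn` and `PGO/PΩ` in even dimension and odd characteristic. -/

set_option autoImplicit false
set_option maxHeartbeats 1000000

namespace Cfsg.Agent.KnownB.Proj.Orth

open Matrix Module

universe u

section Quot

variable {G : Type*} [Group G]

theorem exists_surj_of_quot {X : Type*} [Group X] (H I : Subgroup G) [I.Normal]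
    (h : Nonempty (↥H ⧸ I.subgroupOf H ≃* X)) :
    ∃ φ : ↥H →* X, Function.Surjective φ ∧ φ.ker = I.subgroupOf H := by
  obtain ⟨e⟩ := h
  refine ⟨e.toMonoidHom.comp (QuotientGroup.mk' _),
    e.surjective.comp (QuotientGroup.mk'_surjective _), ?_⟩
  rw [← MonoidHom.comap_ker, (MonoidHom.ker_eq_bot_iff e.toMonoidHom).mpr e.injective,
    MonoidHom.comap_bot, QuotientGroup.ker_mk']

theorem hom_zpow_inv_mul {K : Type*} [Group K] (Φ : G →* K) {g r : G} {j : ℤ}
    (h : Φ g ^ j = Φ r) : Φ ((g ^ j)⁻¹ * r) = 1 := by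
  rw [map_mul, map_inv, map_zpow, h, inv_mul_cancel]

end Quot

variable {ι : Type} [Fintype ι] [DecidableEq ι] {F : Type u} [Field F]
  {Q : QuadraticForm F (ι → F)}

/-- Similarities of determinant `sim ^ k`. -/
noncomputable def dSub (hV : ∃ v, Q v ≠ 0) (k : ℕ) : Subgroup (GO Q) :=
  (MonoidHom.mk' (fun g : GO Q => detGO g * (sim hV g ^ k)⁻¹) fun a b => by
    rw [map_mul, map_mul, mul_pow, _root_.mul_inv]
    exact mul_mul_mul_comm _ _ _ _).ker

theorem mem_dSub {hV : ∃ v, Q v ≠ 0} {k : ℕ} {g : GO Q} :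
    g ∈ dSub hV k ↔ detGO g = sim hV g ^ k := mul_inv_eq_one

/-- The standing hypotheses. -/
structure EvenOdd (Q : QuadraticForm F (ι → F)) (k : ℕ) : Prop where
  two : (2 : F) ≠ 0
  nd : (QuadraticMap.polarBilin Q).Nondegenerate
  dim : 7 ≤ Fintype.card ι
  card : Fintype.card ι = 2 * k
  ns : ∃ v, Q v ≠ 0
  surj : Function.Surjective (sim ns)

theorem sim_isoInc (hV : ∃ v, Q v ≠ 0) (s : Cfsg.isometryGroup F ⇑Q) : sim hV (isoInc Q s) = 1 := by
  rw [← MonoidHom.mem_ker, sim_ker]; exact ⟨_, rfl⟩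

namespace EvenOdd

variable {k : ℕ} (H : EvenOdd Q k)
include H

theorem sc_mem (u : Fˣ) : sc Q u ∈ dSub H.ns k :=
  mem_dSub.mpr (by rw [det_sc, sim_sc, H.card, ← pow_two, ← pow_mul])

theorem neg_one_ne : (-1 : Fˣ) ≠ 1 := fun h => H.two (by
  have h' : (-1 : F) = 1 := by simpa using congrArg Units.val h
  linear_combination -h')

variable [Fintype F]

theorem isoInc_det (s : Cfsg.isometryGroup F ⇑Q) (hs : s ∈ Cfsg.Omega F ⇑Q) :
    detGO (isoInc Q s) = 1 := by
  have h1 := (Forms.mem_omega_iff Q s).mp hs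
  rw [Forms.mem_commutator_iff H.two H.nd
    (by rw [Module.finrank_fintype_fun_eq_card]; have := H.dim; omega)] at h1
  refine Units.ext ?_
  show ((s : GL ι F) : Matrix ι ι F).det = 1
  rw [← Forms.det_isometryEquiv, h1.1, Units.val_one]

/-- The shape of a similarity inducing an inner automorphism. -/
theorem inn_shape {x : GO Q} (h : A Q x ∈ Cfsg.Inn (Cfsg.POmega F ⇑Q)) :
    detGO x = sim H.ns x ^ k ∧ IsSquare (sim H.ns x) := by
  rw [Inn_eq_map] at h
  obtain ⟨_, ⟨w, hw, rfl⟩, he⟩ := h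
  have h1 : A Q ((isoInc Q w)⁻¹ * x) = 1 := by rw [map_mul, map_inv, he, inv_mul_cancel]
  obtain ⟨u, hu⟩ := (A_eq_one_iff' H.nd H.dim _).mp h1
  have hx : x = isoInc Q w * sc Q u := by rw [hu, mul_inv_cancel_left]
  subst hx
  refine ⟨?_, u, by rw [map_mul, sim_isoInc, one_mul, sim_sc]⟩
  refine mem_dSub.mp (mul_mem (mem_dSub.mpr ?_) (H.sc_mem u))
  rw [sim_isoInc, one_pow]
  exact H.isoInc_det w hw

theorem negOne_spinor (hneg : Forms.negOne Q ∈ commutator (Forms.orthGroup Q)) :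
    Forms.spinor Q H.two (Forms.negOne Q) = 1 := by
  exact ((Forms.mem_commutator_iff H.two H.nd
    (by rw [Module.finrank_fintype_fun_eq_card]; have := H.dim; omega)).mp hneg).2

theorem spinor_pair {U W : ι → F} (hU : Q U ≠ 0) (hW : Q W ≠ 0) :
    Forms.spinor Q H.two (Forms.reflection Q U * Forms.reflection Q W) = 1 ↔
      IsSquare (Q U * Q W) := by
  classical
  have hu := Forms.spinor_reflection H.two H.nd hU
  have hw := Forms.spinor_reflection H.two H.nd hW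
  have key : ∀ x y : F, x ≠ 0 → y ≠ 0 → (IsSquare (x * y) ↔ (IsSquare x ↔ IsSquare y)) := by
    intro x y hx hy
    rw [← quadraticChar_one_iff_isSquare (mul_ne_zero hx hy), ← quadraticChar_one_iff_isSquare hx,
      ← quadraticChar_one_iff_isSquare hy, map_mul]
    rcases quadraticChar_dichotomy hx with e | e <;> rcases quadraticChar_dichotomy hy with e' | e' <;>
      rw [e, e'] <;> norm_num
  rw [map_mul, key _ _ hU hW]
  by_cases a : IsSquare (Q U) <;> by_cases b : IsSquare (Q W)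
  · rw [hu.1 a, hw.1 b]; simp [a, b]
  · rw [hu.1 a, hw.2 b]; simp [a, b]
  · rw [hu.2 a, hw.1 b]; simp [a, b]
  · rw [hu.2 a, hw.2 b]; simp [a, b]

/-- Scalar times two reflections. -/
theorem pair_mem_inn_iff (hneg : Forms.negOne Q ∈ commutator (Forms.orthGroup Q)) (c : Fˣ)
    {U W : ι → F} (hU : Q U ≠ 0) (hW : Q W ≠ 0) :
    A Q (sc Q c * (reflGO Q U * reflGO Q W)) ∈ Cfsg.Inn (Cfsg.POmega F ⇑Q) ↔
      IsSquare (Q U * Q W) := by
  set s := Forms.reflection Q U * Forms.reflection Q W with hs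
  have hd : 2 ≤ finrank F (ι → F) := by
    rw [Module.finrank_fintype_fun_eq_card]; have := H.dim; omega
  have hprod : reflGO Q U * reflGO Q W = isoInc Q ((Forms.isometryEquiv Q).symm s) := by
    rw [hs, map_mul, map_mul]; rfl
  rw [map_mul, (A_eq_one_iff' H.nd H.dim _).mpr ⟨c, rfl⟩, one_mul, hprod, ← H.spinor_pair hU hW]
  constructor
  · intro h
    rw [Inn_eq_map] at h
    obtain ⟨_, ⟨w, hw, rfl⟩, he⟩ := h
    have h1 : A Q ((isoInc Q w)⁻¹ * isoInc Q ((Forms.isometryEquiv Q).symm s)) = 1 := by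
      rw [map_mul, map_inv, he, inv_mul_cancel]
    obtain ⟨u, hu⟩ := (A_eq_one_iff' H.nd H.dim _).mp h1
    have hu1 : u * u = 1 := by
      rw [← sim_sc H.ns, hu, map_mul, map_inv, sim_isoInc, sim_isoInc, inv_one, one_mul]
    have hws : ∀ x, (((Forms.isometryEquiv Q).symm s : GL ι F) : Matrix ι ι F) *ᵥ x =
        (u : F) • ((((w : GL ι F)) : Matrix ι ι F) *ᵥ x) := by
      intro x
      have e : isoInc Q ((Forms.isometryEquiv Q).symm s) = isoInc Q w * sc Q u := by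
        rw [hu, mul_inv_cancel_left]
      have e2 : (((Forms.isometryEquiv Q).symm s : GL ι F)) = (w : GL ι F) * (sc Q u).1 :=
        congrArg Subtype.val e
      rw [e2, Units.val_mul, ← Matrix.mulVec_mulVec, sc_mulVec, Matrix.mulVec_smul]
    have hw' := ((Forms.mem_commutator_iff H.two H.nd hd).mp ((Forms.mem_omega_iff Q w).mp hw)).2
    rcases mul_self_eq_one_iff.mp (show (u : F) * u = 1 by simpa using congrArg Units.val hu1)
      with h1' | h1'
    · have : s = Forms.isometryEquiv Q w := Forms.orth_ext fun x => by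
        have h := hws x
        rw [h1', one_smul, ← Forms.isometryEquiv_apply, ← Forms.isometryEquiv_apply,
          MulEquiv.apply_symm_apply] at h
        exact h
      rw [← hs, this]; exact hw'
    · have : s = Forms.negOne Q * Forms.isometryEquiv Q w := Forms.orth_ext fun x => by
        have h := hws x
        rw [h1', neg_smul, one_smul, ← Forms.isometryEquiv_apply, ← Forms.isometryEquiv_apply,
          MulEquiv.apply_symm_apply] at h
        rw [h]
        rfl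
      rw [← hs, this, map_mul, H.negOne_spinor hneg, hw', one_mul]
  · intro h
    rw [Inn_eq_map]
    refine ⟨_, ⟨_, ?_, rfl⟩, rfl⟩
    rw [SetLike.mem_coe, Forms.mem_omega_iff, MulEquiv.apply_symm_apply,
      Forms.mem_commutator_iff H.two H.nd hd, hs]
    refine ⟨?_, h⟩
    rw [map_mul]
    refine Units.ext ?_
    rw [Units.val_mul, Forms.orthDet_reflection Q hU, Forms.orthDet_reflection Q hW]
    simp

theorem inn_le_pso : Cfsg.Inn (Cfsg.POmega F ⇑Q) ≤ Cfsg.psoAut F ⇑Q := by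
  rw [Inn_eq_map, psoAut_eq]
  refine Subgroup.map_mono ?_
  rintro _ ⟨t, ht, rfl⟩
  exact ⟨t.2, Units.ext (by
    have h := congrArg Units.val (H.isoInc_det t ht)
    exact h)⟩

theorem pso_le : Cfsg.psoAut F ⇑Q ≤ (dSub H.ns k).map (A Q) := by
  rw [psoAut_eq]
  refine Subgroup.map_mono fun g hg => mem_dSub.mpr ?_
  have e1 : sim H.ns g = 1 := by
    rw [← MonoidHom.mem_ker, sim_ker]
    exact ⟨⟨g.1, hg.1⟩, Subtype.ext rfl⟩
  rw [e1, one_pow]
  exact hg.2

theorem index_dSub : (dSub H.ns k).index = 2 := by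
  refine Subgroup.index_eq_two_iff.mpr ⟨reflGO Q H.ns.choose, fun b => ?_⟩
  have hv := H.ns.choose_spec
  have h := det_sq_of_similitude H.nd (g := (b.1 : Matrix ι ι F)) (c := (sim H.ns b : F))
    (sim_spec H.ns b)
  rw [H.card, pow_mul', sq] at h
  have e : ∀ x : GO Q, (x * reflGO Q H.ns.choose ∈ dSub H.ns k ↔ -detGO x = sim H.ns x ^ k) := by
    intro x
    rw [mem_dSub, map_mul, map_mul, detGO_reflGO hv, sim_reflGO, mul_one, mul_neg, mul_one]
  rw [e, mem_dSub]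
  rcases mul_self_eq_mul_self_iff.mp h with h | h
  · refine Or.inr ⟨Units.ext (by rw [detGO_val, h, Units.val_pow_eq_pow_val]), fun h' => H.two ?_⟩
    have h'' : -(detGO b : F) = (sim H.ns b : F) ^ k := by simpa using congrArg Units.val h'
    rw [detGO_val, h] at h''
    exact (mul_eq_zero.mp (show (2 : F) * (sim H.ns b : F) ^ k = 0 by linear_combination -h'')).resolve_right
      (pow_ne_zero _ (Units.ne_zero _))
  · refine Or.inl ⟨Units.ext (by rw [Units.val_neg, detGO_val, h, Units.val_pow_eq_pow_val, neg_neg]),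
      fun h' => H.two ?_⟩
    have h'' : (detGO b : F) = (sim H.ns b : F) ^ k := by simpa using congrArg Units.val h'
    rw [detGO_val, h] at h''
    exact (mul_eq_zero.mp (show (2 : F) * (sim H.ns b : F) ^ k = 0 by linear_combination -h'')).resolve_right
      (pow_ne_zero _ (Units.ne_zero _))

/-- The orders of the two quotients. -/
theorem relIndices {r : ℕ}
    (hr : (Cfsg.Inn (Cfsg.POmega F ⇑Q)).relIndex (Cfsg.psoAut F ⇑Q) = r) :
    (Cfsg.Inn (Cfsg.POmega F ⇑Q)).relIndex (A Q).range = 4 * r ∧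
    (Cfsg.Inn (Cfsg.POmega F ⇑Q)).relIndex ((dSub H.ns k).map (A Q)) = 2 * r := by
  have hker : (A Q).ker ≤ dSub H.ns k := fun g hg => by
    obtain ⟨u, rfl⟩ := (A_eq_one_iff' H.nd H.dim g).mp hg
    exact H.sc_mem u
  obtain ⟨φ, hφ, hk⟩ := (exists_pgo_pso H.two H.nd H.dim H.card H.ns H.surj).1
  have h4 : (Cfsg.psoAut F ⇑Q).relIndex (A Q).range = 4 := by
    rw [← pgoAut_eq]
    show ((Cfsg.psoAut F ⇑Q).subgroupOf (Cfsg.pgoAut F ⇑Q)).index = 4
    rw [← hk, Subgroup.index_ker, MonoidHom.range_eq_top.mpr hφ, Subgroup.card_top,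
      Nat.card_congr Multiplicative.toAdd, Nat.card_prod, Nat.card_zmod]
  have hle : (dSub H.ns k).map (A Q) ≤ (A Q).range := Subgroup.map_le_range _ _
  have h1 : (Cfsg.Inn (Cfsg.POmega F ⇑Q)).relIndex (A Q).range = 4 * r := by
    rw [← Subgroup.relIndex_mul_relIndex _ _ _ H.inn_le_pso (H.pso_le.trans hle), hr, h4, mul_comm]
  have h2 : ((dSub H.ns k).map (A Q)).relIndex (A Q).range = 2 := by
    rw [MonoidHom.range_eq_map, Subgroup.relIndex_map_map, sup_eq_left.mpr hker, top_sup_eq,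
      Subgroup.relIndex_top_right, H.index_dSub]
  refine ⟨h1, ?_⟩
  have h3 := Subgroup.relIndex_mul_relIndex _ _ _ (H.inn_le_pso.trans H.pso_le) hle
  rw [h1, h2] at h3
  omega

theorem inndiag_two (hr : (Cfsg.Inn (Cfsg.POmega F ⇑Q)).relIndex (Cfsg.psoAut F ⇑Q) = 1) :
    ∃ φ : ↥((dSub H.ns k).map (A Q)) →* Multiplicative (ZMod 2), Function.Surjective φ ∧
      φ.ker = (Cfsg.Inn (Cfsg.POmega F ⇑Q)).subgroupOf _ := by
  refine exists_surj_of_quot _ _ ⟨mulEquivOfPrimeCardEq (p := 2) ?_ (by simp)⟩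
  rw [← Subgroup.index_eq_card]
  exact ((H.relIndices hr).2 : _)

theorem pgo_klein (hr : (Cfsg.Inn (Cfsg.POmega F ⇑Q)).relIndex (Cfsg.psoAut F ⇑Q) = 1) :
    ∃ φ : ↥(Cfsg.pgoAut F ⇑Q) →* Multiplicative (ZMod 2 × ZMod 2), Function.Surjective φ ∧
      φ.ker = (Cfsg.Inn (Cfsg.POmega F ⇑Q)).subgroupOf _ := by
  have he : Cfsg.Inn (Cfsg.POmega F ⇑Q) = Cfsg.psoAut F ⇑Q :=
    le_antisymm H.inn_le_pso (Subgroup.relIndex_eq_one.mp hr)
  rw [he]
  exact (exists_pgo_pso H.two H.nd H.dim H.card H.ns H.surj).1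

theorem card_quot_dSub (hr : (Cfsg.Inn (Cfsg.POmega F ⇑Q)).relIndex (Cfsg.psoAut F ⇑Q) = 2) :
    Nat.card (↥((dSub H.ns k).map (A Q)) ⧸
      (Cfsg.Inn (Cfsg.POmega F ⇑Q)).subgroupOf ((dSub H.ns k).map (A Q))) = 4 := by
  rw [← Subgroup.index_eq_card]
  exact ((H.relIndices hr).2 : _)

theorem inndiag_cyclic (hr : (Cfsg.Inn (Cfsg.POmega F ⇑Q)).relIndex (Cfsg.psoAut F ⇑Q) = 2)
    (hneg : Forms.negOne Q ∈ commutator (Forms.orthGroup Q)) {g : GO Q}
    (hg : g ∈ dSub H.ns k) {c : Fˣ} {U W : ι → F} (hU : Q U ≠ 0) (hW : Q W ≠ 0)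
    (hgg : g * g = sc Q c * (reflGO Q U * reflGO Q W)) (hns : ¬ IsSquare (Q U * Q W)) :
    ∃ φ : ↥((dSub H.ns k).map (A Q)) →* Multiplicative (ZMod 4), Function.Surjective φ ∧
      φ.ker = (Cfsg.Inn (Cfsg.POmega F ⇑Q)).subgroupOf _ := by
  refine exists_surj_of_quot _ _ (nonempty_cyclic_four
    (g := QuotientGroup.mk (⟨A Q g, g, hg, rfl⟩ : ↥((dSub H.ns k).map (A Q)))) ?_
    (H.card_quot_dSub hr))
  rw [← QuotientGroup.mk_mul, Ne, QuotientGroup.eq_one_iff]
  show ¬ A Q g * A Q g ∈ Cfsg.Inn (Cfsg.POmega F ⇑Q)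
  rw [← map_mul, hgg, H.pair_mem_inn_iff hneg c hU hW]
  exact hns

theorem inndiag_klein (hr : (Cfsg.Inn (Cfsg.POmega F ⇑Q)).relIndex (Cfsg.psoAut F ⇑Q) = 2)
    (hneg : Forms.negOne Q ∈ commutator (Forms.orthGroup Q)) {g : GO Q}
    (hg : g ∈ dSub H.ns k) {c : Fˣ} (hgg : g * g = sc Q c) (hsim : ¬ IsSquare (sim H.ns g))
    {U W : ι → F} (hU : Q U ≠ 0) (hW : Q W ≠ 0) (hns : ¬ IsSquare (Q U * Q W)) :
    ∃ φ : ↥((dSub H.ns k).map (A Q)) →* Multiplicative (ZMod 2 × ZMod 2), Function.Surjective φ ∧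
      φ.ker = (Cfsg.Inn (Cfsg.POmega F ⇑Q)).subgroupOf _ := by
  set s := reflGO Q U * reflGO Q W with hs_def
  have hsD : s ∈ dSub H.ns k := mem_dSub.mpr (by
    rw [hs_def, map_mul, map_mul, detGO_reflGO hU, detGO_reflGO hW, sim_reflGO, sim_reflGO]; simp)
  have hA1 : A Q (sc Q c) = 1 := (A_eq_one_iff' H.nd H.dim _).mpr ⟨c, rfl⟩
  refine exists_surj_of_quot _ _ (nonempty_klein
    (a := QuotientGroup.mk (⟨A Q g, g, hg, rfl⟩ : ↥((dSub H.ns k).map (A Q))))
    (b := QuotientGroup.mk (⟨A Q s, s, hsD, rfl⟩ : ↥((dSub H.ns k).map (A Q))))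
    ?_ ?_ ?_ ?_ ?_ (H.card_quot_dSub hr))
  · rw [← QuotientGroup.mk_mul, QuotientGroup.eq_one_iff]
    show A Q g * A Q g ∈ Cfsg.Inn (Cfsg.POmega F ⇑Q)
    rw [← map_mul, hgg, hA1]
    exact one_mem _
  · rw [← QuotientGroup.mk_mul, QuotientGroup.eq_one_iff]
    show A Q s * A Q s ∈ Cfsg.Inn (Cfsg.POmega F ⇑Q)
    rw [← map_mul, Inn_eq_map]
    refine ⟨_, ⟨(Forms.isometryEquiv Q).symm (Forms.reflection Q U * Forms.reflection Q W) *
      (Forms.isometryEquiv Q).symm (Forms.reflection Q U * Forms.reflection Q W), ?_, rfl⟩,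
      congrArg (A Q) ?_⟩
    · rw [SetLike.mem_coe, Forms.mem_omega_iff, map_mul, MulEquiv.apply_symm_apply,
        Forms.mem_commutator_iff H.two H.nd
          (by rw [Module.finrank_fintype_fun_eq_card]; have := H.dim; omega)]
      refine ⟨?_, by rw [map_mul]; exact Int.units_mul_self _⟩
      refine Units.ext ?_
      simp [Forms.orthDet_reflection Q hU, Forms.orthDet_reflection Q hW]
    · rw [hs_def, map_mul, map_mul, map_mul]; rfl
  · rw [Ne, QuotientGroup.eq_one_iff]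
    exact fun h => hsim (H.inn_shape h).2
  · rw [Ne, QuotientGroup.eq_one_iff]
    intro h
    have h' : A Q (sc Q 1 * s) ∈ Cfsg.Inn (Cfsg.POmega F ⇑Q) := by rw [map_one, one_mul]; exact h
    exact hns ((H.pair_mem_inn_iff hneg 1 hU hW).mp h')
  · rw [Ne, QuotientGroup.eq]
    intro h
    have h' : A Q (g⁻¹ * s) ∈ Cfsg.Inn (Cfsg.POmega F ⇑Q) := by rw [map_mul, map_inv]; exact h
    have h2 := (H.inn_shape h').2
    rw [map_mul, map_inv, hs_def, map_mul, sim_reflGO, sim_reflGO, mul_one, mul_one] at h2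
    exact hsim (by simpa using h2.inv)

theorem pgo_dihedral (hr : (Cfsg.Inn (Cfsg.POmega F ⇑Q)).relIndex (Cfsg.psoAut F ⇑Q) = 2)
    (hneg : Forms.negOne Q ∈ commutator (Forms.orthGroup Q)) {g : GO Q}
    (hsim : ¬ IsSquare (sim H.ns g)) {E : ι → F} (hE : Q E ≠ 0) {c c' : Fˣ} {U W U' W' : ι → F}
    (hU : Q U ≠ 0) (hW : Q W ≠ 0) (hU' : Q U' ≠ 0) (hW' : Q W' ≠ 0)
    (hgg : g * g = sc Q c * (reflGO Q U * reflGO Q W)) (hns : ¬ IsSquare (Q U * Q W))
    (hrg : reflGO Q E * g * (reflGO Q E * g) = sc Q c' * (reflGO Q U' * reflGO Q W'))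
    (hsq : IsSquare (Q U' * Q W')) :
    ∃ φ : ↥(Cfsg.pgoAut F ⇑Q) →* DihedralGroup 4, Function.Surjective φ ∧
      φ.ker = (Cfsg.Inn (Cfsg.POmega F ⇑Q)).subgroupOf _ := by
  rw [pgoAut_eq]
  set q := QuotientGroup.mk' ((Cfsg.Inn (Cfsg.POmega F ⇑Q)).subgroupOf (A Q).range)
  set Φ := q.comp (A Q).rangeRestrict with hΦ
  have hone : ∀ x : GO Q, Φ x = 1 ↔ A Q x ∈ Cfsg.Inn (Cfsg.POmega F ⇑Q) := fun x =>
    QuotientGroup.eq_one_iff _
  have hrr : reflGO Q E * reflGO Q E = 1 := by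
    show isoInc Q _ * isoInc Q _ = 1
    rw [← map_mul, ← map_mul, Forms.reflection_mul_self, map_one, map_one]
  have hxy : Φ (reflGO Q E) * Φ (reflGO Q E * g) = Φ g := by
    rw [← map_mul, ← mul_assoc, hrr, one_mul]
  refine exists_surj_of_quot _ _ (nonempty_dihedral (n := 4) (x := Φ (reflGO Q E))
    (y := Φ (reflGO Q E * g)) ?_ ?_ ?_ ?_ ?_)
  · rw [← map_mul, hrr, map_one]
  · rw [← map_mul, hone, hrg, H.pair_mem_inn_iff hneg c' hU' hW']
    exact hsq
  · rw [hxy]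
    refine orderOf_eq_four ?_ ?_
    · rw [← map_mul, Ne, hone, hgg, H.pair_mem_inn_iff hneg c hU hW]
      exact hns
    · rw [← map_mul, ← map_mul, hone, hgg]
      have hA1 : ∀ y : GO Q, A Q (sc Q c * y) = A Q y := fun y => by
        rw [map_mul, (A_eq_one_iff' H.nd H.dim _).mpr ⟨c, rfl⟩, one_mul]
      rw [map_mul, hA1, ← map_mul, Inn_eq_map]
      refine ⟨_, ⟨(Forms.isometryEquiv Q).symm (Forms.reflection Q U * Forms.reflection Q W) *
        (Forms.isometryEquiv Q).symm (Forms.reflection Q U * Forms.reflection Q W), ?_, rfl⟩,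
        congrArg (A Q) ?_⟩
      · rw [SetLike.mem_coe, Forms.mem_omega_iff, map_mul, MulEquiv.apply_symm_apply,
          Forms.mem_commutator_iff H.two H.nd
            (by rw [Module.finrank_fintype_fun_eq_card]; have := H.dim; omega)]
        refine ⟨?_, by rw [map_mul]; exact Int.units_mul_self _⟩
        refine Units.ext ?_
        simp [Forms.orthDet_reflection Q hU, Forms.orthDet_reflection Q hW]
      · rw [map_mul, map_mul, map_mul]; rfl
  · rw [hxy]
    rintro ⟨j, hj⟩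
    have h1 : A Q ((g ^ j)⁻¹ * reflGO Q E) ∈ Cfsg.Inn (Cfsg.POmega F ⇑Q) :=
      (hone _).mp (hom_zpow_inv_mul Φ hj)
    obtain ⟨hd, hs2⟩ := H.inn_shape h1
    rw [map_mul, map_inv, map_zpow, sim_reflGO, mul_one] at hs2
    rcases Int.even_or_odd j with ⟨i, rfl⟩ | ⟨i, rfl⟩
    · have hgD : g ^ (i + i) ∈ dSub H.ns k := by
        rw [← two_mul, _root_.zpow_mul]
        refine Subgroup.zpow_mem _ ?_ i
        rw [zpow_two]
        exact (Subgroup.mul_mem_iff_of_index_two H.index_dSub).mpr Iff.rfl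
      have hr' := mul_mem hgD (mem_dSub.mpr hd)
      rw [mul_inv_cancel_left, mem_dSub, detGO_reflGO hE, sim_reflGO, one_pow] at hr'
      exact H.neg_one_ne hr'
    · refine hsim ?_
      obtain ⟨u, hu⟩ := hs2
      refine ⟨u⁻¹ * (sim H.ns g ^ i)⁻¹, ?_⟩
      have e : sim H.ns g ^ (2 * i + 1) = u⁻¹ * u⁻¹ := by
        rw [← inv_inv (sim H.ns g ^ (2 * i + 1)), hu, _root_.mul_inv_rev]
      rw [_root_.zpow_add, zpow_one, two_mul, _root_.zpow_add] at e
      calc sim H.ns g = (sim H.ns g ^ i)⁻¹ * (sim H.ns g ^ i)⁻¹ *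
            (sim H.ns g ^ i * sim H.ns g ^ i * sim H.ns g) := by group
        _ = _ := by rw [e]; exact (mul_mul_mul_comm _ _ _ _).trans (by rw [mul_comm (u⁻¹)])
  · rw [← Subgroup.index_eq_card]
    exact ((H.relIndices hr).1 : _)

end EvenOdd

end Cfsg.Agent.KnownB.Proj.Orth
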