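import Cfsg.Agent.KnownB.Proj.Orth.Odd
import Cfsg.Agent.KnownB.AutPSL.Classes

/-! Field automorphism classes of `Ω_{2m+1}(q)` and the order of its automorphism group. -/

set_option autoImplicit false
set_option maxHeartbeats 1000000

namespace Cfsg.Agent.KnownB.Proj.Orth

open Matrix Module
open Cfsg.Agent.Forms (qOdd)
open Cfsg.Agent.KnownB.AutPSL (fixSub splitClassCount_eq_relIndex)

universe u v

variable {m : ℕ} {F : Type u} [Field F] [Fintype F]

theorem two_ne_zero_of_odd (hodd : Odd (Fintype.card F)) : (2 : F) ≠ 0 := fun h => by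
  have := Forms.card_field_parity.1 h
  rw [Nat.odd_iff] at hodd
  omega

theorem coset_odd (hm : 3 ≤ m) (h2 : (2 : F) ≠ 0) (Qf : (Unit ⊕ (Fin m ⊕ Fin m) → F) → F)
    (hQf : ⇑(qOdd m F) = Qf) (x δ : MulAut (Cfsg.POmega F Qf))
    (hx : Cfsg.IsFieldAutClassPOmega Qf x) {r : ℕ} (hr : r.Prime) (hxr : orderOf x = r)
    (hδ : δ ∈ Cfsg.autSubgroupOf fun β => Cfsg.IsSimilarityInducedAutPOmega Qf β) :
    orderOf (δ * x) = r ↔ Cfsg.IsConjUnder
      (Cfsg.autSubgroupOf fun β => Cfsg.IsSimilarityInducedAutPOmega Qf β) x (δ * x) := by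
  subst hQf
  rw [inndiag_eq h2] at hδ ⊢
  haveI : (Aso m F).range.Normal := by
    rw [← range_A_eq h2]; exact range_A_normal (good_qOdd m hm h2) fieldSub_qOdd
  obtain ⟨α, σ, -, h, -, ho⟩ :=
    field_class (good_qOdd m hm h2) fieldSub_qOdd (fd_injective_odd hm h2) hx
  exact (fieldTwist hm h2 hr.pos (ho.trans hxr)).coset_iff h hxr hδ

theorem index_spin_ker (hm : 3 ≤ m) (h2 : (2 : F) ≠ 0) :
    (spin (m := m) h2).ker.index = 2 := by
  obtain ⟨g, hg⟩ := exists_spin_fix (RingHom.id F) hm h2 (fun a ha => ha)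
  rw [Subgroup.index_ker, MonoidHom.range_eq_top.mpr fun x => ?_, Subgroup.card_top]
  · rw [Nat.card_eq_fintype_card]; rfl
  · rcases Int.units_eq_one_or x with rfl | rfl
    · exact ⟨1, map_one _⟩
    · exact ⟨_, (Int.units_eq_one_or _).resolve_left hg⟩

theorem isSquare_hom_iff_odd {F₀ : Type v} [Field F₀] (ι : F₀ →+* F) (σ : F ≃+* F)
    (hι : ∀ x : F, σ x = x ↔ x ∈ ι.range) {r : ℕ} (hσr : σ ^ r = 1) (h2 : (2 : F) ≠ 0)
    (hr : Odd r) (a : F₀) (ha : IsSquare (ι a)) : IsSquare a := by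
  obtain ⟨x, hx⟩ := ha
  have hsx : σ x = x := by
    have h1 : σ x * σ x = x * x := by rw [← map_mul, ← hx]; exact (hι _).mpr ⟨a, rfl⟩
    rcases mul_self_eq_mul_self_iff.mp h1 with h | h
    · exact h
    · have hk : ∀ k : ℕ, (σ ^ k) x = (-1) ^ k * x := by
        intro k
        induction k with
        | zero => simp
        | succ k ih =>
          rw [pow_succ', RingAut.mul_apply, ih, map_mul, map_pow, map_neg, map_one, h, pow_succ]
          ring
      have h3 := hk r
      rw [hσr, hr.neg_one_pow] at h3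
      have : (2 : F) * x = 0 := by
        have h4 : x = -1 * x := h3
        linear_combination h4
      rw [h, (mul_eq_zero.mp this).resolve_left h2, neg_zero]
  obtain ⟨y, rfl⟩ := (hι x).mp hsx
  exact ⟨y, ι.injective (by rw [hx, map_mul])⟩

theorem isSquare_hom_of_quadratic {F₀ : Type v} [Field F₀] [Fintype F₀] (ι : F₀ →+* F)
    (hc : Fintype.card F = Fintype.card F₀ ^ 2) (h2 : (2 : F) ≠ 0) (a : F₀) : IsSquare (ι a) := by
  by_cases ha : a = 0
  · exact ⟨0, by simp [ha]⟩
  have hne : ι a ≠ 0 := fun h => ha (ι.injective (h.trans (map_zero ι).symm))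
  have hchar : ringChar F ≠ 2 := fun h => h2 (by
    have : CharP F 2 := ringChar.of_eq h
    exact CharTwo.two_eq_zero)
  rw [FiniteField.isSquare_iff hchar hne, hc]
  have hodd : Fintype.card F % 2 = 1 :=
    Nat.mod_two_ne_zero.1 fun h => h2 (Forms.card_field_parity.2 h)
  set q := Fintype.card F₀ with hq
  have hq2 : q % 2 = 1 := by
    rw [hc, Nat.pow_mod] at hodd
    rcases Nat.mod_two_eq_zero_or_one q with h | h
    · rw [h] at hodd; simp at hodd
    · exact h
  have hq1 : 1 < q := Fintype.one_lt_card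
  obtain ⟨t, ht⟩ : ∃ t, q = 2 * t + 1 := ⟨q / 2, by omega⟩
  have he : q ^ 2 / 2 = (q - 1) * (t + 1) := by
    rw [ht, Nat.add_sub_cancel]
    have : (2 * t + 1) ^ 2 = 2 * (2 * t * (t + 1)) + 1 := by ring
    rw [this]; omega
  rw [he, pow_mul, ← map_pow, FiniteField.pow_card_sub_one_eq_one a ha, map_one, one_pow]

theorem field_odd (hm : 3 ≤ m) (h2 : (2 : F) ≠ 0) {p f : ℕ} [Fact p.Prime]
    (hF : Fintype.card F = p ^ f) (hf : 1 ≤ f) (Qf : (Unit ⊕ (Fin m ⊕ Fin m) → F) → F)
    (hQf : ⇑(qOdd m F) = Qf) (x : MulAut (Cfsg.POmega F Qf))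
    (hx : Cfsg.IsFieldAutClassPOmega Qf x) {r : ℕ} (hr : r.Prime) (hxr : orderOf x = r)
    (F₀ : Type v) [Field F₀] [Fintype F₀] (hF₀ : Fintype.card F₀ = p ^ (f / r))
    (Qf₀ : (Unit ⊕ (Fin m ⊕ Fin m) → F₀) → F₀) (hQf₀ : ⇑(qOdd m F₀) = Qf₀) :
    r ∣ f ∧
      Nonempty (↥((Cfsg.autSubgroupOf fun β => Cfsg.IsSimilarityInducedAutPOmega Qf β) ⊓
        Subgroup.centralizer {x}) ≃*
          ↥(Cfsg.autSubgroupOf fun β => Cfsg.IsSimilarityInducedAutPOmega Qf₀ β)) ∧
      (Odd r → Cfsg.splitClassCount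
        (Cfsg.autSubgroupOf fun β => Cfsg.IsSimilarityInducedAutPOmega Qf β)
        (Cfsg.Inn (Cfsg.POmega F Qf)) x = 1) ∧
      (r = 2 → Cfsg.splitClassCount
        (Cfsg.autSubgroupOf fun β => Cfsg.IsSimilarityInducedAutPOmega Qf β)
        (Cfsg.Inn (Cfsg.POmega F Qf)) x = 2) := by
  subst hQf hQf₀
  classical
  obtain ⟨α, σ, -, h, -, ho⟩ :=
    field_class (good_qOdd m hm h2) fieldSub_qOdd (fd_injective_odd hm h2) hx
  have hσ : orderOf (σ : F ≃+* F) = r := ho.trans hxr
  have hFn : Nat.card F = p ^ f := by rw [Nat.card_eq_fintype_card, hF]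
  obtain ⟨e⟩ := AutPSL.exists_ringAut_equiv hFn hf
  haveI : NeZero f := ⟨by omega⟩
  have hrf : r ∣ f := by
    have h' := orderOf_dvd_natCard (e (σ : F ≃+* F))
    rwa [MulEquiv.orderOf_eq, hσ, Nat.card_congr Multiplicative.toAdd, Nat.card_zmod] at h'
  obtain ⟨ι, hι⟩ := AutPSL.exists_fixedField hF hσ hr.pos hrf F₀ hF₀
  have h20 : (2 : F₀) ≠ 0 := fun h => h2 (by rw [← map_ofNat ι 2, h, map_zero])
  have T := fieldTwist hm h2 hr.pos hσ
  haveI : (Aso m F).range.Normal := by
    rw [← range_A_eq h2]; exact range_A_normal (good_qOdd m hm h2) fieldSub_qOdd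
  rw [inndiag_eq h2, inndiag_eq h20]
  refine ⟨hrf, ?_, ?_⟩
  · obtain ⟨e2⟩ := centralizer_conj (Aso m F).range α x
    rw [h] at e2
    refine ⟨e2.trans ((MulEquiv.subgroupCongr T.centralizer_eq).trans ?_)⟩
    refine ((Subgroup.equivMapOfInjective _ (Aso m F) (Aso_injective hm h2)).symm.trans ?_)
    refine (MulEquiv.subgroupCongr (fixSub_eq ι h2 hι).symm).trans ?_
    exact (MonoidHom.ofInjective (jSO_injective ι h2)).symm.trans
      (MonoidHom.ofInjective (Aso_injective hm h20))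
  have hle : (spin (m := m) h2).ker.map (Aso m F) ≤ (Aso m F).range := Subgroup.map_le_range _ _
  have hcount : Cfsg.splitClassCount (Aso m F).range (Cfsg.Inn (Cfsg.POmega F ⇑(qOdd m F))) x =
      ((spin (m := m) h2).ker ⊔ fixSub (mapSO σ)).index := by
    rw [← splitClassCount_conj (Aso m F).range _ α x, h,
      splitClassCount_eq_relIndex _ _ (by rw [Inn_eq hm h2]; exact hle), ← Subgroup.index_comap,
      T.centralizer_eq, Inn_eq hm h2, ← Subgroup.map_sup,
      Subgroup.comap_map_eq_self_of_injective (Aso_injective hm h2)]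
  refine ⟨fun hodd => ?_, fun hr2 => ?_⟩
  · rw [hcount, Subgroup.index_eq_one, eq_top_iff]
    obtain ⟨g, hg⟩ := exists_spin_fix ι hm h2 (isSquare_hom_iff_odd ι (σ : F ≃+* F) hι
      (by rw [← hσ, pow_orderOf_eq_one]) h2 hodd)
    intro y _
    have hy : jSO ι h2 g ∈ fixSub (mapSO σ) := by
      rw [← fixSub_eq ι h2 hι]; exact ⟨g, rfl⟩
    by_cases h1 : spin h2 y = 1
    · exact Subgroup.mem_sup_left h1
    · rw [show y = y * (jSO ι h2 g)⁻¹ * jSO ι h2 g by rw [inv_mul_cancel_right]]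
      refine Subgroup.mul_mem_sup ?_ hy
      show spin h2 _ = 1
      rw [map_mul, map_inv, (Int.units_eq_one_or _).resolve_left h1,
        (Int.units_eq_one_or _).resolve_left hg, mul_inv_cancel]
  · subst hr2
    have hfix : fixSub (mapSO σ) ≤ (spin (m := m) h2).ker := by
      rw [← fixSub_eq ι h2 hι]
      rintro _ ⟨g, rfl⟩
      refine spin_fix_square ι h2 (isSquare_hom_of_quadratic ι ?_ h2) g
      rw [hF, hF₀, ← pow_mul, Nat.div_mul_cancel hrf]
    rw [hcount, sup_eq_left.mpr hfix, index_spin_ker hm h2]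

theorem conj_injective {ι' : Type} [Fintype ι'] [DecidableEq ι'] {Q : QuadraticForm F (ι' → F)}
    (hG : Good Q) :
    Function.Injective (MulAut.conj : Cfsg.POmega F ⇑Q →* MulAut (Cfsg.POmega F ⇑Q)) := by
  rw [injective_iff_map_eq_one]
  intro x hx
  induction x using QuotientGroup.induction_on with
  | H s =>
    rw [conj_eq, A_eq_one_iff hG] at hx
    obtain ⟨u, hu⟩ := hx
    refine (QuotientGroup.eq_one_iff s).mpr (Subgroup.mem_center_iff.mpr fun t => ?_)
    have h := congrArg Subtype.val ((sc_comm u (isoInc Q t.1)).eq)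
    rw [hu] at h
    exact Subtype.ext (Subtype.ext h.symm)

theorem card_aut_odd (hm : 3 ≤ m) (h2 : (2 : F) ≠ 0) {p f : ℕ} [Fact p.Prime]
    (hF : Fintype.card F = p ^ f) (hf : 1 ≤ f) :
    Nat.card (MulAut (Cfsg.POmega F ⇑(qOdd m F))) =
      2 * f * Nat.card (Cfsg.POmega F ⇑(qOdd m F)) := by
  classical
  have hG := good_qOdd (F := F) m hm h2
  have hInn : Nat.card (spin (m := m) h2).ker = Nat.card (Cfsg.POmega F ⇑(qOdd m F)) := by
    rw [Nat.card_congr (MonoidHom.ofInjective (conj_injective hG)).toEquiv,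
      Nat.card_congr (Subgroup.equivMapOfInjective (spin (m := m) h2).ker (Aso m F)
        (Aso_injective hm h2)).toEquiv, ← Inn_eq hm h2]

  have hSO : Nat.card (SO m F) = 2 * Nat.card (Cfsg.POmega F ⇑(qOdd m F)) := by
    rw [← hInn, ← Subgroup.card_mul_index (spin (m := m) h2).ker, index_spin_ker hm h2, mul_comm]
  have hFd : Nat.card (fieldSub (qOdd m F)) = f := by
    rw [fieldSub_qOdd, Subgroup.card_top]
    obtain ⟨e⟩ := AutPSL.exists_ringAut_equiv (F := F) (by rw [Nat.card_eq_fintype_card, hF]) hf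
    haveI : NeZero f := ⟨by omega⟩
    rw [Nat.card_congr e.toEquiv, Nat.card_congr Multiplicative.toAdd, Nat.card_zmod]
  have hbij : Function.Bijective
      fun x : SO m F × fieldSub (qOdd m F) => Aso m F x.1 * Fd (qOdd m F) x.2 := by
    refine ⟨fun ⟨g, σ⟩ ⟨g', σ'⟩ e => ?_, fun β => ?_⟩
    · simp only at e
      have e1 : Aso m F (g'⁻¹ * g) * Fd (qOdd m F) (σ * σ'⁻¹) = 1 := by
        rw [map_mul, map_mul, map_inv, map_inv, mul_assoc, ← mul_assoc (Aso m F g), e]
        group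
      set h := g'⁻¹ * g
      set τ := σ * σ'⁻¹ with hτ
      let i : Unit ⊕ (Fin m ⊕ Fin m) := Sum.inr (Sum.inl ⟨0, by omega⟩)
      let j : Unit ⊕ (Fin m ⊕ Fin m) := Sum.inr (Sum.inl ⟨1, by omega⟩)
      have hij : i ≠ j := by simp [i, j]
      have key : ∀ a b : F, (a ≠ 0 ∨ b ≠ 0) → ∃ k : F, k ≠ 0 ∧
          (h.1 : Matrix _ _ F) *ᵥ (Pi.single i ((τ : F ≃+* F) a) + Pi.single j ((τ : F ≃+* F) b)) =
            k • (Pi.single i a + Pi.single j b) := by
        intro a b hab
        obtain ⟨k, hk0, hk⟩ := fixes_of_trivial hG (g := soInc m F h) (σ := τ) e1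
          (v := Pi.single i a + Pi.single j b) (fun h0 => hab.elim
            (fun ha => ha (by simpa [hij] using congrFun h0 i))
            (fun hb => hb (by simpa [hij.symm] using congrFun h0 j)))
          (hyperbolic_qOdd (by omega) a b)
        refine ⟨k, hk0, ?_⟩
        rw [← hk]
        show _ = (h.1 : Matrix (Unit ⊕ (Fin m ⊕ Fin m)) (Unit ⊕ (Fin m ⊕ Fin m)) F) *ᵥ _
        congr 1
        funext l
        by_cases hli : l = i <;> by_cases hlj : l = j <;> simp [hli, hlj, hij, hij.symm]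
      obtain ⟨ki, hki0, hki⟩ := key 1 0 (Or.inl one_ne_zero)
      obtain ⟨kj, -, hkj⟩ := key 0 1 (Or.inr one_ne_zero)
      simp only [map_one, map_zero, Pi.single_zero, add_zero, zero_add] at hki hkj
      have hlin : ∀ a b : F,
          (h.1 : Matrix _ _ F) *ᵥ (Pi.single i a + Pi.single j b) =
            a • ki • (Pi.single i 1 : _ → F) + b • kj • (Pi.single j 1 : _ → F) := by
        intro a b
        rw [← hki, ← hkj, ← Matrix.mulVec_smul, ← Matrix.mulVec_smul, ← Matrix.mulVec_add]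
        congr 1
        funext l
        by_cases hli : l = i <;> by_cases hlj : l = j <;> simp [hli, hlj, hij, hij.symm]
      have hτ1 : τ = 1 := by
        refine Subtype.ext (RingEquiv.ext fun c => ?_)
        obtain ⟨k1, -, h1⟩ := key 1 1 (Or.inl one_ne_zero)
        obtain ⟨k, -, hk⟩ := key 1 c (Or.inl one_ne_zero)
        rw [hlin, map_one] at h1 hk
        have a1 := congrFun h1 i
        have a2 := congrFun h1 j
        have a3 := congrFun hk i
        have a4 := congrFun hk j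
        simp [hij, hij.symm] at a1 a2 a3 a4
        show (τ : F ≃+* F) c = c
        subst a1 a2 a3
        exact mul_right_cancel₀ hki0 (by rw [a4, mul_comm])
      have hσ : σ = σ' := mul_inv_eq_one.mp (hτ ▸ hτ1)
      rw [hσ] at e
      exact Prod.ext (Aso_injective hm h2 (mul_right_cancel e)) hσ
    · obtain ⟨g, σ, rfl⟩ := exists_decomp hG fieldSub_qOdd β
      obtain ⟨s, hs⟩ : A (qOdd m F) g ∈ (Aso m F).range := range_A_eq h2 ▸ ⟨g, rfl⟩
      exact ⟨(s, σ), by simp only [hs]⟩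
  rw [← Nat.card_congr (Equiv.ofBijective _ hbij), Nat.card_prod, hSO, hFd]
  ring

end Cfsg.Agent.KnownB.Proj.Orth
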