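import Cfsg.Agent.KnownB.Proj.Orth.Diag
import Cfsg.Agent.KnownB.Proj.Orth.GOIndMinus
import Cfsg.Agent.Forms.DiscrTools

/-! Generators of `PGO/PΩ` for the plus and minus models. -/

set_option autoImplicit false
set_option maxHeartbeats 1000000

namespace Cfsg.Agent.KnownB.Proj.Orth

open Matrix Module
open Cfsg.Agent.Forms (qPlus qMinus)

universe u

variable {F : Type u} [Field F] [Fintype F] {m : ℕ}

theorem evenOdd_plus (h2 : (2 : F) ≠ 0) (hm : 4 ≤ m) : EvenOdd (qPlus m F) m :=
  ⟨h2, Forms.qPlus_nondegenerate, by simp; omega, by simp [two_mul],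
    exists_ne_qPlus (by omega), sim_surjective_plus (by omega)⟩

theorem evenOdd_minus (h2 : (2 : F) ≠ 0) (hm : 3 ≤ m) {a b : F} (hab : Aniso a b) :
    EvenOdd (qMinus m F a b) (m + 1) :=
  ⟨h2, Forms.qMinus_nondegenerate a b (Forms.disc_ne_zero hab), by simp; omega, by simp; omega,
    exists_ne_qMinus hab, sim_surjective_minus hm hab⟩

theorem dSub_eq_ker_plus (h2 : (2 : F) ≠ 0) (hm : 4 ≤ m) :
    dSub (evenOdd_plus (F := F) h2 hm).ns m = (ptyPlus m).ker := by
  ext g
  rw [mem_dSub, MonoidHom.mem_ker]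
  exact (isPty_plus (by omega)).det_iff h2 Forms.qPlus_nondegenerate g

section Plus

variable (m)

/-- Swap the coordinates of every plane, except possibly the first. -/
def swapLin (keep : Bool) (c : F) :
    (Fin m ⊕ Fin m → F) →ₗ[F] (Fin m ⊕ Fin m → F) where
  toFun v := Sum.elim
    (fun i => if (keep = true ∧ (i : ℕ) = 0) then c * v (Sum.inl i) else c * v (Sum.inr i))
    (fun i => if (keep = true ∧ (i : ℕ) = 0) then v (Sum.inr i) else v (Sum.inl i))
  map_add' x y := by
    funext j
    rcases j with i | i <;> by_cases h : (keep = true ∧ (i : ℕ) = 0) <;> simp [h, mul_add]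
  map_smul' k x := by
    funext j
    rcases j with i | i <;> by_cases h : (keep = true ∧ (i : ℕ) = 0) <;> simp [h] <;> ring

variable {m}

theorem swapLin_injective (keep : Bool) (c : Fˣ) :
    Function.Injective (swapLin m keep (c : F)) := by
  rw [injective_iff_map_eq_zero]
  intro v hv
  funext j
  rcases j with i | i
  · by_cases h : (keep = true ∧ (i : ℕ) = 0)
    · simpa [swapLin, h] using congrFun hv (Sum.inl i)
    · simpa [swapLin, h] using congrFun hv (Sum.inr i)
  · by_cases h : (keep = true ∧ (i : ℕ) = 0)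
    · simpa [swapLin, h] using congrFun hv (Sum.inr i)
    · simpa [swapLin, h] using congrFun hv (Sum.inl i)

theorem swapLin_Q (keep : Bool) (c : F) (v : Fin m ⊕ Fin m → F) :
    qPlus m F (swapLin m keep c v) = c * qPlus m F v := by
  rw [Forms.coe_qPlus]
  simp only [Cfsg.quadFormPlus, Finset.mul_sum]
  refine Finset.sum_congr rfl fun i _ => ?_
  by_cases h : (keep = true ∧ (i : ℕ) = 0) <;> simp [swapLin, h] <;> ring

variable (m) in
/-- `swapLin` as a similarity. -/
noncomputable def swapGO (keep : Bool) (c : Fˣ) : GO (qPlus m F) :=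
  ⟨(Forms.glEquiv _ F).symm (LinearEquiv.ofInjectiveEndo _ (swapLin_injective keep c)), c, fun v => by
    rw [Forms.glEquiv_symm_mulVec]; exact swapLin_Q keep _ v⟩

theorem swapGO_apply (keep : Bool) (c : Fˣ) (v : Fin m ⊕ Fin m → F) :
    ((swapGO m keep c).1 : Matrix _ _ F) *ᵥ v = swapLin m keep (c : F) v :=
  Forms.glEquiv_symm_mulVec _ v

theorem sim_swapGO (hV : ∃ v, qPlus m F v ≠ 0) (keep : Bool) (c : Fˣ) :
    sim hV (swapGO m keep c) = c :=
  sim_eq_of hV fun v => by rw [swapGO_apply]; exact swapLin_Q keep _ v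

theorem swapGO_pty (keep : Bool) (hm : 1 ≤ m) (h : Even (m - cond keep 1 0)) (c : Fˣ) :
    ptyPlus m (swapGO m keep c) = 1 := by
  set E := xSpace m F
  have hinf : finrank F ↥(E ⊓ img (swapGO m keep c) E) = cond keep 1 0 := by
    have hmem : ∀ x, x ∈ E ⊓ img (swapGO m keep c) E →
        ∀ i : Fin m, ¬(keep = true ∧ (i : ℕ) = 0) → x (Sum.inl i) = 0 := by
      rintro x ⟨-, y, hy, rfl⟩ i hi
      rw [Matrix.toLin'_apply, swapGO_apply]
      simp [swapLin, hi, mem_xSpace.mp hy i]
    cases keep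
    · rw [show E ⊓ img (swapGO m false c) E = ⊥ from eq_bot_iff.mpr fun x hx => by
        rw [Submodule.mem_bot]
        funext j
        rcases j with i | i
        · exact hmem x hx i (by simp)
        · exact mem_xSpace.mp hx.1 i]
      simp
    · set e : Fin m ⊕ Fin m → F := Pi.single (Sum.inl ⟨0, hm⟩) 1 with he
      have he0 : e ≠ 0 := fun h0 => by simpa [he] using congrFun h0 (Sum.inl ⟨0, hm⟩)
      rw [show E ⊓ img (swapGO m true c) E = Submodule.span F {e} from le_antisymm (fun x hx => by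
          refine Submodule.mem_span_singleton.mpr ⟨x (Sum.inl ⟨0, hm⟩), ?_⟩
          funext j
          rcases j with i | i
          · by_cases hi : (i : ℕ) = 0
            · obtain rfl : i = ⟨0, hm⟩ := Fin.ext hi
              simp [he]
            · have hne : i ≠ ⟨0, hm⟩ := fun h => hi (by rw [h])
              rw [hmem x hx i (by simp [hi])]
              simp [he, hne]
          · rw [mem_xSpace.mp hx.1 i]
            simp [he])
        ((Submodule.span_singleton_le_iff_mem _ _).mpr ⟨mem_xSpace.mpr fun i => by simp [he],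
          (c : F)⁻¹ • e, mem_xSpace.mpr fun i => by simp [he], by
            rw [Matrix.toLin'_apply, swapGO_apply]
            funext j
            rcases j with i | i
            · by_cases hi : (i : ℕ) = 0
              · obtain rfl : i = ⟨0, hm⟩ := Fin.ext hi
                simp [swapLin, he]
              · have hne : i ≠ ⟨0, hm⟩ := fun h => hi (by rw [h])
                simp [swapLin, he, hi, hne]
            · by_cases hi : (i : ℕ) = 0
              · obtain rfl : i = ⟨0, hm⟩ := Fin.ext hi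
                simp [swapLin, he]
              · have hne : i ≠ ⟨0, hm⟩ := fun h => hi (by rw [h])
                simp [swapLin, he, hi, hne]⟩)]
      rw [finrank_span_singleton he0]
      rfl
  show Multiplicative.ofAdd (cdim m E (img (swapGO m keep c) E) : ZMod 2) = 1
  rw [cdim, hinf, (ZMod.natCast_eq_zero_iff_even).mpr h]
  rfl

/-- The vector `(1, t)` in the first plane. -/
def planeVec (hm : 1 ≤ m) (t : F) : Fin m ⊕ Fin m → F :=
  Sum.elim (Pi.single ⟨0, hm⟩ 1) (Pi.single ⟨0, hm⟩ t)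

theorem Q_planeVec (hm : 1 ≤ m) (t : F) : qPlus m F (planeVec hm t) = t := by
  rw [Forms.coe_qPlus]
  simp [Cfsg.quadFormPlus, planeVec, Pi.single_apply]

theorem reflGO_plane (hm : 1 ≤ m) {t : F} (v : Fin m ⊕ Fin m → F) :
    ((reflGO (qPlus m F) (planeVec hm t)).1 : Matrix _ _ F) *ᵥ v =
      v - (t⁻¹ * (t * v (Sum.inl ⟨0, hm⟩) + v (Sum.inr ⟨0, hm⟩))) • planeVec hm t := by
  refine (reflection_mul _ v).trans ?_
  rw [Q_planeVec, Forms.polar_qPlus]
  congr 3
  simp [planeVec, Pi.single_apply, Finset.sum_add_distrib]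
  ring

theorem swap_relations (hm : 1 ≤ m) (c : Fˣ) :
    swapGO m false c * swapGO m false c = sc (qPlus m F) c ∧
    swapGO m true c * swapGO m true c = sc (qPlus m F) c *
      (reflGO (qPlus m F) (planeVec hm 1) * reflGO (qPlus m F) (planeVec hm (c : F))) ∧
    reflGO (qPlus m F) (planeVec hm 1) * swapGO m true c *
        (reflGO (qPlus m F) (planeVec hm 1) * swapGO m true c) =
      sc (qPlus m F) c *
        (reflGO (qPlus m F) (planeVec hm 1) * reflGO (qPlus m F) (planeVec hm 1)) ∧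
    reflGO (qPlus m F) (planeVec hm 1) * swapGO m false c *
        (reflGO (qPlus m F) (planeVec hm 1) * swapGO m false c) =
      sc (qPlus m F) c *
        (reflGO (qPlus m F) (planeVec hm 1) * reflGO (qPlus m F) (planeVec hm ((c⁻¹ : Fˣ) : F))) := by
  have hmv : ∀ (g h : GO (qPlus m F)) v,
      ((g * h).1 : Matrix (Fin m ⊕ Fin m) (Fin m ⊕ Fin m) F) *ᵥ v =
        (g.1 : Matrix (Fin m ⊕ Fin m) (Fin m ⊕ Fin m) F) *ᵥ
          ((h.1 : Matrix (Fin m ⊕ Fin m) (Fin m ⊕ Fin m) F) *ᵥ v) :=
    fun g h v => by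
      show ((g.1 * h.1 : GL (Fin m ⊕ Fin m) F) : Matrix (Fin m ⊕ Fin m) (Fin m ⊕ Fin m) F) *ᵥ v = _
      rw [Units.val_mul, Matrix.mulVec_mulVec]
  have hc := c.ne_zero
  refine ⟨go_ext fun v => ?_, go_ext fun v => ?_, go_ext fun v => ?_, go_ext fun v => ?_⟩ <;>
  · simp only [hmv, swapGO_apply, reflGO_plane, sc_mulVec]
    funext j
    rcases j with i | i <;>
    · by_cases hi : (i : ℕ) = 0
      · obtain rfl : i = ⟨0, hm⟩ := Fin.ext hi
        simp [swapLin, planeVec] <;> field_simp <;> ring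
      · have hne : i ≠ ⟨0, hm⟩ := fun h => hi (by rw [h])
        simp [swapLin, planeVec, hi, hne] <;> ring

end Plus

section Minus

variable {a b : F}

local notation "Im" => ((Fin m ⊕ Fin m) ⊕ Fin 2)

/-- A similarity of multiplier `-1`. -/
theorem exists_minus_gen (h2 : (2 : F) ≠ 0) (hab : Aniso a b) (hV : ∃ v, qMinus m F a b v ≠ 0) :
    ∃ (g : GO (qMinus m F a b)) (E U U' : Im → F),
      qMinus m F a b E = 1 ∧ sim hV g = -1 ∧ detGO g = (-1) ^ (m + 1) ∧
      qMinus m F a b U = a ^ 2 - 4 * b ∧ qMinus m F a b U' = -(a ^ 2 - 4 * b) ∧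
      g * g = sc (qMinus m F a b) 1 * (reflGO (qMinus m F a b) U * reflGO (qMinus m F a b) E) ∧
      reflGO (qMinus m F a b) E * g * (reflGO (qMinus m F a b) E * g) =
        sc (qMinus m F a b) 1 * (reflGO (qMinus m F a b) E * reflGO (qMinus m F a b) U') := by
  obtain ⟨u, v₀, huv⟩ := exists_binary_eq hab (-1 : F)
  let M : Matrix (Fin 2) (Fin 2) F := !![u, -(b * v₀); v₀, u + a * v₀]
  let G : Matrix Im Im F :=
    Matrix.fromBlocks (Matrix.diagonal (Sum.elim (fun _ => (-1 : F)) fun _ => 1)) 0 0 M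
  have hG : ∀ w, G *ᵥ w = Sum.elim
      (Sum.elim (fun i => -w (Sum.inl (Sum.inl i))) (fun i => w (Sum.inl (Sum.inr i))))
      ![u * w (Sum.inr 0) - b * v₀ * w (Sum.inr 1),
        v₀ * w (Sum.inr 0) + (u + a * v₀) * w (Sum.inr 1)] := by
    intro w
    simp only [G, M, Matrix.fromBlocks_mulVec]
    funext j
    rcases j with (i | i) | j
    · simp [Matrix.mulVec_diagonal]
    · simp [Matrix.mulVec_diagonal]
    · fin_cases j <;> simp [Matrix.vecHead, Matrix.vecTail] <;> ring
  have hdet : G.det = (-1) ^ (m + 1) := by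
    simp only [G, M]
    rw [Matrix.det_fromBlocks_zero₂₁, Matrix.det_diagonal, Fintype.prod_sum_type,
      Matrix.det_fin_two_of]
    simp only [Sum.elim_inl, Sum.elim_inr, Finset.prod_const, Finset.card_univ, Fintype.card_fin,
      one_pow, mul_one]
    rw [pow_succ]
    linear_combination (-1 : F) ^ m * huv
  have hne : G.det ≠ 0 := hdet ▸ pow_ne_zero _ (neg_ne_zero.mpr one_ne_zero)
  have hQ : ∀ w, qMinus m F a b (G *ᵥ w) = ((-1 : Fˣ) : F) * qMinus m F a b w := by
    intro w
    rw [hG, Units.val_neg, Units.val_one, Forms.coe_qMinus]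
    simp only [Cfsg.quadFormMinus, Sum.elim_inl, Sum.elim_inr, Matrix.cons_val_zero,
      Matrix.cons_val_one, neg_mul, Finset.sum_neg_distrib, one_mul]
    linear_combination
      (w (Sum.inr 0) ^ 2 + a * w (Sum.inr 0) * w (Sum.inr 1) + b * w (Sum.inr 1) ^ 2) * huv
  let g : GO (qMinus m F a b) := ⟨GeneralLinearGroup.mkOfDetNeZero G hne, -1, hQ⟩
  have hgv : ∀ w, (g.1 : Matrix Im Im F) *ᵥ w = G *ᵥ w := fun w => rfl
  let E : Im → F := Sum.elim 0 ![1, 0]
  let U : Im → F := Sum.elim 0 ![-(a * u) - 2 * b * v₀, 2 * u + a * v₀]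
  let U' : Im → F := Sum.elim 0 ![-a, 2]
  have hE : qMinus m F a b E = 1 := by rw [Forms.coe_qMinus]; simp [E, Cfsg.quadFormMinus]
  have hU : qMinus m F a b U = a ^ 2 - 4 * b := by
    rw [Forms.coe_qMinus]
    simp [U, Cfsg.quadFormMinus]
    linear_combination (4 * b - a ^ 2) * huv
  have hU' : qMinus m F a b U' = -(a ^ 2 - 4 * b) := by
    rw [Forms.coe_qMinus]; simp [U', Cfsg.quadFormMinus]; ring
  have hD : a ^ 2 - 4 * b ≠ 0 := Forms.disc_ne_zero hab
  have hmv : ∀ (g h : GO (qMinus m F a b)) v,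
      ((g * h).1 : Matrix Im Im F) *ᵥ v = (g.1 : Matrix Im Im F) *ᵥ ((h.1 : Matrix Im Im F) *ᵥ v) :=
    fun g h v => by
      show ((g.1 * h.1 : GL Im F) : Matrix Im Im F) *ᵥ v = _
      rw [Units.val_mul, Matrix.mulVec_mulVec]
  have hrE : ∀ w, ((reflGO (qMinus m F a b) E).1 : Matrix Im Im F) *ᵥ w =
      Sum.elim (fun i => w (Sum.inl i)) ![-w (Sum.inr 0) - a * w (Sum.inr 1), w (Sum.inr 1)] := by
    intro w
    refine (reflection_mul _ w).trans ?_
    rw [hE, Forms.polar_qMinus]
    funext j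
    rcases j with i | j
    · simp [E]
    · fin_cases j <;> simp [E] <;> ring
  have key : ∀ (D P : F) (U y z : Im → F), D ≠ 0 → (∀ j, D * z j = D * y j - P * U j) →
      z = y - (D⁻¹ * P) • U := fun D P U y z hD0 h => funext fun j => by
    refine mul_left_cancel₀ hD0 ((h j).trans ?_)
    rw [Pi.sub_apply, Pi.smul_apply, smul_eq_mul, mul_sub, mul_assoc, mul_inv_cancel_left₀ hD0]
  have hrU' : ∀ w, ((reflGO (qMinus m F a b) U').1 : Matrix Im Im F) *ᵥ w =
      Sum.elim (fun i => w (Sum.inl i)) ![w (Sum.inr 0) + a * w (Sum.inr 1), -w (Sum.inr 1)] := by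
    intro w
    refine (reflection_mul _ w).trans ?_
    rw [hU', Forms.polar_qMinus]
    refine (key _ _ _ _ _ (neg_ne_zero.mpr hD) fun j => ?_).symm
    rcases j with i | j
    · simp [U']
    · fin_cases j <;> simp [U'] <;> ring
  refine ⟨g, E, U, U', hE, sim_eq_of hV hQ,
    Units.ext (hdet.trans (by simp)), hU, hU',
    go_ext fun w => ?_, go_ext fun w => ?_⟩
  · rw [hmv, hgv, hgv, map_one, one_mul, hmv, hrE, hG, hG]
    refine Eq.trans ?_ (reflection_mul _ _).symm
    rw [hU, Forms.polar_qMinus]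
    refine key _ _ _ _ _ hD fun j => ?_
    rcases j with (i | i) | j
    · simp [U]
    · simp [U]
    · fin_cases j <;> simp [U]
      · linear_combination ((a ^ 2 - 4 * b) * (w (Sum.inr 0) + a * w (Sum.inr 1))) * huv
      · linear_combination (-(a ^ 2 - 4 * b) * w (Sum.inr 1)) * huv
  · rw [map_one, one_mul]
    simp only [hmv, hgv, hrE, hrU', hG]
    funext j
    rcases j with (i | i) | j
    · simp
    · simp
    · fin_cases j <;> simp
      · linear_combination w (Sum.inr 0) * huv
      · linear_combination w (Sum.inr 1) * huv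

end Minus

end Cfsg.Agent.KnownB.Proj.Orth
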