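import Cfsg.Agent.KnownB.Proj.Orth.PlusApps
import Cfsg.Agent.KnownB.Proj.Orth.MinusField

/-! The fixed similitudes of the standard graph-field twist: a minus group over the fixed field. -/

set_option autoImplicit false
set_option maxHeartbeats 1000000

namespace Cfsg.Agent.KnownB.Proj.Orth

open Matrix Module
open Cfsg.Agent.Forms (qPlus qMinus)

universe u v

variable {F : Type u} [Field F] [Fintype F] {F₀ : Type v} [Field F₀] [Fintype F₀] (j : F₀ →+* F)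
  {n : ℕ}

local notation "Ip" => (Fin (n + 1) ⊕ Fin (n + 1))
local notation "Jp" => ((Fin n ⊕ Fin n) ⊕ Fin 2)

variable {ζ : F₀}

omit [Fintype F] [Fintype F₀] in
theorem qMinus_one_comp (v : Jp → F₀) :
    qMinus n F 1 (j ζ) (⇑j ∘ v) = j (qMinus n F₀ 1 ζ v) := by
  rw [Forms.coe_qMinus, Forms.coe_qMinus]
  simp [Cfsg.quadFormMinus, map_sum]

/-- The similarity of the plus form over `F` given by one of the minus form over the fixed field. -/
noncomputable def gfL (j : F₀ →+* F) (T : (Jp → F) ≃ₗ[F] (Ip → F))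
    (g : GO (qMinus n F₀ 1 ζ)) : (Ip → F) ≃ₗ[F] (Ip → F) := by
  exact T.symm.trans ((Forms.glEquiv Jp F
    (liftJ j (qMinus_one_comp j (n := n) (ζ := ζ)) g).1).trans T)

theorem gfL_apply (T : (Jp → F) ≃ₗ[F] (Ip → F)) (g : GO (qMinus n F₀ 1 ζ)) (u : Jp → F) :
    gfL j T g (T u) = T (((g.1 : Matrix Jp Jp F₀).map j) *ᵥ u) := by
  show T (Forms.glEquiv Jp F _ (T.symm (T u))) = _
  rw [T.symm_apply_apply]
  rfl

/-- `gfL` as a homomorphism. -/
noncomputable def gfHom (T : (Jp → F) ≃ₗ[F] (Ip → F))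
    (hT : ∀ v, qPlus (n + 1) F (T v) = qMinus n F 1 (j ζ) v) :
    GO (qMinus n F₀ 1 ζ) →* GO (qPlus (n + 1) F) :=
  MonoidHom.mk' (fun g => ⟨(Forms.glEquiv Ip F).symm (gfL j T g), by
    obtain ⟨c, hc⟩ := (liftJ j (qMinus_one_comp j (n := n) (ζ := ζ)) g).2
    refine ⟨c, fun w => ?_⟩
    obtain ⟨u, rfl⟩ := T.surjective w
    rw [Forms.glEquiv_symm_mulVec, gfL_apply, hT, hT]
    exact hc u⟩) fun g h => go_ext fun w => by
      obtain ⟨u, rfl⟩ := T.surjective w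
      show _ = (((Forms.glEquiv Ip F).symm (gfL j T g) * (Forms.glEquiv Ip F).symm (gfL j T h) :
        GL Ip F) : Matrix Ip Ip F) *ᵥ T u
      rw [Units.val_mul, ← Matrix.mulVec_mulVec, Forms.glEquiv_symm_mulVec,
        Forms.glEquiv_symm_mulVec, Forms.glEquiv_symm_mulVec, gfL_apply, gfL_apply, gfL_apply]
      congr 1
      show ((g.1 * h.1 : GL Jp F₀) : Matrix Jp Jp F₀).map j *ᵥ u = _
      rw [Units.val_mul, Matrix.map_mul, Matrix.mulVec_mulVec]

theorem gfHom_apply (T : (Jp → F) ≃ₗ[F] (Ip → F))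
    (hT : ∀ v, qPlus (n + 1) F (T v) = qMinus n F 1 (j ζ) v)
    (g : GO (qMinus n F₀ 1 ζ)) (u : Jp → F) :
    ((gfHom j T hT g).1 : Matrix Ip Ip F) *ᵥ T u = T (((g.1 : Matrix Jp Jp F₀).map j) *ᵥ u) := by
  show ((Forms.glEquiv Ip F).symm (gfL j T g) : Matrix Ip Ip F) *ᵥ T u = _
  rw [Forms.glEquiv_symm_mulVec, gfL_apply]

theorem gfHom_refl (T : (Jp → F) ≃ₗ[F] (Ip → F))
    (hT : ∀ v, qPlus (n + 1) F (T v) = qMinus n F 1 (j ζ) v)
    (v : Jp → F₀) :
    gfHom j T hT (reflGO (qMinus n F₀ 1 ζ) v) = reflGO (qPlus (n + 1) F) (T (⇑j ∘ v)) := by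
  refine go_ext fun w => ?_
  obtain ⟨u, rfl⟩ := T.surjective w
  have e := congrArg (fun g : GO (qMinus n F 1 (j ζ)) => (g.1 : Matrix Jp Jp F) *ᵥ u)
    (refl_hom j (qMinus_one_comp j (n := n) (ζ := ζ)) _
      (liftJ_val j (qMinus_one_comp j (n := n) (ζ := ζ))) v)
  simp only [liftJ_val] at e
  rw [gfHom_apply, e, show (((reflGO (qMinus n F 1 (j ζ)) (⇑j ∘ v)).1 : GL Jp F) : Matrix Jp Jp F)
      *ᵥ u = _ from reflection_mul _ u,
    show (((reflGO (qPlus (n + 1) F) (T (⇑j ∘ v))).1 : GL Ip F) : Matrix Ip Ip F) *ᵥ T u = _ from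
      reflection_mul _ _, map_sub, map_smul, hT]
  congr 3
  simp only [QuadraticMap.polar, ← map_add, hT]

theorem gfHom_sc (T : (Jp → F) ≃ₗ[F] (Ip → F))
    (hT : ∀ v, qPlus (n + 1) F (T v) = qMinus n F 1 (j ζ) v)
    (u : F₀ˣ) :
    gfHom j T hT (sc (qMinus n F₀ 1 ζ) u) = sc (qPlus (n + 1) F) (Units.map (j : F₀ →* F) u) := by
  refine go_ext fun w => ?_
  obtain ⟨v, rfl⟩ := T.surjective w
  rw [gfHom_apply, sc_mulVec]
  rw [show (((sc (qMinus n F₀ 1 ζ) u).1 : GL Jp F₀) : Matrix Jp Jp F₀).map j =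
    Matrix.scalar Jp (j (u : F₀)) by
      show (Matrix.scalar Jp (u : F₀)).map j = _
      ext a b
      by_cases hab : a = b <;> simp [Matrix.scalar_apply, hab]]
  rw [show Matrix.scalar Jp (j (u : F₀)) *ᵥ v = j (u : F₀) • v by
    funext i; simp [Matrix.scalar_apply, Matrix.mulVec_diagonal], map_smul]
  rfl

theorem gfHom_det (T : (Jp → F) ≃ₗ[F] (Ip → F))
    (hT : ∀ v, qPlus (n + 1) F (T v) = qMinus n F 1 (j ζ) v)
    (g : GO (qMinus n F₀ 1 ζ)) :
    detGO (gfHom j T hT g) = Units.map (j : F₀ →* F) (detGO g) := by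
  refine Units.ext ?_
  show ((Forms.glEquiv Ip F).symm (gfL j T g) : Matrix Ip Ip F).det = j (g.1 : Matrix Jp Jp F₀).det
  rw [← LinearMap.det_toLin']
  have h : Matrix.toLin' ((Forms.glEquiv Ip F).symm (gfL j T g) : Matrix Ip Ip F) =
      T.toLinearMap ∘ₗ Matrix.toLin' ((g.1 : Matrix Jp Jp F₀).map j) ∘ₗ T.symm.toLinearMap := by
    refine LinearMap.ext fun w => ?_
    obtain ⟨u, rfl⟩ := T.surjective w
    rw [Matrix.toLin'_apply, Forms.glEquiv_symm_mulVec, gfL_apply]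
    simp
  rw [h, LinearMap.det_conj, LinearMap.det_toLin', ← RingHom.mapMatrix_apply, ← RingHom.map_det]

theorem gfHom_sim (T : (Jp → F) ≃ₗ[F] (Ip → F))
    (hT : ∀ v, qPlus (n + 1) F (T v) = qMinus n F 1 (j ζ) v)
    (hV : ∃ v, qPlus (n + 1) F v ≠ 0) (hV₀ : ∃ v, qMinus n F₀ 1 ζ v ≠ 0)
    (g : GO (qMinus n F₀ 1 ζ)) :
    sim hV (gfHom j T hT g) = Units.map (j : F₀ →* F) (sim hV₀ g) := by
  have hVm : ∃ v, qMinus n F 1 (j ζ) v ≠ 0 := by
    obtain ⟨v, hv⟩ := hV₀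
    exact ⟨⇑j ∘ v, by rw [qMinus_one_comp]; exact (map_ne_zero j).mpr hv⟩
  have h2 := sim_hom j (qMinus_one_comp j (n := n) (ζ := ζ)) hVm hV₀ _
    (liftJ_val j (qMinus_one_comp j (n := n) (ζ := ζ))) g
  refine sim_eq_of hV fun w => ?_
  obtain ⟨u, rfl⟩ := T.surjective w
  rw [gfHom_apply, hT, hT, ← h2]
  exact sim_spec hVm (liftJ j (qMinus_one_comp j (n := n) (ζ := ζ)) g) u

theorem gfHom_par (T : (Jp → F) ≃ₗ[F] (Ip → F))
    (hT : ∀ v, qPlus (n + 1) F (T v) = qMinus n F 1 (j ζ) v)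
    (hn : 2 ≤ n) (hζ : Aniso 1 ζ)
    {ε₀ : GO (qMinus n F₀ 1 ζ) →* Multiplicative (ZMod 2)}
    (hε₀ : IsPar (exists_ne_qMinus hζ) (n + 1) ε₀) (g : GO (qMinus n F₀ 1 ζ)) :
    ptyPlus (n + 1) (gfHom j T hT g) = ε₀ g :=
  par_hom j (Forms.qMinus_nondegenerate _ _ (Forms.disc_ne_zero hζ)) (by simp; omega)
    (isPar_plus (Nat.succ_pos n)) hε₀ (gfHom j T hT)
    (fun v hv => ⟨_, by rw [hT, qMinus_one_comp]; exact (map_ne_zero j).mpr hv,
      gfHom_refl j T hT v⟩) (gfHom_sc j T hT) (gfHom_det j T hT)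
    (gfHom_sim j T hT _ _) g

/-- The fixed similitudes of the twist. -/
theorem gfHom_range (T : (Jp → F) ≃ₗ[F] (Ip → F))
    (hT : ∀ v, qPlus (n + 1) F (T v) = qMinus n F 1 (j ζ) v)
    (hζ : Aniso 1 ζ) {σ : fieldSub (qPlus (n + 1) F)}
    (hj : ∀ x : F, (σ : F ≃+* F) x = x ↔ x ∈ j.range)
    (hσT : ∀ u, T (⇑(σ : F ≃+* F) ∘ u) =
      ((rho n F).1 : Matrix Ip Ip F) *ᵥ (⇑(σ : F ≃+* F) ∘ T u)) (k : GO (qPlus (n + 1) F)) :
    rho n F * mapGO σ k * rho n F = k ↔ ∃ g, gfHom j T hT g = k := by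
  classical
  set s : F ≃+* F := (σ : F ≃+* F) with hs
  have hrr : ∀ w, ((rho n F).1 : Matrix Ip Ip F) *ᵥ (((rho n F).1 : Matrix Ip Ip F) *ᵥ w) = w :=
    fun w => by
      rw [Matrix.mulVec_mulVec, ← Units.val_mul,
        show (rho n F).1 * (rho n F).1 = 1 from congrArg Subtype.val (reflGO_mul_self _ _),
        Units.val_one, Matrix.one_mulVec]
  have hψ : ∀ u, ((rho n F * mapGO σ k * rho n F).1 : Matrix Ip Ip F) *ᵥ T (⇑s ∘ u) =
      ((rho n F).1 : Matrix Ip Ip F) *ᵥ (⇑s ∘ ((k.1 : Matrix Ip Ip F) *ᵥ T u)) := by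
    intro u
    show (((rho n F).1 * (mapGO σ k).1 * (rho n F).1 : GL Ip F) : Matrix Ip Ip F) *ᵥ _ = _
    rw [Units.val_mul, Units.val_mul, ← Matrix.mulVec_mulVec, ← Matrix.mulVec_mulVec, hσT, hrr,
      mapGO_val, map_mulVec]
  constructor
  · intro hk
    let L : (Jp → F) →ₗ[F] (Jp → F) :=
      T.symm.toLinearMap ∘ₗ Matrix.toLin' (k.1 : Matrix Ip Ip F) ∘ₗ T.toLinearMap
    set M := LinearMap.toMatrix' L with hM
    have hMv : ∀ u, M *ᵥ u = T.symm ((k.1 : Matrix Ip Ip F) *ᵥ T u) := fun u => by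
      rw [hM, LinearMap.toMatrix'_mulVec]; rfl
    have hMσ : ∀ u, M *ᵥ (⇑s ∘ u) = ⇑s ∘ (M *ᵥ u) := by
      intro u
      apply T.injective
      rw [hMv, T.apply_symm_apply, hσT (M *ᵥ u), hMv, T.apply_symm_apply, ← hψ, hk]
    have hent : ∀ a b, M a b ∈ j.range := by
      intro a b
      refine (hj _).mp ?_
      have h1 := congrFun (hMσ (Pi.single b 1)) a
      have hsb : (⇑s ∘ Pi.single b 1 : Jp → F) = Pi.single b 1 := by
        funext l; by_cases hl : l = b <;> simp [hl]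
      rw [hsb, Function.comp_apply, Matrix.mulVec_single_one, Matrix.col_apply] at h1
      exact h1.symm
    choose e he using hent
    have hme : (Matrix.of e).map j = M := Matrix.ext fun a b => he a b
    have hVm := exists_ne_qMinus (m := n) hζ
    have hV := exists_ne_qPlus (F := F) (m := n + 1) (Nat.succ_pos n)
    obtain ⟨v₀, hv₀⟩ := id hVm
    set c₀ := qMinus n F₀ 1 ζ (Matrix.of e *ᵥ v₀) / qMinus n F₀ 1 ζ v₀ with hc₀
    have key : ∀ x, j (qMinus n F₀ 1 ζ (Matrix.of e *ᵥ x)) =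
        (sim hV k : F) * j (qMinus n F₀ 1 ζ x) := fun x => by
      rw [← qMinus_one_comp, ← qMinus_one_comp, ← gl_map_mulVec, hme, hMv, ← hT, ← hT,
        T.apply_symm_apply, sim_spec hV]
    have hcc : j c₀ = (sim hV k : F) := by
      rw [hc₀, map_div₀, key, mul_div_assoc, div_self ((map_ne_zero j).mpr hv₀), mul_one]
    have hc0 : c₀ ≠ 0 := fun h => (sim hV k).ne_zero (by rw [← hcc, h, map_zero])
    have hd : (Matrix.of e).det ≠ 0 := fun h => by
      obtain ⟨y, hy0, hy⟩ := Matrix.exists_mulVec_eq_zero_iff.mpr h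
      have h1 := gl_map_mulVec j (Matrix.of e) y
      rw [hme, hy, hMv] at h1
      have h2 : (k.1 : Matrix Ip Ip F) *ᵥ T (⇑j ∘ y) = 0 := by
        rw [show (⇑j ∘ (0 : Jp → F₀) : Jp → F) = 0 by funext i; simp] at h1
        exact T.symm.injective (h1.trans (map_zero T.symm).symm)
      have h3 : T (⇑j ∘ y) = 0 := by
        have := congrArg (fun w => ((k.1⁻¹ : GL Ip F) : Matrix Ip Ip F) *ᵥ w) h2
        simpa [Matrix.mulVec_mulVec] using this
      refine hy0 (funext fun i => j.injective ?_)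
      exact (congrFun (T.injective (h3.trans (map_zero T).symm)) i).trans (map_zero j).symm
    refine ⟨⟨GeneralLinearGroup.mkOfDetNeZero (Matrix.of e) hd, Units.mk0 c₀ hc0, fun x => ?_⟩, ?_⟩
    · refine j.injective ?_
      show j (qMinus n F₀ 1 ζ (Matrix.of e *ᵥ x)) = _
      rw [key, map_mul, Units.val_mk0, hcc]
    · refine go_ext fun w => ?_
      obtain ⟨u, rfl⟩ := T.surjective w
      rw [gfHom_apply]
      show T ((Matrix.of e).map j *ᵥ u) = _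
      rw [hme, hMv, T.apply_symm_apply]
  · rintro ⟨g, rfl⟩
    refine go_ext fun w => ?_
    obtain ⟨u, rfl⟩ := T.surjective w
    obtain ⟨x, rfl⟩ : ∃ x, ⇑s ∘ x = u := ⟨_, comp_symm s u⟩
    rw [hψ, gfHom_apply, gfHom_apply, ← hσT]
    congr 1
    have hfix : ((g.1 : Matrix Jp Jp F₀).map j).map s = (g.1 : Matrix Jp Jp F₀).map j :=
      Matrix.ext fun a b => (hj _).mpr ⟨_, rfl⟩
    conv_rhs => rw [← hfix]
    exact (map_mulVec s _ x).symm

end Cfsg.Agent.KnownB.Proj.Orth
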