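import Cfsg.Agent.KnownB.Proj.Orth.GraphClass
import Cfsg.Agent.KnownB.Proj.Orth.DiagResults

/-! Spinor norms of the fixed similitudes of the standard graph-field twist. -/

set_option autoImplicit false
set_option maxHeartbeats 1000000

namespace Cfsg.Agent.KnownB.Proj.Orth

open Matrix Module
open Cfsg.Agent.Forms (qPlus qMinus)

universe u v

variable {F : Type u} [Field F] [Fintype F]

/-- An isometry of determinant one induces an inner automorphism iff its spinor norm is one. -/
theorem inn_iff_spinor {ι : Type} [Fintype ι] [DecidableEq ι] {Q : QuadraticForm F (ι → F)} {k : ℕ}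
    (H : EvenOdd Q k) (hneg : Forms.negOne Q ∈ commutator (Forms.orthGroup Q))
    (t : Cfsg.isometryGroup F ⇑Q) (ht : Forms.orthDet Q (Forms.isometryEquiv Q t) = 1) :
    A Q (isoInc Q t) ∈ Cfsg.Inn (Cfsg.POmega F ⇑Q) ↔
      Forms.spinor Q H.two (Forms.isometryEquiv Q t) = 1 := by
  have hd : 2 ≤ finrank F (ι → F) := by
    rw [Module.finrank_fintype_fun_eq_card]; have := H.dim; omega
  constructor
  · intro h
    rw [Inn_eq_map] at h
    obtain ⟨_, ⟨w, hw, rfl⟩, he⟩ := h
    have h1 : A Q ((isoInc Q w)⁻¹ * isoInc Q t) = 1 := by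
      rw [map_mul, map_inv, he, inv_mul_cancel]
    obtain ⟨u, hu⟩ := (A_eq_one_iff' H.nd H.dim _).mp h1
    have hu1 : u * u = 1 := by
      rw [← sim_sc H.ns, hu, map_mul, map_inv, sim_isoInc, sim_isoInc, inv_one, one_mul]
    have hts : ∀ x, ((t : GL ι F) : Matrix ι ι F) *ᵥ x =
        (u : F) • (((w : GL ι F) : Matrix ι ι F) *ᵥ x) := by
      intro x
      have e : isoInc Q t = isoInc Q w * sc Q u := by rw [hu, mul_inv_cancel_left]
      have e2 : (t : GL ι F) = (w : GL ι F) * (sc Q u).1 := congrArg Subtype.val e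
      rw [e2, Units.val_mul, ← Matrix.mulVec_mulVec, sc_mulVec, Matrix.mulVec_smul]
    have hw' := ((Forms.mem_commutator_iff H.two H.nd hd).mp ((Forms.mem_omega_iff Q w).mp hw)).2
    rcases mul_self_eq_one_iff.mp (show (u : F) * u = 1 by simpa using congrArg Units.val hu1)
      with h1' | h1'
    · have : Forms.isometryEquiv Q t = Forms.isometryEquiv Q w := Forms.orth_ext fun x => by
        rw [Forms.isometryEquiv_apply, Forms.isometryEquiv_apply, hts, h1', one_smul]
      rw [this]; exact hw'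
    · have : Forms.isometryEquiv Q t = Forms.negOne Q * Forms.isometryEquiv Q w :=
        Forms.orth_ext fun x => by
          rw [Forms.isometryEquiv_apply, hts, h1', neg_smul, one_smul, ← Forms.isometryEquiv_apply]
          rfl
      rw [this, map_mul, H.negOne_spinor hneg, hw', one_mul]
  · intro h
    rw [Inn_eq_map]
    refine ⟨_, ⟨t, ?_, rfl⟩, rfl⟩
    rw [SetLike.mem_coe, Forms.mem_omega_iff, Forms.mem_commutator_iff H.two H.nd hd]
    exact ⟨ht, h⟩

variable {n : ℕ}

local notation "Ip" => (Fin (n + 1) ⊕ Fin (n + 1))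
local notation "Jp" => ((Fin n ⊕ Fin n) ⊕ Fin 2)

/-- Hyperbolic scalings of the pairs. -/
noncomputable def pairDiag (n : ℕ) :
    (Fin (n + 1) → Fˣ) →* Cfsg.isometryGroup F ⇑(qPlus (n + 1) F) :=
  MonoidHom.mk' (fun l => ⟨GeneralLinearGroup.mkOfDetNeZero
      (Matrix.diagonal (Sum.elim (fun i => (l i : F)) fun i => ((l i)⁻¹ : Fˣ))) (by
        rw [Matrix.det_diagonal, Finset.prod_ne_zero_iff]
        rintro (i | i) _ <;> simp),
      Forms.mem_isometryGroup_iff.mpr fun v => by
        show qPlus (n + 1) F (Matrix.diagonal _ *ᵥ v) = _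
        rw [Forms.coe_qPlus]
        simp only [Cfsg.quadFormPlus, Matrix.mulVec_diagonal, Sum.elim_inl, Sum.elim_inr]
        refine Finset.sum_congr rfl fun i _ => ?_
        rw [Units.val_inv_eq_inv_val]
        field_simp [(l i).ne_zero]⟩)
    fun a b => Subtype.ext (Units.ext (by
      show Matrix.diagonal _ = Matrix.diagonal _ * Matrix.diagonal _
      rw [Matrix.diagonal_mul_diagonal]
      congr 1
      funext i
      rcases i with i | i <;> simp [mul_comm]))

/-- The vector `(1, t)` in the `i`th plane. -/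
def planeVecAt (i : Fin (n + 1)) (t : F) : Ip → F := Sum.elim (Pi.single i 1) (Pi.single i t)

theorem Q_planeVecAt (i : Fin (n + 1)) (t : F) : qPlus (n + 1) F (planeVecAt i t) = t := by
  rw [Forms.coe_qPlus]
  simp [Cfsg.quadFormPlus, planeVecAt, Pi.single_apply]

theorem pairDiag_single (i : Fin (n + 1)) (c : Fˣ) :
    Forms.isometryEquiv (qPlus (n + 1) F) (pairDiag n (Pi.mulSingle i c)) =
      Forms.reflection (qPlus (n + 1) F) (planeVecAt i 1) *
        Forms.reflection (qPlus (n + 1) F) (planeVecAt i (c : F)) := by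
  refine Forms.orth_ext fun x => ?_
  rw [Forms.isometryEquiv_apply, Forms.orth_mul_apply, Forms.reflection_apply,
    Forms.reflection_apply, Q_planeVecAt, Q_planeVecAt]
  have hp : ∀ (t : F) (y : Ip → F), QuadraticMap.polar ⇑(qPlus (n + 1) F) (planeVecAt i t) y =
      t * y (Sum.inl i) + y (Sum.inr i) := fun t y => by
    rw [Forms.polar_qPlus]
    simp [planeVecAt, Pi.single_apply, Finset.sum_add_distrib]
    ring
  rw [hp, hp]
  show Matrix.diagonal _ *ᵥ x = _
  funext k
  have hc := c.ne_zero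
  rcases k with l | l <;> by_cases hl : l = i
  · subst hl; simp [planeVecAt, Matrix.mulVec_diagonal]; field_simp; ring
  · simp [planeVecAt, Matrix.mulVec_diagonal, hl]
  · subst hl; simp [planeVecAt, Matrix.mulVec_diagonal]; field_simp; ring
  · simp [planeVecAt, Matrix.mulVec_diagonal, hl]

omit [Fintype F] in
theorem prod_hom_eval [DecidableEq F] {M : Type*} [CommMonoid M] {f : Fˣ → M}
    (D : (Fin (n + 1) → Fˣ) →* M) (h : ∀ i t, D (Pi.mulSingle i t) = f t) (l : Fin (n + 1) → Fˣ) :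
    D l = f (∏ i, l i) := by
  have hf : ∀ t, f t = D.comp (MonoidHom.mulSingle (fun _ => Fˣ) 0) t := fun t => (h 0 t).symm
  conv_lhs => rw [← Finset.univ_prod_mulSingle l]
  rw [map_prod, hf, map_prod]
  exact Finset.prod_congr rfl fun i _ => (h i _).trans (hf _)

theorem spinor_pairDiag (h2 : (2 : F) ≠ 0) (l : Fin (n + 1) → Fˣ) :
    Forms.spinor (qPlus (n + 1) F) h2 (Forms.isometryEquiv (qPlus (n + 1) F) (pairDiag n l)) = 1 ↔
      IsSquare ((∏ i, l i : Fˣ) : F) := by
  classical
  let D : (Fin (n + 1) → Fˣ) →* ℤˣ := (Forms.spinor (qPlus (n + 1) F) h2).comp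
    ((Forms.isometryEquiv (qPlus (n + 1) F)).toMonoidHom.comp (pairDiag n))
  have hsingle : ∀ i (t : Fˣ), D (Pi.mulSingle i t) = if IsSquare (t : F) then 1 else -1 := by
    intro i t
    show Forms.spinor _ h2 (Forms.isometryEquiv _ (pairDiag n (Pi.mulSingle i t))) = _
    rw [pairDiag_single, map_mul,
      (Forms.spinor_reflection h2 Forms.qPlus_nondegenerate
        (by rw [Q_planeVecAt]; exact one_ne_zero)).1 (by rw [Q_planeVecAt]; exact IsSquare.one),
      one_mul]
    split_ifs with h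
    · exact (Forms.spinor_reflection h2 Forms.qPlus_nondegenerate
        (by rw [Q_planeVecAt]; exact t.ne_zero)).1 (by rw [Q_planeVecAt]; exact h)
    · exact (Forms.spinor_reflection h2 Forms.qPlus_nondegenerate
        (by rw [Q_planeVecAt]; exact t.ne_zero)).2 (by rw [Q_planeVecAt]; exact h)
  show D l = 1 ↔ _
  rw [prod_hom_eval D hsingle l]
  split_ifs with h
  · exact iff_of_true rfl h
  · exact iff_of_false (by decide) h

variable {F₀ : Type v} [Field F₀] [Fintype F₀] (j : F₀ →+* F)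

/-- Squares are detected by the norm. -/
theorem isSquare_norm_iff {σ : F ≃+* F} (hj : ∀ x : F, σ x = x ↔ x ∈ j.range)
    (hσ2 : ∀ x, σ (σ x) = x) (h2 : (2 : F) ≠ 0)
    (hN : ∀ c : F₀, c ≠ 0 → ∃ w : F, w * σ w = j c) (x : F) (hx : x ≠ 0) (c : F₀)
    (hc : x * σ x = j c) : IsSquare x ↔ IsSquare c := by
  have hfix : ∀ y : F, ∃ d : F₀, y * σ y = j d := fun y => by
    obtain ⟨d, hd⟩ := (hj (y * σ y)).mp (by rw [map_mul, hσ2, mul_comm])
    exact ⟨d, hd.symm⟩
  have hsq : ∀ y : F, IsSquare y → ∀ d : F₀, y * σ y = j d → IsSquare d := by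
    rintro _ ⟨z, rfl⟩ d hd
    obtain ⟨e, he⟩ := hfix z
    refine ⟨e, j.injective ?_⟩
    rw [← hd, map_mul, map_mul, ← he]
    ring
  refine ⟨fun h => hsq x h c hc, fun h => ?_⟩
  by_contra hns
  obtain ⟨e, he⟩ := h
  have h20 : (2 : F₀) ≠ 0 := fun h => h2 (by rw [← map_ofNat j 2, h, map_zero])
  obtain ⟨d, hd⟩ := Forms.exists_nonsquare_of_two_ne_zero (F := F₀) h20
  have hd0 : d ≠ 0 := fun h => hd (h ▸ IsSquare.zero)
  obtain ⟨w, hw⟩ := hN d hd0
  by_cases hws : IsSquare w
  · exact hd (hsq w hws d hw)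
  · have hw0 : w ≠ 0 := fun h => hd0 (j.injective (by rw [← hw, h, zero_mul, map_zero]))
    have hsqp := (binary_isSquare_mul_not hw0 hns).mpr hws
    have h3 := hsq (w * x) hsqp (d * c) (by rw [map_mul σ, map_mul j, ← hw, ← hc]; ring)
    have hc0 : c ≠ 0 := fun h => by
      rw [h, map_zero, mul_eq_zero] at hc
      rcases hc with hc | hc
      · exact hx hc
      · exact hx (σ.injective (hc.trans (map_zero σ).symm))
    obtain ⟨f, hf⟩ := h3
    have he0 : e ≠ 0 := fun h => hc0 (by rw [he, h, zero_mul])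
    refine hd ⟨f / e, ?_⟩
    field_simp
    rw [he] at hf
    linear_combination hf

/-- Fixed isometries of trivial character have trivial spinor norm. -/
theorem gfHom_iso_spinor (hn : 2 ≤ n) {ζ : F₀}
    (T : (Jp → F) ≃ₗ[F] (Ip → F)) (hT : ∀ v, qPlus (n + 1) F (T v) = qMinus n F 1 (j ζ) v)
    (hζ : Aniso 1 ζ) (h2 : (2 : F) ≠ 0) (hsq : ∀ c : F₀, IsSquare (j c))
    (s₀ : Cfsg.isometryGroup F₀ ⇑(qMinus n F₀ 1 ζ)) :
    ∃ t : Cfsg.isometryGroup F ⇑(qPlus (n + 1) F),
      gfHom j T hT (isoInc _ s₀) = isoInc _ t ∧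
        Forms.spinor (qPlus (n + 1) F) h2 (Forms.isometryEquiv _ t) = 1 := by
  have h20 : (2 : F₀) ≠ 0 := fun h => h2 (by rw [← map_ofNat j 2, h, map_zero])
  have hs : Forms.isometryEquiv (qMinus n F₀ 1 ζ) s₀ ∈
      Subgroup.closure (Forms.reflectionSet (qMinus n F₀ 1 ζ)) := by
    rw [Forms.closure_reflectionSet_odd h20 _
      (Forms.qMinus_nondegenerate _ _ (Forms.disc_ne_zero hζ))]
    exact Subgroup.mem_top _
  rw [← MulEquiv.symm_apply_apply (Forms.isometryEquiv (qMinus n F₀ 1 ζ)) s₀]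
  generalize Forms.isometryEquiv (qMinus n F₀ 1 ζ) s₀ = r at hs
  induction hs using Subgroup.closure_induction with
  | mem r hr =>
    obtain ⟨v, hv, rfl⟩ := hr
    refine ⟨(Forms.isometryEquiv _).symm (Forms.reflection _ (T (⇑j ∘ v))), gfHom_refl j T hT v, ?_⟩
    rw [MulEquiv.apply_symm_apply]
    refine (Forms.spinor_reflection h2 Forms.qPlus_nondegenerate ?_).1 ?_
    · rw [hT, qMinus_one_comp]; exact (map_ne_zero j).mpr hv
    · rw [hT, qMinus_one_comp]; exact hsq _
  | one => exact ⟨1, by simp, by simp⟩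
  | mul x y _ _ hx hy =>
    obtain ⟨t, ht, hts⟩ := hx
    obtain ⟨t', ht', hts'⟩ := hy
    exact ⟨t * t', by simp only [map_mul, ht, ht'], by rw [map_mul, map_mul, hts, hts', one_mul]⟩
  | inv x _ hx =>
    obtain ⟨t, ht, hts⟩ := hx
    exact ⟨t⁻¹, by simp only [map_inv, ht], by rw [map_inv, map_inv, hts, inv_one]⟩

end Cfsg.Agent.KnownB.Proj.Orth
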