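import Cfsg.Agent.KnownB.Proj.Orth.MinusTwist
import Cfsg.Agent.KnownB.Proj.EquivTransport

/-! Field automorphism classes of the minus type. -/

set_option autoImplicit false
set_option maxHeartbeats 1000000

namespace Cfsg.Agent.KnownB.Proj.Orth

open Matrix Module
open Cfsg.Agent.Forms (qMinus)

universe u

variable {F : Type u} [Field F] [Finite F] {m : ℕ} {a b a' b' : F}

local notation "Jm" => ((Fin m ⊕ Fin m) ⊕ Fin 2)

/-- An isomorphism between minus groups carries `Inndiag` to `Inndiag`. -/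
theorem minus_congr (hm : 3 ≤ m) (hab : Aniso a b) (hab' : Aniso a' b')
    {ε : GO (qMinus m F a b) →* Multiplicative (ZMod 2)}
    {ε' : GO (qMinus m F a' b') →* Multiplicative (ZMod 2)}
    (hε : IsPar (exists_ne_qMinus hab) (m + 1) ε) (hε' : IsPar (exists_ne_qMinus hab') (m + 1) ε')
    (ψ : Cfsg.POmega F ⇑(qMinus m F a b) ≃* Cfsg.POmega F ⇑(qMinus m F a' b')) :
    (ε.ker.map (A (qMinus m F a b))).map (MulAut.congr ψ).toMonoidHom =
      ε'.ker.map (A (qMinus m F a' b')) := by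
  obtain ⟨M, hM⟩ := exists_plane_change m hab' hab
  set T : GL Jm F := (Forms.glEquiv Jm F).symm M
  have hT : ∀ v, qMinus m F a' b' ((T : Matrix Jm Jm F) *ᵥ v) = qMinus m F a b v := fun v => by
    rw [Forms.glEquiv_symm_mulVec]; exact hM v
  haveI := minus_normal hm hab' hε'
  have hpar := par_trans T hT (Forms.qMinus_nondegenerate a b (Forms.disc_ne_zero hab))
    (by simp; omega) hε hε'
  have himg : (ε.ker.map (A (qMinus m F a b))).map (MulAut.congr (transP T hT)).toMonoidHom =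
      ε'.ker.map (A (qMinus m F a' b')) := by
    ext β
    constructor
    · rintro ⟨_, ⟨k, hk, rfl⟩, rfl⟩
      exact ⟨transGO T hT k, (hpar k).trans hk, (transP_A T hT k).symm⟩
    · rintro ⟨k', hk', rfl⟩
      set k := transGO (Q := qMinus m F a' b') (Q' := qMinus m F a b) T⁻¹ (transInv T hT) k'
      have hkk : transGO T hT k = k' := go_ext fun x => by
        rw [transGO_apply, transGO_apply, inv_inv, gl_mulVec_inv, gl_mulVec_inv]
      refine ⟨_, ⟨k, ?_, rfl⟩, ?_⟩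
      · show ε k = 1
        rw [← hpar, hkk]; exact hk'
      · show MulAut.congr (transP T hT) (A _ k) = _
        rw [transP_A, hkk]
  set β : MulAut (Cfsg.POmega F ⇑(qMinus m F a' b')) := (transP T hT).symm.trans ψ
  have hβ : ∀ y, MulAut.congr ψ y = β * MulAut.congr (transP T hT) y * β⁻¹ := fun y => by
    refine MulEquiv.ext fun x => ?_
    show ψ (y (ψ.symm x)) = ψ ((transP T hT).symm (transP T hT (y ((transP T hT).symm
      (transP T hT (ψ.symm x))))))
    rw [MulEquiv.symm_apply_apply, MulEquiv.symm_apply_apply]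
  apply le_antisymm
  · rintro _ ⟨y, hy, rfl⟩
    show MulAut.congr ψ y ∈ _
    rw [hβ]
    exact Subgroup.Normal.conj_mem inferInstance _ (himg ▸ Subgroup.mem_map_of_mem _ hy) _
  · intro z hz
    have hz' : β⁻¹ * z * β ∈ ε'.ker.map (A (qMinus m F a' b')) := by
      simpa using Subgroup.Normal.conj_mem inferInstance z hz β⁻¹
    rw [← himg] at hz'
    obtain ⟨y, hy, hy'⟩ := hz'
    refine ⟨y, hy, ?_⟩
    show MulAut.congr ψ y = z
    rw [hβ, show MulAut.congr (transP T hT) y = β⁻¹ * z * β from hy']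
    group

/-- The data of a field class, on a standard model. -/
theorem minus_class (hm : 3 ≤ m) (hab : Aniso a b)
    (x : MulAut (Cfsg.POmega F ⇑(qMinus m F a b)))
    (hx : ∃ (a' b' : F) (ψ : Cfsg.POmega F ⇑(qMinus m F a b) ≃*
        Cfsg.POmega F (Cfsg.quadFormMinus m F a' b')) (σ : F ≃+* F),
      (∀ z₁ z₂ : F, z₁ ^ 2 + a' * z₁ * z₂ + b' * z₂ ^ 2 = 0 → z₁ = 0 ∧ z₂ = 0) ∧
      σ ≠ RingEquiv.refl F ∧ σ a' = a' ∧ σ b' = b' ∧
      Cfsg.IsFieldAutPOmegaOf (Cfsg.quadFormMinus m F a' b') σ ((ψ.symm.trans x).trans ψ))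
    {r : ℕ} (hxr : orderOf x = r) :
    ∃ (a' b' : F) (_ : Aniso a' b') (σ : fieldSub (qMinus m F a' b'))
      (ψ : Cfsg.POmega F ⇑(qMinus m F a b) ≃* Cfsg.POmega F ⇑(qMinus m F a' b')),
      (σ : F ≃+* F) a' = a' ∧ (σ : F ≃+* F) b' = b' ∧ orderOf (σ : F ≃+* F) = r ∧
      MulAut.congr ψ x = Fd (qMinus m F a' b') σ := by
  obtain ⟨a', b', ψ, σ, hab', -, ha, hb, h⟩ := hx
  have e := Forms.coe_qMinus m F a' b'
  revert ψ
  rw [← e]
  intro ψ h
  let σ' : fieldSub (qMinus m F a' b') := ⟨σ, fieldSub_minus_iff ha hb⟩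
  rw [show σ = (σ' : F ≃+* F) from rfl, isField_iff] at h
  refine ⟨a', b', hab', σ', ψ, ha, hb, ?_, h⟩
  rw [← orderOf_Fd (good_qMinus m hm hab') (exists_ssim_minus hab'), ← h,
    show (ψ.symm.trans x).trans ψ = MulAut.congr ψ x from rfl, MulEquiv.orderOf_eq, hxr]

/-- The coset statement. -/
theorem coset_minus (hm : 3 ≤ m) (hab : Aniso a b) (Qf : (Jm → F) → F)
    (hQf : ⇑(qMinus m F a b) = Qf) (x δ : MulAut (Cfsg.POmega F Qf))
    (hx : ∃ (a' b' : F) (ψ : Cfsg.POmega F Qf ≃*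
        Cfsg.POmega F (Cfsg.quadFormMinus m F a' b')) (σ : F ≃+* F),
      (∀ z₁ z₂ : F, z₁ ^ 2 + a' * z₁ * z₂ + b' * z₂ ^ 2 = 0 → z₁ = 0 ∧ z₂ = 0) ∧
      σ ≠ RingEquiv.refl F ∧ σ a' = a' ∧ σ b' = b' ∧
      Cfsg.IsFieldAutPOmegaOf (Cfsg.quadFormMinus m F a' b') σ ((ψ.symm.trans x).trans ψ))
    {r : ℕ} (hr : r.Prime) (hxr : orderOf x = r)
    (hδ : δ ∈ Cfsg.autSubgroupOf fun β : MulAut (Cfsg.POmega F Qf) =>
      ∃ g : GL Jm F, g ∈ Cfsg.Geo.quadSimilarityGroup (F := F) Qf ∧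
        Cfsg.PreservesSingularClassesMinus m a b (g : Matrix _ _ F) ∧
        Cfsg.IsInducedBySemilinearPOmega Qf g (RingEquiv.refl F) β) :
    orderOf (δ * x) = r ↔ Cfsg.IsConjUnder
      (Cfsg.autSubgroupOf fun β : MulAut (Cfsg.POmega F Qf) =>
        ∃ g : GL Jm F, g ∈ Cfsg.Geo.quadSimilarityGroup (F := F) Qf ∧
          Cfsg.PreservesSingularClassesMinus m a b (g : Matrix _ _ F) ∧
          Cfsg.IsInducedBySemilinearPOmega Qf g (RingEquiv.refl F) β) x (δ * x) := by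
  subst hQf
  obtain ⟨ε, hε, hεp⟩ := exists_par_minus (m := m) (by omega) hab
  rw [inndiag_minus_ker hεp] at hδ ⊢
  obtain ⟨a', b', hab', σ, ψ, ha, hb, hσ, h⟩ := minus_class hm hab x hx hxr
  obtain ⟨ε', hε', -⟩ := exists_par_minus (m := m) (by omega) hab'
  obtain ⟨_, T⟩ := minusFieldTwist hm hab' hε' hr.pos ha hb hσ
  have hmap := minus_congr hm hab hab' hε hε' ψ
  rw [← isConjUnder_map_iff (MulAut.congr ψ), hmap, map_mul, h, ← range_comp_ker,
    ← MulEquiv.orderOf_eq (MulAut.congr ψ), map_mul, h]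
  haveI : ((A (qMinus m F a' b')).comp ε'.ker.subtype).range.Normal := by
    rw [range_comp_ker]; exact minus_normal hm hab' hε'
  refine T.coset_iff (α := 1) (by simp) (by rw [← h, MulEquiv.orderOf_eq, hxr]) ?_
  rw [range_comp_ker, ← hmap]
  exact Subgroup.mem_map_of_mem _ hδ

end Cfsg.Agent.KnownB.Proj.Orth
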