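import Cfsg.Agent.KnownB.Proj.Orth.PlusTwist

/-! Field and graph-field automorphism classes of the plus type. -/

set_option autoImplicit false
set_option maxHeartbeats 1000000

namespace Cfsg.Agent.KnownB.Proj.Orth

open Matrix Module
open Cfsg.Agent.Forms (qPlus)
open Cfsg.Agent.KnownB.AutPSL (nrm)

universe u

variable {F : Type u} [Field F] [Finite F] {n : ℕ}

local notation "Ip" => (Fin (n + 1) ⊕ Fin (n + 1))

theorem mapGO_pty (hn : 2 ≤ n) (σ : fieldSub (qPlus (n + 1) F)) (g : GO (qPlus (n + 1) F)) :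
    ptyPlus (n + 1) (mapGO σ g) = ptyPlus (n + 1) g := ptyPlus_mapGO (by omega) σ g

/-- The graph-field map on similitudes. -/
noncomputable def gfMap (σ : fieldSub (qPlus (n + 1) F)) (v : Ip → F) :
    GO (qPlus (n + 1) F) →* GO (qPlus (n + 1) F) :=
  (MulAut.conj (reflGO (qPlus (n + 1) F) v)).toMonoidHom.comp (mapGO σ)

theorem gfMap_apply (σ : fieldSub (qPlus (n + 1) F)) (v : Ip → F) (g : GO (qPlus (n + 1) F)) :
    gfMap σ v g =
      reflGO (qPlus (n + 1) F) v * mapGO σ g * reflGO (qPlus (n + 1) F) v := by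
  show MulAut.conj (reflGO (qPlus (n + 1) F) v) (mapGO σ g) = _
  rw [MulAut.conj_apply, inv_eq_of_mul_eq_one_right (reflGO_mul_self _ v)]

theorem gfMap_pty (hn : 2 ≤ n) (σ : fieldSub (qPlus (n + 1) F)) (v : Ip → F)
    (g : GO (qPlus (n + 1) F)) : ptyPlus (n + 1) (gfMap σ v g) = ptyPlus (n + 1) g := by
  rw [gfMap_apply, map_mul, map_mul, mapGO_pty hn, mul_right_comm, ← map_mul, reflGO_mul_self,
    map_one, one_mul]

/-- The field twist. -/
theorem plusFieldTwist (hn : 4 ≤ n) {r : ℕ} (hr : 0 < r) {σ : fieldSub (qPlus (n + 1) F)}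
    (hσ : orderOf (σ : F ≃+* F) = r) :
    GTwist ((A (qPlus (n + 1) F)).comp (ptyPlus (n + 1)).ker.subtype) (Fd (qPlus (n + 1) F) σ)
      (scKer (ptyPlus (n + 1)) (isPar_plus (Nat.succ_pos n)).scal)
      (kerMap (ptyPlus (n + 1)) (mapGO σ) (mapGO_pty (by omega) σ))
      (Units.map ((σ : F ≃+* F) : F →* F)) r :=
  parTwist (fun g => A_eq_one_iff (good_qPlus _ (by omega)) g) (exists_ne_qPlus (Nat.succ_pos n))
    ⟨Sum.inl 0⟩ _ _ _ _ (fun g => Fd_A σ g) _ hr hσ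
    (by rw [← map_pow, show σ ^ r = 1 from Subtype.ext (by
      rw [SubmonoidClass.coe_pow, ← hσ, pow_orderOf_eq_one]; rfl), map_one])
    (mapGO_iter_order σ hσ) (mapGO_sc σ) (lang_plus_field (by omega) hr σ hσ)

/-- The graph-field twist. -/
theorem plusGraphTwist (hn : 4 ≤ n) {σ : fieldSub (qPlus (n + 1) F)}
    (hσ : orderOf (σ : F ≃+* F) = 2) {v : Ip → F} (hv : qPlus (n + 1) F v ≠ 0)
    (hσv : ∀ i, (σ : F ≃+* F) (v i) = v i) :
    GTwist ((A (qPlus (n + 1) F)).comp (ptyPlus (n + 1)).ker.subtype)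
      (A (qPlus (n + 1) F) (reflGO (qPlus (n + 1) F) v) * Fd (qPlus (n + 1) F) σ)
      (scKer (ptyPlus (n + 1)) (isPar_plus (Nat.succ_pos n)).scal)
      (kerMap (ptyPlus (n + 1)) (gfMap σ v) (gfMap_pty (by omega) σ v))
      (Units.map ((σ : F ≃+* F) : F →* F)) 2 := by
  set R := reflGO (qPlus (n + 1) F) v with hR
  have hRR : R * R = 1 := reflGO_mul_self _ v
  have hσR : mapGO σ R = R := mapGO_refl_plus σ hσv
  have hσ2 : σ * σ = 1 := Subtype.ext (by
    rw [Subgroup.coe_mul, ← sq, ← hσ, pow_orderOf_eq_one]; rfl)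
  refine parTwist (fun g => A_eq_one_iff (good_qPlus _ (by omega)) g)
    (exists_ne_qPlus (Nat.succ_pos n)) ⟨Sum.inl 0⟩ _ _ _ _ (fun g => ?_) _ two_pos hσ ?_
    (fun g => ?_) (fun u => ?_) fun g hg hN => ?_
  · rw [gfMap_apply, ← hR, mul_assoc, Fd_A, ← mul_assoc, ← map_mul,
      ← mul_assoc (A _ (R * mapGO σ g * R)), ← map_mul, mul_assoc (R * mapGO σ g) R R, hRR,
      mul_one]
  · rw [sq, mul_assoc, ← mul_assoc (Fd _ σ), Fd_A, hσR, mul_assoc (A _ R), ← mul_assoc, ← map_mul,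
      hRR, map_one, one_mul, ← map_mul, hσ2, map_one]
  · show gfMap σ v (gfMap σ v g) = g
    rw [gfMap_apply, gfMap_apply, ← hR, map_mul, map_mul, hσR]
    have h2 := mapGO_iter_order σ hσ g
    change mapGO σ (mapGO σ g) = g at h2
    rw [h2, show R * (R * g * R) * R = (R * R) * g * (R * R) by group, hRR, one_mul, mul_one]
  · rw [gfMap_apply, mapGO_sc, ← hR, (sc_comm _ R).symm.eq, mul_assoc, hRR, mul_one]
  · have hN' : g * gfMap σ v g = 1 := by simpa [nrm] using hN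
    rw [gfMap_apply] at hN'
    obtain ⟨h, hh, e⟩ := lang_plus_graph (by omega) σ hσ hv hσv g hg hN'
    exact ⟨h, hh, by rw [gfMap_apply]; exact e⟩

/-- `Inndiag` of the plus type is normal. -/
theorem range_plus_normal (hn : 4 ≤ n) :
    ((A (qPlus (n + 1) F)).comp (ptyPlus (n + 1)).ker.subtype).range.Normal := by
  rw [range_comp_ker]
  exact map_ker_normal _ (fun σ g => mapGO_pty (by omega) σ g)
    (exists_decomp (good_qPlus _ (by omega)) fieldSub_qPlus)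

/-- A graph-field automorphism of prime order has order two. -/
theorem graph_class (hn : 4 ≤ n) {x : MulAut (Cfsg.POmega F ⇑(qPlus (n + 1) F))} {r : ℕ}
    (hr : r.Prime) (hxr : orderOf x = r) {α γ φ : MulAut (Cfsg.POmega F ⇑(qPlus (n + 1) F))}
    {σ : F ≃+* F} {v : Ip → F} {g : GL Ip F} (hσ : σ ≠ RingEquiv.refl F)
    (hσv : ∀ i, σ (v i) = v i) (hg : (g : Matrix Ip Ip F) = Cfsg.reflectionMatrix ⇑(qPlus (n + 1) F) v)
    (hγ : Cfsg.IsInducedBySemilinearPOmega ⇑(qPlus (n + 1) F) g (RingEquiv.refl F) γ)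
    (hφ : Cfsg.IsFieldAutPOmegaOf ⇑(qPlus (n + 1) F) σ φ) (hv : qPlus (n + 1) F v ≠ 0)
    (h : α * x * α⁻¹ = γ * φ) :
    r = 2 ∧ ∃ σ' : fieldSub (qPlus (n + 1) F), (σ' : F ≃+* F) = σ ∧ orderOf (σ' : F ≃+* F) = 2 ∧
      α * x * α⁻¹ = A (qPlus (n + 1) F) (reflGO (qPlus (n + 1) F) v) * Fd (qPlus (n + 1) F) σ' := by
  classical
  have hG := good_qPlus (F := F) (n + 1) (by omega)
  let σ' : fieldSub (qPlus (n + 1) F) := ⟨σ, by rw [fieldSub_qPlus]; trivial⟩
  set R := reflGO (qPlus (n + 1) F) v with hR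
  have hgR : g = R.1 := Units.ext (hg.trans
    ((Forms.eq_reflection_iff (qPlus (n + 1) F) _ v).mpr (MulEquiv.apply_symm_apply _ _)).symm)
  rw [hgR, show (RingEquiv.refl F : F ≃+* F) =
    ((1 : fieldSub (qPlus (n + 1) F)) : F ≃+* F) from rfl, isInduced_iff', map_one, mul_one] at hγ
  rw [show σ = (σ' : F ≃+* F) from rfl, isField_iff] at hφ
  subst hγ hφ
  obtain ⟨π, hπ⟩ := exists_fieldProj hG exists_ssim_plus
  have ho : orderOf (A (qPlus (n + 1) F) R * Fd (qPlus (n + 1) F) σ') = r := by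
    rw [← h, ← MulAut.conj_apply, MulEquiv.orderOf_eq, hxr]
  have hpow := pow_orderOf_eq_one (A (qPlus (n + 1) F) R * Fd (qPlus (n + 1) F) σ')
  rw [ho] at hpow
  have hσr : σ ^ r = 1 := by
    have := congrArg π hpow
    rw [map_pow, hπ, map_one] at this
    exact this
  have hσ1 : σ ≠ 1 := hσ
  haveI : Fact r.Prime := ⟨hr⟩
  have hord : orderOf σ = r := orderOf_eq_prime hσr hσ1
  refine ⟨?_, σ', rfl, ?_, h⟩ <;>
  · by_contra hne
    have hodd : Odd r := hr.odd_of_ne_two (fun e => hne (by first | exact e | rw [← e]; exact hord))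
    have hcomm : Commute (A (qPlus (n + 1) F) R) (Fd (qPlus (n + 1) F) σ') := by
      show _ = _
      rw [Fd_A, mapGO_refl_plus σ' hσv]
    have hσ'r : σ' ^ r = 1 := Subtype.ext (by rw [SubmonoidClass.coe_pow]; exact hσr)
    obtain ⟨k, rfl⟩ := hodd
    have hAR : A (qPlus (n + 1) F) R = 1 := by
      rw [hcomm.mul_pow, ← map_pow, ← map_pow, hσ'r, map_one, mul_one, pow_succ, pow_mul, sq,
        hR, reflGO_mul_self, one_pow, one_mul] at hpow
      exact hpow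
    obtain ⟨u, hu⟩ := (A_eq_one_iff hG R).mp hAR
    have h1 := (isPar_plus (F := F) (Nat.succ_pos n)).refl v hv
    rw [← hR, ← hu, (isPar_plus (F := F) (Nat.succ_pos n)).scal] at h1
    exact absurd h1 (by decide)

/-- The coset statement for field and graph-field automorphisms. -/
theorem coset_plus (hn : 4 ≤ n) (Qf : (Ip → F) → F) (hQf : ⇑(qPlus (n + 1) F) = Qf)
    (x δ : MulAut (Cfsg.POmega F Qf))
    (hx : Cfsg.IsFieldAutClassPOmega Qf x ∨
      ∃ (α γ φ : MulAut (Cfsg.POmega F Qf)) (σ : F ≃+* F) (v : Ip → F) (g : GL Ip F),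
        σ ≠ RingEquiv.refl F ∧ Qf v ≠ 0 ∧ (∀ i, σ (v i) = v i) ∧
        (g : Matrix Ip Ip F) = Cfsg.reflectionMatrix Qf v ∧
        Cfsg.IsInducedBySemilinearPOmega Qf g (RingEquiv.refl F) γ ∧
        Cfsg.IsFieldAutPOmegaOf Qf σ φ ∧ α * x * α⁻¹ = γ * φ)
    {r : ℕ} (hr : r.Prime) (hxr : orderOf x = r)
    (hδ : δ ∈ Cfsg.autSubgroupOf fun β : MulAut (Cfsg.POmega F Qf) =>
      ∃ g : GL Ip F, g ∈ Cfsg.Geo.quadSimilarityGroup (F := F) Qf ∧
        Cfsg.PreservesSingularClasses Qf (g : Matrix _ _ F) ∧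
        Cfsg.IsInducedBySemilinearPOmega Qf g (RingEquiv.refl F) β) :
    orderOf (δ * x) = r ↔ Cfsg.IsConjUnder
      (Cfsg.autSubgroupOf fun β : MulAut (Cfsg.POmega F Qf) =>
        ∃ g : GL Ip F, g ∈ Cfsg.Geo.quadSimilarityGroup (F := F) Qf ∧
          Cfsg.PreservesSingularClasses Qf (g : Matrix _ _ F) ∧
          Cfsg.IsInducedBySemilinearPOmega Qf g (RingEquiv.refl F) β) x (δ * x) := by
  subst hQf
  rw [inndiag_plus_eq, ← range_comp_ker] at hδ ⊢
  haveI := range_plus_normal (F := F) hn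
  have hG := good_qPlus (F := F) (n + 1) (by omega)
  rcases hx with hx | ⟨α, γ, φ, σ, v, g, hσ, hv, hσv, hg, hγ, hφ, h⟩
  · obtain ⟨α, φ, σ, hσ, hφ, h⟩ := hx
    let σ' : fieldSub (qPlus (n + 1) F) := ⟨σ, by rw [fieldSub_qPlus]; trivial⟩
    rw [show σ = (σ' : F ≃+* F) from rfl, isField_iff] at hφ
    subst hφ
    have ho : orderOf (σ' : F ≃+* F) = r := by
      rw [← orderOf_Fd hG exists_ssim_plus, ← h, ← MulAut.conj_apply, MulEquiv.orderOf_eq, hxr]
    exact (plusFieldTwist hn hr.pos ho).coset_iff h hxr hδ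
  · obtain ⟨rfl, σ', rfl, ho, h'⟩ := graph_class hn hr hxr hσ hσv hg hγ hφ hv h
    exact (plusGraphTwist hn ho hv hσv).coset_iff h' hxr hδ

end Cfsg.Agent.KnownB.Proj.Orth
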