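import Cfsg.Agent.KnownB.Proj.Orth.TwistGen
import Cfsg.Agent.KnownB.Proj.Orth.DiagModels

/-! Field and graph-field twists of `Inndiag` of the plus type. -/

set_option autoImplicit false
set_option maxHeartbeats 1000000

namespace Cfsg.Agent.KnownB.Proj.Orth

open Matrix Module
open Cfsg.Agent.Forms (qPlus qMinus)
open Cfsg.Agent.KnownB.AutPSL (nrm)

universe u

variable {F : Type u} [Field F]

section Coef

variable {m : ℕ}

theorem qPlus_comp {F₀ : Type*} [Field F₀] (j : F₀ →+* F) (v : Fin m ⊕ Fin m → F₀) :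
    qPlus m F (⇑j ∘ v) = j (qPlus m F₀ v) := by
  rw [Forms.coe_qPlus, Forms.coe_qPlus]
  simp [Cfsg.quadFormPlus, map_sum]

theorem fieldSub_qPlus : fieldSub (qPlus m F) = ⊤ :=
  eq_top_iff.mpr fun σ _ v => qPlus_comp (σ : F →+* F) v

variable [Finite F]

theorem exists_ssim_plus (σ : F ≃+* F) : ∃ S : SSim (qPlus m F), S.σ = σ := by
  have hS : ∀ v, qPlus m F (((1 : GL (Fin m ⊕ Fin m) F) : Matrix _ _ F) *ᵥ (⇑σ ∘ v)) =
      1 * σ (qPlus m F v) := fun v => by
    rw [Units.val_one, Matrix.one_mulVec, one_mul]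
    exact qPlus_comp (σ : F →+* F) v
  exact ⟨pairSSim one_ne_zero hS, rfl⟩

theorem ptyPlus_mapGO (hm : 3 ≤ m) (σ : fieldSub (qPlus m F)) (g : GO (qPlus m F)) :
    ptyPlus m (mapGO σ g) = ptyPlus m g :=
  par_comp ((σ : F ≃+* F) : F →+* F) (fun x => qPlus_comp _ x) Forms.qPlus_nondegenerate
    (by simp; omega) (isPar_plus (by omega)) (isPar_plus (by omega)) (mapGO σ) (mapGO_val σ) g

theorem mapGO_refl_plus (σ : fieldSub (qPlus m F)) {v : Fin m ⊕ Fin m → F}
    (hv : ∀ i, (σ : F ≃+* F) (v i) = v i) :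
    mapGO σ (reflGO (qPlus m F) v) = reflGO (qPlus m F) v := by
  refine (refl_hom ((σ : F ≃+* F) : F →+* F) (fun x => qPlus_comp _ x) (mapGO σ)
    (mapGO_val σ) v).trans ?_
  congr 1
  funext i
  exact hv i

theorem reflGO_mul_self {ι : Type} [Fintype ι] [DecidableEq ι] (Q : QuadraticForm F (ι → F))
    (v : ι → F) : reflGO Q v * reflGO Q v = 1 := by
  show isoInc Q _ * isoInc Q _ = 1
  rw [← map_mul, ← map_mul, Forms.reflection_mul_self, map_one, map_one]

end Coef

variable [Finite F] {n : ℕ}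

local notation "Ip" => (Fin (n + 1) ⊕ Fin (n + 1))
local notation "Jp" => ((Fin n ⊕ Fin n) ⊕ Fin 2)

/-- The reflection exchanging the first hyperbolic pair. -/
noncomputable def rho (n : ℕ) (F : Type u) [Field F] : GO (qPlus (n + 1) F) :=
  reflGO (qPlus (n + 1) F) (planeVec (Nat.succ_pos n) (-1))

theorem rho_pty : ptyPlus (n + 1) (rho n F) = Multiplicative.ofAdd 1 :=
  (isPar_plus (Nat.succ_pos n)).refl _ (by
    haveI := Fintype.ofFinite F
    rw [Q_planeVec]; exact neg_ne_zero.mpr one_ne_zero)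

theorem rho_apply (v : Ip → F) :
    ((rho n F).1 : Matrix Ip Ip F) *ᵥ v =
      Sum.elim (fun i => if i = 0 then v (Sum.inr 0) else v (Sum.inl i))
        (fun i => if i = 0 then v (Sum.inl 0) else v (Sum.inr i)) := by
  haveI := Fintype.ofFinite F
  refine (reflGO_plane (Nat.succ_pos n) v).trans ?_
  funext k
  rcases k with i | i <;> by_cases hi : i = 0
  · subst hi; simp [planeVec]
  · simp [planeVec, hi, show (⟨0, Nat.succ_pos n⟩ : Fin (n + 1)) = 0 from rfl]
  · subst hi; simp [planeVec]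
  · simp [planeVec, hi, show (⟨0, Nat.succ_pos n⟩ : Fin (n + 1)) = 0 from rfl]

/-- Over a field where `z² + z + ζ` has the roots `t, -1 - t`, the minus model is hyperbolic. -/
theorem exists_split_iso {ζ t : F} (ht : t ^ 2 + t + ζ = 0) (hne : -1 - t ≠ t) :
    ∃ T : (Jp → F) ≃ₗ[F] (Ip → F), (∀ v, qPlus (n + 1) F (T v) = qMinus n F 1 ζ v) ∧
      ∀ σ : F ≃+* F, σ ζ = ζ → σ t = -1 - t → ∀ u,
        T (⇑σ ∘ u) = ((rho n F).1 : Matrix Ip Ip F) *ᵥ (⇑σ ∘ T u) := by
  let T : (Jp → F) →ₗ[F] (Ip → F) :=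
    { toFun := fun v => Sum.elim
        (Fin.cons (v (Sum.inr 0) - t * v (Sum.inr 1)) fun i => v (Sum.inl (Sum.inl i)))
        (Fin.cons (v (Sum.inr 0) - (-1 - t) * v (Sum.inr 1)) fun i => v (Sum.inl (Sum.inr i)))
      map_add' := fun x y => by
        funext k
        rcases k with i | i <;> refine Fin.cases ?_ (fun i => ?_) i <;> simp <;> ring
      map_smul' := fun c x => by
        funext k
        rcases k with i | i <;> refine Fin.cases ?_ (fun i => ?_) i <;> simp <;> ring }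
  have hinj : Function.Injective T := by
    rw [injective_iff_map_eq_zero]
    intro v hv
    have h0 : v (Sum.inr 0) - t * v (Sum.inr 1) = 0 := by
      simpa [T] using congrFun hv (Sum.inl 0)
    have h1 : v (Sum.inr 0) - (-1 - t) * v (Sum.inr 1) = 0 := by
      simpa [T] using congrFun hv (Sum.inr 0)
    have h2 : v (Sum.inr 1) = 0 := by
      refine (mul_eq_zero.mp (show (-1 - t - t) * v (Sum.inr 1) = 0 by
        linear_combination h0 - h1)).resolve_left (sub_ne_zero.mpr hne)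
    funext k
    rcases k with (i | i) | i
    · simpa [T] using congrFun hv (Sum.inl i.succ)
    · simpa [T] using congrFun hv (Sum.inr i.succ)
    · fin_cases i
      · simpa [h2] using h0
      · exact h2
  refine ⟨LinearEquiv.ofBijective T ⟨hinj, ?_⟩, fun v => ?_, fun σ hζ hσ u => ?_⟩
  · refine (LinearMap.injective_iff_surjective_of_finrank_eq_finrank ?_).mp hinj
    simp; ring
  · show qPlus (n + 1) F (T v) = _
    rw [Forms.coe_qPlus, Forms.coe_qMinus]
    simp only [Cfsg.quadFormPlus, Cfsg.quadFormMinus, Fin.sum_univ_succ]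
    simp [T]
    linear_combination -(v (Sum.inr 1)) ^ 2 * ht
  · show T _ = ((rho n F).1 : Matrix Ip Ip F) *ᵥ (⇑σ ∘ T u)
    rw [rho_apply]
    funext k
    rcases k with i | i <;> refine Fin.cases ?_ (fun i => ?_) i <;>
      simp [T, Fin.succ_ne_zero, hσ]

/-- Lang's theorem for the similitudes of the plus form. -/
theorem lang_plus {r : ℕ} (hr : 0 < r) (σ : fieldSub (qPlus (n + 1) F))
    (hσ : orderOf (σ : F ≃+* F) = r) (g : GO (qPlus (n + 1) F))
    (hg : nrm (mapGO σ) r g = 1) :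
    ∃ h, g = h * (mapGO σ h)⁻¹ ∨ g = h * rho n F * (mapGO σ h)⁻¹ := by
  classical
  haveI : Finite (fixedF (σ : F ≃+* F)) := Finite.of_injective _ Subtype.val_injective
  set j := (fixedF (σ : F ≃+* F)).subtype
  have hj := fixedF_spec (σ : F ≃+* F)
  obtain ⟨H, ν, Q₀, hgH, hnd, hval⟩ := descend (exists_ne_qPlus (F := F) (Nat.succ_pos n))
    Forms.qPlus_nondegenerate hr σ hσ j hj g hg
  rcases classify (n := n) Q₀ hnd (by simp; ring) with ⟨e, he⟩ | ⟨ζ, e, hζ, he⟩
  · obtain ⟨L, hL, hgL⟩ := extend_coords (Q := qPlus (n + 1) F) j hj hgH hval e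
      (qPlus (n + 1) F) _ (fun v => qPlus_comp j v) he
    obtain ⟨h, hh⟩ := exists_go ν.ne_zero L hL
    exact ⟨h, Or.inl (eq_mul_mapGO fun w => by rw [hh, hgL, hh])⟩
  · obtain ⟨L, hL, hgL⟩ := extend_coords (Q := qPlus (n + 1) F) j hj hgH hval e
      (qMinus n F 1 (j ζ)) _ (fun v => by
        have := qMinus_comp n j 1 ζ v
        rwa [map_one] at this) he
    have hna : ¬ Aniso 1 (j ζ) := fun ha => plus_not_minus ha L.symm (c := (ν : F)⁻¹) fun w => by
      have := hL (L.symm w)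
      rw [LinearEquiv.apply_symm_apply] at this
      rw [this, inv_mul_cancel_left₀ ν.ne_zero]
    obtain ⟨t, ht⟩ : ∃ t : F, t ^ 2 + t + j ζ = 0 := by
      by_contra hcon
      refine hna fun z₁ z₂ hz => ?_
      by_cases h2 : z₂ = 0
      · subst h2; exact ⟨by simpa using hz, rfl⟩
      · exact absurd ⟨z₁ / z₂, by field_simp; linear_combination hz⟩ hcon
    have hnot : ∀ t' : fixedF (σ : F ≃+* F), t ≠ j t' := fun t' h => by
      refine one_ne_zero (hζ t' 1 (j.injective ?_)).2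
      rw [map_zero]
      simp only [map_add, map_mul, map_pow, map_one]
      rw [← h]
      linear_combination ht
    have hσt : (σ : F ≃+* F) t ≠ t := fun h => by
      obtain ⟨t', ht'⟩ := (hj t).mp h
      exact hnot t' ht'.symm
    have hσζ : (σ : F ≃+* F) (j ζ) = j ζ := (hj _).mpr ⟨ζ, rfl⟩
    have hroot : (σ : F ≃+* F) t = -1 - t := by
      have h1 : (σ : F ≃+* F) t ^ 2 + (σ : F ≃+* F) t + j ζ = 0 := by
        conv_lhs => rw [← hσζ, ← map_pow, ← map_add, ← map_add, ht]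
        exact map_zero _
      refine ((mul_eq_zero.mp (show ((σ : F ≃+* F) t - t) * ((σ : F ≃+* F) t - (-1 - t)) = 0 by
        linear_combination h1 - ht)).resolve_left (sub_ne_zero.mpr hσt) |> sub_eq_zero.mp)
    have hne : -1 - t ≠ t := fun h => hσt (hroot.trans h)
    obtain ⟨T, hT, hTσ⟩ := exists_split_iso (n := n) ht hne
    obtain ⟨h, hh⟩ := exists_go ν.ne_zero (T.symm.trans L) fun w => by
      rw [LinearEquiv.trans_apply, hL, ← hT, T.apply_symm_apply]
    refine ⟨h, Or.inr (eq_mul_mapGO fun w => ?_)⟩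
    rw [hh, LinearEquiv.trans_apply, hgL]
    have e2 := hTσ _ hσζ hroot (T.symm w)
    rw [T.apply_symm_apply] at e2
    rw [show ((h * rho n F).1 : GL Ip F) = h.1 * (rho n F).1 from rfl, Units.val_mul,
      ← Matrix.mulVec_mulVec, hh, LinearEquiv.trans_apply, ← e2, T.symm_apply_apply]

theorem mapGO_rho (σ : fieldSub (qPlus (n + 1) F)) : mapGO σ (rho n F) = rho n F :=
  mapGO_refl_plus σ fun i => by
    rcases i with i | i <;> by_cases hi : i = (⟨0, Nat.succ_pos n⟩ : Fin (n + 1)) <;>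
      simp [planeVec, Pi.single_apply, hi, apply_ite ⇑(σ : F ≃+* F)]

theorem mz2_mul_self (x : Multiplicative (ZMod 2)) : x * x = 1 := by revert x; decide

/-- The field twist, in the kernel. -/
theorem lang_plus_field (hn : 2 ≤ n) {r : ℕ} (hr : 0 < r) (σ : fieldSub (qPlus (n + 1) F))
    (hσ : orderOf (σ : F ≃+* F) = r) (g : GO (qPlus (n + 1) F)) (hgp : ptyPlus (n + 1) g = 1)
    (hg : nrm (mapGO σ) r g = 1) :
    ∃ h, ptyPlus (n + 1) h = 1 ∧ g = h * (mapGO σ h)⁻¹ := by
  obtain ⟨h, he | he⟩ := lang_plus hr σ hσ g hg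
  · rcases mz2_cases (ptyPlus (n + 1) h) with hp | hp
    · exact ⟨h, hp, he⟩
    · refine ⟨h * rho n F, by rw [map_mul, hp, rho_pty, mz2_mul_self], ?_⟩
      rw [map_mul, mapGO_rho, _root_.mul_inv_rev, he]
      group
  · exfalso
    rw [he, map_mul, map_mul, map_inv, ptyPlus_mapGO (by omega), rho_pty] at hgp
    rw [mul_right_comm, mul_inv_cancel, one_mul] at hgp
    exact absurd hgp (by decide)

/-- The graph-field twist, in the kernel. -/
theorem lang_plus_graph (hn : 2 ≤ n) (σ : fieldSub (qPlus (n + 1) F))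
    (hσ : orderOf (σ : F ≃+* F) = 2) {v : Ip → F} (hv : qPlus (n + 1) F v ≠ 0)
    (hσv : ∀ i, (σ : F ≃+* F) (v i) = v i)
    (g : GO (qPlus (n + 1) F)) (hgp : ptyPlus (n + 1) g = 1)
    (hg : g * (reflGO (qPlus (n + 1) F) v * mapGO σ g * reflGO (qPlus (n + 1) F) v) = 1) :
    ∃ h, ptyPlus (n + 1) h = 1 ∧
      g = h * (reflGO (qPlus (n + 1) F) v * mapGO σ h * reflGO (qPlus (n + 1) F) v)⁻¹ := by
  set R := reflGO (qPlus (n + 1) F) v with hR
  have hRR : R * R = 1 := reflGO_mul_self _ v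
  have hRinv : R⁻¹ = R := inv_eq_of_mul_eq_one_right hRR
  have hσR : mapGO σ R = R := mapGO_refl_plus σ hσv
  have hRp : ptyPlus (n + 1) R = Multiplicative.ofAdd 1 := (isPar_plus (Nat.succ_pos n)).refl _ hv
  have key : ∀ x : GO (qPlus (n + 1) F), ptyPlus (n + 1) x = Multiplicative.ofAdd 1 →
      nrm (mapGO σ) 2 x = 1 → ∃ h, x = h * rho n F * (mapGO σ h)⁻¹ := by
    intro x hx hN
    obtain ⟨h, he | he⟩ := lang_plus (by omega) σ hσ x hN
    · exfalso
      rw [he, map_mul, map_inv, ptyPlus_mapGO (by omega), mul_inv_cancel] at hx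
      exact absurd hx (by decide)
    · exact ⟨h, he⟩
  obtain ⟨k, hk⟩ := key (g * R) (by rw [map_mul, hgp, hRp, one_mul]) (by
    show g * R * mapGO σ (g * R * mapGO σ 1) = 1
    rw [map_one, mul_one, map_mul, hσR, ← hg]
    group)
  obtain ⟨k₀, hk₀⟩ := key R hRp (by
    show R * mapGO σ (R * mapGO σ 1) = 1
    rw [map_one, mul_one, hσR, hRR])
  have e : g = k * k₀⁻¹ * (R * mapGO σ (k * k₀⁻¹) * R)⁻¹ := by
    have e1 : k₀⁻¹ * R * mapGO σ k₀ = rho n F := by rw [hk₀]; group
    calc g = g * R * R⁻¹ := (mul_inv_cancel_right g R).symm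
      _ = k * (k₀⁻¹ * R * mapGO σ k₀) * (mapGO σ k)⁻¹ * R⁻¹ := by rw [e1, hk]
      _ = _ := by rw [map_mul, map_inv, hRinv, _root_.mul_inv_rev, _root_.mul_inv_rev,
        _root_.mul_inv_rev, inv_inv, hRinv]; group
  rcases mz2_cases (ptyPlus (n + 1) (k * k₀⁻¹)) with hp | hp
  · exact ⟨_, hp, e⟩
  · refine ⟨k * k₀⁻¹ * R, by rw [map_mul, hp, hRp, mz2_mul_self], e.trans ?_⟩
    rw [map_mul (mapGO σ) (k * k₀⁻¹) R, hσR]
    group

end Cfsg.Agent.KnownB.Proj.Orth
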